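import Cfsg.Agent.BlockTame.Ctx
import Cfsg.Agent.BlockDih.Fourier

/-!
# Integral columns with the orthogonality relations of a semidihedral or quaternion cyclic part
-/

set_option autoImplicit false
set_option maxHeartbeats 800000
set_option linter.unusedSectionVars false

noncomputable section

namespace Cfsg.Agent.BlockTame

open Cfsg.Agent.BlockDih (col card_mul_diff sum_stdAddChar_mul conj_stdAddChar)
open scoped ComplexConjugate Classical

namespace Ctx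

variable {h : ℕ} [NeZero (2 * h)]

/-- Two exponents of the same parity. -/
def SP (r s : ZMod (2 * h)) : Prop := (h : ZMod (2 * h)) * r = (h : ZMod (2 * h)) * s

theorem mid_neg {i : ZMod (2 * h)} (hi : Mid i) : Mid (-i) :=
  ⟨fun e => hi.1 (neg_eq_zero.1 e), fun e => hi.2 (by rw [neg_eq_iff_eq_neg.1 e, neg_half])⟩

theorem mid_add_half {i : ZMod (2 * h)} : Mid (i + (h : ZMod (2 * h))) ↔ Mid i := by
  simp only [Mid, ← eq_neg_iff_add_eq_zero (a := i), neg_half, ne_eq, add_eq_right]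
  exact and_comm

theorem not_mid_iff {i : ZMod (2 * h)} : ¬ Mid i ↔ i = 0 ∨ i = h := by
  rw [Mid, not_and_or, not_not, not_not]

theorem two_mul_ne_zero {i : ZMod (2 * h)} (hi : Mid i) : 2 * i ≠ 0 := fun e =>
  not_mid_iff.2 (two_mul_eq_zero e) hi

theorem sp_ev {r s : ZMod (2 * h)} (hr : Ev r) (hs : Ev s) : SP r s := by
  rw [SP, half_mul_ev hr, half_mul_ev hs]

theorem sp_odd {r s : ZMod (2 * h)} (hr : ¬ Ev r) (hs : ¬ Ev s) : SP r s := by
  rw [SP, half_mul_not_ev hr, half_mul_not_ev hs]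

theorem stdAddChar_half : ZMod.stdAddChar (h : ZMod (2 * h)) = -1 := by
  have h1 : ZMod.stdAddChar (h : ZMod (2 * h)) * ZMod.stdAddChar (h : ZMod (2 * h)) = 1 := by
    rw [← AddChar.map_add_eq_mul, half_add, AddChar.map_zero_eq_one]
  refine (mul_self_eq_one_iff.1 h1).resolve_left fun e => half_ne_zero (h := h) ?_
  rw [← (ZMod.stdAddChar (N := 2 * h)).map_zero_eq_one] at e
  exact ZMod.injective_stdAddChar e

theorem stdAddChar_add_half (x : ZMod (2 * h)) :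
    ZMod.stdAddChar (x + (h : ZMod (2 * h))) = -ZMod.stdAddChar x := by
  rw [AddChar.map_add_eq_mul, stdAddChar_half, mul_neg_one]

/-- A coefficient of the Fourier expansion of a difference. -/
def dcoef (r s i : ZMod (2 * h)) : ℂ :=
  ZMod.stdAddChar (-(r * i)) - ZMod.stdAddChar (-(s * i))

theorem dcoef_eq_zero {r s i : ZMod (2 * h)} (hsp : SP r s) (hi : ¬ Mid i) : dcoef r s i = 0 := by
  rcases not_mid_iff.1 hi with rfl | rfl
  · simp [dcoef]
  · rw [dcoef, mul_comm r, mul_comm s, hsp, sub_self]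

theorem sum_conj_prod (a b : ZMod (2 * h)) :
    ∑ i : ZMod (2 * h), ZMod.stdAddChar (-(a * i)) * ZMod.stdAddChar (b * i) =
      if a = b then ((2 * h : ℕ) : ℂ) else 0 := by
  simp only [← AddChar.map_add_eq_mul]
  simp only [show ∀ i : ZMod (2 * h), -(a * i) + b * i = (b - a) * i from fun i => by ring,
    sum_stdAddChar_mul, sub_eq_zero]
  exact if_congr eq_comm rfl rfl

/-- `[x = y] + [x = σ y]`. -/
def dl (σ x y : ZMod (2 * h)) : ℤ := (if x = y then 1 else 0) + if x = σ * y then 1 else 0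

theorem sum_dcoef_mul (σ r s r' s' : ZMod (2 * h)) :
    ∑ i : ZMod (2 * h), dcoef r s i * (conj (dcoef r' s' i) + conj (dcoef r' s' (σ * i))) =
      ((2 * h : ℕ) : ℂ) *
        ((dl σ r r' - dl σ r s' - dl σ s r' + dl σ s s' : ℤ) : ℂ) := by
  simp only [dcoef, map_sub, conj_stdAddChar, neg_neg, ← mul_assoc, mul_sub, mul_add, sub_mul,
    Finset.sum_add_distrib, Finset.sum_sub_distrib, mul_comm r' σ, mul_comm s' σ, sum_conj_prod]
  simp only [dl]
  push_cast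
  split_ifs <;> ring

variable {ι : Type*} [Fintype ι]

/-- The relations between the columns. -/
structure Cols (σ : ZMod (2 * h)) (N : ι → ZMod (2 * h) → ℤ) (Ht : ι → ℕ) (d : ι → ℝ)
    (Z : ι → ι → ℤ) (m : ℕ) : Prop where
  h_eq : h = 2 ^ (m + 1)
  σσ : σ * σ = 1
  σ_ev : ∀ r, Ev r → σ * r = -r
  σ_fix : ∀ i, Mid i ↔ σ * i ≠ i
  σ_two : 2 * (σ + 1) = 0
  symm : ∀ χ r, N χ (σ * r) = N χ r
  orth : ∀ i j, Mid i → Mid j → ∑ χ, col N i χ * conj (col N j χ) =
    ((2 * h : ℕ) : ℂ) * ((if i = j then 1 else 0) + if i = σ * j then 1 else 0)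
  odd_sum : ∀ χ, Ht χ = 0 → Odd (∑ r, N χ r)
  exists_zero : ∃ χ, Ht χ = 0
  four_dvd : 4 ∣ (Finset.univ.filter fun χ => Ht χ = 0).card
  d_pos : ∀ χ, 0 < d χ
  d_orth : ∀ i, Mid i → ∑ χ, (d χ : ℂ) * col N i χ = 0
  Z_orth : ∀ χ i, Mid i → ∑ ψ, (Z χ ψ : ℂ) * col N i ψ = 0
  Z_symm : ∀ χ ψ, Z χ ψ = Z ψ χ
  Z_proj : ∀ χ φ, ∑ ψ, Z χ ψ * Z φ ψ = 4 * h * Z χ φ
  Z_odd : ∀ χ ψ, Ht ψ = 0 → ∃ q : ℤ, Odd q ∧ Z χ ψ = 2 ^ Ht χ * q
  extra : ∀ χ, Ht χ ≠ 0 → (∀ i, Mid i → col N i χ = 0) → ∀ ψ, (h : ℤ) ∣ Z χ ψ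
  small : ∀ χ, 2 ≤ Ht χ → ∀ i, Mid i →
    col N i χ ^ 2 ≠ 2 ∧ col N i χ ^ 2 ≠ -2 ∧ col N i χ ^ 2 ≠ 4

namespace Cols

variable {σ : ZMod (2 * h)} {N : ι → ZMod (2 * h) → ℤ} {Ht : ι → ℕ} {d : ι → ℝ} {Z : ι → ι → ℤ}
  {m : ℕ} (C : Cols σ N Ht d Z m)

include C

theorem σ_σ' (r : ZMod (2 * h)) : σ * (σ * r) = r := by rw [← mul_assoc, C.σσ, one_mul]

theorem ev_σ' {r : ZMod (2 * h)} : Ev (σ * r) ↔ Ev r := by
  have key : ∀ j, Ev j → Ev (σ * j) := fun j ⟨k, hk⟩ => ⟨σ * k, by rw [hk]; ring⟩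
  exact ⟨fun hh => C.σ_σ' r ▸ key _ hh, key r⟩

theorem mid_σ' {r : ZMod (2 * h)} (hr : Mid r) : Mid (σ * r) := by
  rw [C.σ_fix] at hr ⊢
  rw [C.σ_σ']
  exact hr.symm

theorem h_pos : 2 ≤ h := by
  rw [C.h_eq]
  calc 2 = 2 ^ 1 := rfl
    _ ≤ _ := Nat.pow_le_pow_right two_pos (by omega)

theorem ev_h : Ev (h : ZMod (2 * h)) := by
  refine ⟨((2 ^ m : ℕ) : ZMod (2 * h)), ?_⟩
  have e := congrArg (Nat.cast : ℕ → ZMod (2 * h)) C.h_eq
  rw [e, pow_succ]
  push_cast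
  ring

theorem not_ev_one : ¬ Ev (1 : ZMod (2 * h)) := fun e => by
  have h1 := half_mul_ev e
  rw [mul_one] at h1
  exact half_ne_zero h1

theorem mid_of_not_ev {r : ZMod (2 * h)} (hr : ¬ Ev r) : Mid r :=
  ⟨fun e => hr ⟨0, by rw [e, mul_zero]⟩, fun e => hr (e ▸ C.ev_h)⟩

/-- The inner products of differences of multiplicities of the same parity. -/
theorem diff_inner {r s r' s' : ZMod (2 * h)} (h1 : SP r s) (h2 : SP r' s') :
    ∑ χ, (N χ r - N χ s) * (N χ r' - N χ s') =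
      dl σ r r' - dl σ r s' - dl σ s r' + dl σ s s' := by
  have hm : ((2 * h : ℕ) : ℂ) ≠ 0 := Nat.cast_ne_zero.2 (NeZero.ne _)
  apply Int.cast_injective (α := ℂ)
  apply mul_left_cancel₀ hm
  apply mul_left_cancel₀ hm
  rw [← sum_dcoef_mul, Int.cast_sum, Finset.mul_sum, Finset.mul_sum]
  have hd : ∀ χ, ((2 * h : ℕ) : ℂ) * (((2 * h : ℕ) : ℂ) *
      (((N χ r - N χ s) * (N χ r' - N χ s') : ℤ) : ℂ)) =
      ∑ i, ∑ j, col N i χ * conj (col N j χ) * (dcoef r s i * conj (dcoef r' s' j)) := by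
    intro χ
    have e2 := congrArg conj (card_mul_diff N χ r' s')
    rw [map_mul (starRingEnd ℂ), map_natCast, map_intCast, map_sum] at e2
    rw [Int.cast_mul, show ∀ a x y : ℂ, a * (a * (x * y)) = (a * x) * (a * y) from
      fun a x y => by ring, card_mul_diff N χ r s, e2, Finset.sum_mul_sum]
    refine Finset.sum_congr rfl fun i _ => Finset.sum_congr rfl fun j _ => ?_
    rw [map_mul (starRingEnd ℂ)]
    simp only [dcoef]
    ring
  simp only [hd]
  rw [Finset.sum_comm, Finset.mul_sum]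
  refine Finset.sum_congr rfl fun i _ => ?_
  rw [Finset.sum_comm]
  by_cases hi : Mid i
  · have hσi : Mid (σ * i) := C.mid_σ' hi
    have : ∀ j, ∑ χ, col N i χ * conj (col N j χ) * (dcoef r s i * conj (dcoef r' s' j)) =
        ((2 * h : ℕ) : ℂ) * ((if j = i then 1 else 0) + if j = σ * i then 1 else 0) *
          (dcoef r s i * conj (dcoef r' s' j)) := by
      intro j
      rw [← Finset.sum_mul]
      by_cases hj : Mid j
      · rw [C.orth i j hi hj]
        congr 3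
        · exact if_congr eq_comm rfl rfl
        · refine if_congr ⟨fun e => ?_, fun e => ?_⟩ rfl rfl <;> rw [e, C.σ_σ']
      · rw [dcoef_eq_zero h2 hj]; simp
    simp only [this, mul_add, add_mul, mul_ite, ite_mul, mul_one, mul_zero, zero_mul,
      Finset.sum_add_distrib, Finset.sum_ite_eq', Finset.mem_univ, if_true]
  · simp [dcoef_eq_zero h1 hi]

/-- A vector orthogonal to the columns is orthogonal to the differences of the same parity. -/
theorem sum_mul_diff {F : ι → ℂ} (hF : ∀ i, Mid i → ∑ χ, F χ * col N i χ = 0)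
    {r s : ZMod (2 * h)} (hsp : SP r s) : ∑ χ, F χ * ((N χ r - N χ s : ℤ) : ℂ) = 0 := by
  have hm : ((2 * h : ℕ) : ℂ) ≠ 0 := Nat.cast_ne_zero.2 (NeZero.ne _)
  apply mul_left_cancel₀ hm
  simp only [Finset.mul_sum, mul_left_comm ((2 * h : ℕ) : ℂ), card_mul_diff, mul_zero]
  rw [Finset.sum_comm]
  refine Finset.sum_eq_zero fun i _ => ?_
  simp only [← mul_assoc, ← Finset.sum_mul]
  by_cases hi : Mid i
  · rw [hF i hi, zero_mul]
  · rw [show ZMod.stdAddChar (-(r * i)) - ZMod.stdAddChar (-(s * i)) = dcoef r s i from rfl,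
      dcoef_eq_zero hsp hi, mul_zero]

theorem Z_diff (χ : ι) {r s : ZMod (2 * h)} (hsp : SP r s) :
    ∑ ψ, Z χ ψ * (N ψ r - N ψ s) = 0 := by
  have := C.sum_mul_diff (F := fun ψ => (Z χ ψ : ℂ)) (C.Z_orth χ) hsp
  exact_mod_cast this

theorem d_diff {r s : ZMod (2 * h)} (hsp : SP r s) :
    ∑ χ, d χ * ((N χ r - N χ s : ℤ) : ℝ) = 0 := by
  have := C.sum_mul_diff (F := fun χ => (d χ : ℂ)) C.d_orth hsp
  exact_mod_cast this

/-- A multiplicity may be changed by a function of the parity. -/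
theorem col_eq_sub (χ : ι) (c : ZMod (2 * h) → ℤ) (hc : ∀ r s, SP r s → c r = c s)
    {i : ZMod (2 * h)} (hi : Mid i) :
    col N i χ = ∑ r, ((N χ r - c r : ℤ) : ℂ) * ZMod.stdAddChar (r * i) := by
  have h0 : ∑ r, (c r : ℂ) * ZMod.stdAddChar (r * i) = 0 := by
    have h1 : (∑ r, (c r : ℂ) * ZMod.stdAddChar (r * i)) * ZMod.stdAddChar (2 * i) =
        ∑ r, (c r : ℂ) * ZMod.stdAddChar (r * i) := by
      rw [Finset.sum_mul]
      refine Fintype.sum_equiv (Equiv.addRight 2) _ _ fun r => ?_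
      simp only [Equiv.coe_addRight]
      rw [mul_assoc, ← AddChar.map_add_eq_mul, add_mul, hc (r + 2) r (by
        rw [SP, mul_add, mul_two, half_add, add_zero])]
    have h2 : ZMod.stdAddChar (2 * i) ≠ 1 := by
      rw [← (ZMod.stdAddChar (N := 2 * h)).map_zero_eq_one]
      exact fun e => two_mul_ne_zero hi (ZMod.injective_stdAddChar e)
    by_contra hne
    exact h2 (mul_left_cancel₀ hne (h1.trans (mul_one _).symm))
  push_cast
  simp only [sub_mul, Finset.sum_sub_distrib, h0, sub_zero]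
  rfl

/-- A multiplicity function that differs from a function of the parity on one class. -/
theorem col_eq_pair (χ : ι) (c : ZMod (2 * h) → ℤ) (hc : ∀ r s, SP r s → c r = c s)
    {r : ZMod (2 * h)} (hr : Mid r) (hN : ∀ s, s ≠ r → s ≠ σ * r → N χ s = c s)
    {i : ZMod (2 * h)} (hi : Mid i) :
    col N i χ = ((N χ r - c r : ℤ) : ℂ) *
      (ZMod.stdAddChar (r * i) + ZMod.stdAddChar (σ * r * i)) := by
  have hne : r ≠ σ * r := ((C.σ_fix r).1 hr).symm
  have hsp : SP r (σ * r) := by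
    by_cases he : Ev r
    · exact sp_ev he (C.ev_σ'.2 he)
    · exact sp_odd he fun e => he (C.ev_σ'.1 e)
  rw [C.col_eq_sub χ c hc hi, ← Finset.sum_subset (Finset.subset_univ ({r, σ * r} : Finset _))
    fun s _ hs => by
      simp only [Finset.mem_insert, Finset.mem_singleton, not_or] at hs
      rw [hN s hs.1 hs.2, sub_self, Int.cast_zero, zero_mul],
    Finset.sum_pair hne, C.symm, ← hc r _ hsp, mul_add]

/-- The parity of the difference at the centre. -/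
theorem odd_top {χ : ι} (h0 : Ht χ = 0) : Odd (N χ h - N χ 0) := by
  have hs : ((∑ r ∈ Finset.univ.filter (fun r : ZMod (2 * h) => Mid r), N χ r : ℤ) : ZMod 2) = 0 := by
    rw [Int.cast_sum]
    refine Finset.sum_involution (fun r _ => σ * r) (fun r _ => ?_) (fun r hr _ => ?_)
      (fun r hr => ?_) (fun r _ => C.σ_σ' r)
    · rw [C.symm, ← two_mul]
      exact mul_eq_zero_of_left (ZMod.natCast_self 2) _
    · exact (C.σ_fix r).1 (Finset.mem_filter.1 hr).2
    · exact Finset.mem_filter.2 ⟨Finset.mem_univ _, C.mid_σ' (Finset.mem_filter.1 hr).2⟩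
  have he : Finset.univ.filter (fun r : ZMod (2 * h) => ¬ Mid r) = {0, (h : ZMod (2 * h))} := by
    ext r; simp [not_mid_iff]
  have h1 := C.odd_sum χ h0
  rw [← Finset.sum_filter_add_sum_filter_not Finset.univ (fun r : ZMod (2 * h) => Mid r), he,
    Finset.sum_pair (half_ne_zero (h := h)).symm] at h1
  rw [ZMod.intCast_zmod_eq_zero_iff_dvd] at hs
  obtain ⟨c, hc⟩ := hs
  obtain ⟨l, hl⟩ := h1
  exact ⟨l - c - N χ 0, by push_cast at hc; omega⟩

theorem dl_self {r : ZMod (2 * h)} (hr : Mid r) : dl σ r r = 1 := by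
  rw [dl, if_pos rfl, if_neg ((C.σ_fix r).1 hr).symm, add_zero]

theorem dl_fixed {x : ZMod (2 * h)} (hx : ¬ Mid x) : dl σ x x = 2 := by
  rw [dl, if_pos rfl, if_pos (Classical.not_not.1 fun e => hx ((C.σ_fix x).2 (Ne.symm e)))]
  rfl

theorem dl_eq_zero {x y : ZMod (2 * h)} (h1 : x ≠ y) (h2 : x ≠ σ * y) : dl σ x y = 0 := by
  rw [dl, if_neg h1, if_neg h2, add_zero]

theorem dl_mid_fixed {x y : ZMod (2 * h)} (hx : Mid x) (hy : ¬ Mid y) :
    dl σ x y = 0 ∧ dl σ y x = 0 := by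
  refine ⟨C.dl_eq_zero (fun e => hy (e ▸ hx)) (fun e => hy ?_),
    C.dl_eq_zero (fun e => hy (e ▸ hx)) (fun e => hy (e ▸ C.mid_σ' hx))⟩
  rw [← C.σ_σ' y, ← e]
  exact C.mid_σ' hx

theorem dl_zero_half : dl σ (0 : ZMod (2 * h)) h = 0 ∧ dl σ (h : ZMod (2 * h)) 0 = 0 := by
  have hfix : σ * (h : ZMod (2 * h)) = h := by rw [C.σ_ev _ C.ev_h, neg_half]
  exact ⟨C.dl_eq_zero half_ne_zero.symm (by rw [hfix]; exact half_ne_zero.symm),
    C.dl_eq_zero half_ne_zero (by rw [mul_zero]; exact half_ne_zero)⟩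

end Cols

end Ctx

end Cfsg.Agent.BlockTame
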