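import Cfsg.Agent.BlockTame.Sections
import Cfsg.Agent.BlockDih.Main
import Cfsg.Agent.BlockCount.AbelianRank

/-!
# The block when the involution is central
-/

set_option autoImplicit false
set_option maxHeartbeats 800000
set_option linter.unusedSectionVars false
set_option linter.style.haveILetI false

noncomputable section

namespace Cfsg.Agent.BlockTame

open Cfsg Cfsg.Agent.BrauerPairs Cfsg.Agent.BrauerPairs.Nil Cfsg.Agent.BlkStar Cfsg.Agent.BlkWat
open Cfsg.Agent.BlkChar.Contrib Cfsg.Agent.FusionCount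
open Cfsg.Agent.BlockDih (col)
open scoped ComplexConjugate Classical

universe u

variable {M : Ideal AlgInt} [M.IsPrime] [CharP (Block.ResF M) 2] {G : Type u} [Group G]
  [Fintype G]

namespace Ctx

variable {h : ℕ} [NeZero (2 * h)] (D : Ctx M G h)

theorem exists_sgn (hz : ((D.zP : D.S.P) : G) ∈ Subgroup.center G) (χ : IrrCharacter G) :
    ∃ s : ℤ, (s = 1 ∨ s = -1) ∧
      ∀ g, (χ : G → ℂ) (((D.zP : D.S.P) : G) * g) = (s : ℂ) * (χ : G → ℂ) g := by
  obtain ⟨w, -, hw, -⟩ := exists_scalar χ hz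
  have h2 : ((D.zP : D.S.P) : G) * ((D.zP : D.S.P) : G) = 1 := by
    rw [← Subgroup.coe_mul, zP, (D.rot_sq_eq_one).2 (Or.inr rfl), OneMemClass.coe_one]
  have hw2 : w * w = 1 := by
    have h1 := hw (((D.zP : D.S.P) : G) * 1)
    rw [← mul_assoc, h2, hw 1, one_mul] at h1
    apply mul_right_cancel₀ (Char.irr_one_ne_zero χ.2)
    rw [mul_assoc, ← h1, one_mul]
  rcases mul_self_eq_one_iff.1 hw2 with e | e
  · exact ⟨1, Or.inl rfl, fun g => by rw [hw g, e, Int.cast_one]⟩
  · exact ⟨-1, Or.inr rfl, fun g => by rw [hw g, e]; norm_num⟩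

theorem K_zP_eq (hz : ((D.zP : D.S.P) : G) ∈ Subgroup.center G) {χ φ : IrrCharacter G}
    (hχ : χ ∈ D.S.B.1) (hφ : φ ∈ D.S.B.1) {s t : ℤ}
    (hs : ∀ g, (χ : G → ℂ) (((D.zP : D.S.P) : G) * g) = (s : ℂ) * (χ : G → ℂ) g)
    (ht : ∀ g, (φ : G → ℂ) (((D.zP : D.S.P) : G) * g) = (t : ℂ) * (φ : G → ℂ) g) :
    K D.S D.zP (χ : G → ℂ) (φ : G → ℂ) =
      (s : ℂ) * (t : ℂ) * K D.S 1 (χ : G → ℂ) (φ : G → ℂ) := by
  have hC : Subgroup.centralizer (Subgroup.zpowers ((D.zP : D.S.P) : G) : Set G) = ⊤ :=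
    eq_top_iff.2 fun g _ => BlockHeight.mem_centralizer_zpowers.2 (Subgroup.mem_center_iff.1 hz g)
  have hC' : Subgroup.centralizer ((pr D.S D.zP).1 : Set G) = ⊤ := hC
  rw [D.K_one_eq hχ hφ, K, secReg, hC, Subgroup.card_top, mul_left_comm ((s : ℂ) * (t : ℂ))]
  congr 1
  rw [Finset.mul_sum]
  refine Finset.sum_congr (Finset.ext fun y => by simp [hC']) fun y hy => ?_
  have hreg := (Finset.mem_filter.1 hy).2
  rw [phi_central D.S hz hχ hreg, phi_central D.S hz hφ hreg, hs, ht, map_mul (starRingEnd ℂ),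
    map_intCast]
  ring

theorem rank_zP_eq (hz : ((D.zP : D.S.P) : G) ∈ Subgroup.center G) :
    blockRank 2 (pr D.S D.zP).2.1 = blockRank 2 D.S.B.1 := by
  apply Nat.cast_injective (R := ℂ)
  rw [← D.blockRank_one, ← sum_K_self, ← sum_K_self]
  refine Finset.sum_congr rfl fun χ _ => ?_
  obtain ⟨s, hs1, hs⟩ := D.exists_sgn hz χ.1
  rw [D.K_zP_eq hz χ.2 χ.2 hs hs]
  rcases hs1 with rfl | rfl <;> norm_num

theorem exists_reps {i : ZMod (2 * h)} (hi : Mid i) :
    ∃ n : ℕ, 0 < n ∧ n ≤ h / 2 ∧ (i = (n : ZMod (2 * h)) ∨ i = (n : ZMod (2 * h)) + h ∨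
      i = -(n : ZMod (2 * h)) ∨ i = -(n : ZMod (2 * h)) + h) := by
  have hlt := ZMod.val_lt i
  have hv := ZMod.natCast_zmod_val i
  have h0 : i.val ≠ 0 := fun e => hi.1 ((ZMod.val_eq_zero i).1 e)
  have hh : i.val ≠ h := fun e => hi.2 (by rw [← hv, e])
  have hneg : ∀ a b : ℕ, a + b = h → (a : ZMod (2 * h)) = -(b : ZMod (2 * h)) + h :=
    fun a b e => by
      have := congrArg (Nat.cast : ℕ → ZMod (2 * h)) e
      push_cast at this
      linear_combination this
  by_cases h1 : i.val < h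
  · by_cases h2 : i.val ≤ h / 2
    · exact ⟨i.val, by omega, h2, Or.inl hv.symm⟩
    · exact ⟨h - i.val, by omega, by omega, Or.inr (Or.inr (Or.inr
        (hv.symm.trans (hneg _ _ (by omega)))))⟩
  · by_cases h2 : i.val - h ≤ h / 2
    · refine ⟨i.val - h, by omega, h2, Or.inr (Or.inl ?_)⟩
      rw [← Nat.cast_add, Nat.sub_add_cancel (by omega), hv]
    · refine ⟨2 * h - i.val, by omega, by omega, Or.inr (Or.inr (Or.inl ?_))⟩
      rw [eq_neg_iff_add_eq_zero]
      nth_rw 1 [← hv]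
      rw [← Nat.cast_add, Nat.add_sub_cancel' (by omega), ZMod.natCast_self]

theorem mid_natCast {n : ℕ} (h0 : 0 < n) (hn : n < h) : Mid ((n : ℕ) : ZMod (2 * h)) := by
  constructor <;> intro e <;> have := congrArg ZMod.val e <;>
    rw [ZMod.val_natCast, Nat.mod_eq_of_lt (by omega)] at this
  · rw [ZMod.val_zero] at this; omega
  · rw [ZMod.val_natCast, Nat.mod_eq_of_lt (by omega)] at this; omega

section Plus

variable {N : IrrCharacter G → ZMod (2 * h) → ℤ}

theorem col_σ (hN : ∀ χ r, N χ (D.σ * r) = N χ r) (i : ZMod (2 * h)) (χ : IrrCharacter G) :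
    col N (D.σ * i) χ = col N i χ := by
  let τ' : ZMod (2 * h) ≃ ZMod (2 * h) :=
    ⟨fun i => D.σ * i, fun i => D.σ * i, D.σ_σ, D.σ_σ⟩
  refine Fintype.sum_equiv τ' _ _ fun r => ?_
  simp only [τ', Equiv.coe_fn_mk, hN]
  congr 2
  ring

theorem plus_le (hz : ((D.zP : D.S.P) : G) ∈ Subgroup.center G)
    (hN : ∀ χ r, N χ (D.σ * r) = N χ r)
    (hK : ∀ i, Mid i → ∀ χ ψ : IrrCharacter G, K D.S (D.rot i) (χ : G → ℂ) (ψ : G → ℂ) =
      col N i χ * conj (col N i ψ) / ((2 * h : ℕ) : ℂ))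
    {s0 : ℤ} (hs0 : s0 = 1 ∨ s0 = -1) {sg : D.S.B.1 → ℤ}
    (hsg : ∀ χ : D.S.B.1, ∀ g, ((χ : IrrCharacter G) : G → ℂ) (((D.zP : D.S.P) : G) * g) =
      (sg χ : ℂ) * ((χ : IrrCharacter G) : G → ℂ) g)
    (hsign : Signs (fun χ : D.S.B.1 => N χ.1) fun χ => sg χ * s0) :
    (Finset.univ.filter fun χ : D.S.B.1 => sg χ * s0 = 1).card ≤
      h / 2 + D.XC.card + blockRank 2 D.S.B.1 := by
  set P0 : D.S.B.1 → Prop := fun χ => sg χ * s0 = 1 with hP0
  let Ext : ({χ : D.S.B.1 // P0 χ} → ℂ) →ₗ[ℂ] (D.S.B.1 → ℂ) :=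
    { toFun := fun c χ => if hχ : P0 χ then c ⟨χ, hχ⟩ else 0
      map_add' := fun a b => by funext χ; by_cases hχ : P0 χ <;> simp [hχ]
      map_smul' := fun r a => by funext χ; by_cases hχ : P0 χ <;> simp [hχ] }
  choose L hL using fun v : D.S.P => exists_constraints D.S v
  let Lr : (D.S.B.1 → ℂ) →ₗ[ℂ] (Fin (h / 2) → ℂ) :=
    LinearMap.pi fun j => Fintype.linearCombination ℂ
      fun χ : D.S.B.1 => col N ((j.1 + 1 : ℕ) : ZMod (2 * h)) χ.1
  let Lx : (D.S.B.1 → ℂ) →ₗ[ℂ] ((C : D.XC) → Fin (blockRank 2 (pr D.S (D.rep C.1)).2.1) → ℂ) :=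
    LinearMap.pi fun C => L (D.rep C.1)
  let Φ := ((Lr.prod (Lx.prod (L 1))).comp Ext)
  have hinj : Function.Injective Φ := by
    rw [← LinearMap.ker_eq_bot, LinearMap.ker_eq_bot']
    intro c hc
    have hr : Lr (Ext c) = 0 := congrArg Prod.fst hc
    have hx : Lx (Ext c) = 0 := congrArg (fun p => p.2.1) hc
    have h1 : L 1 (Ext c) = 0 := congrArg (fun p => p.2.2) hc
    set e := Ext c with he
    have hsupp : ∀ χ, ¬ P0 χ → e χ = 0 := fun χ hχ => by simp [he, Ext, hχ]
    have hper : ∀ i, Mid i → ∑ χ : D.S.B.1, e χ * col N (i + (h : ZMod (2 * h))) χ.1 =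
        ∑ χ : D.S.B.1, e χ * col N i χ.1 := fun i hi => Finset.sum_congr rfl fun χ _ => by
      by_cases hχ : P0 χ
      · rw [show col N (i + (h : ZMod (2 * h))) χ.1 =
          ((sg χ * s0 : ℤ) : ℂ) * col N i χ.1 from (hsign χ).2 i hi, hχ, Int.cast_one, one_mul]
      · rw [hsupp χ hχ, zero_mul, zero_mul]
    have hpos : ∀ n : ℕ, 0 < n → n ≤ h / 2 →
        ∑ χ : D.S.B.1, e χ * col N (n : ZMod (2 * h)) χ.1 = 0 := fun n h0 hn => by
      have := congrFun hr ⟨n - 1, by omega⟩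
      simp only [Lr, LinearMap.pi_apply, Fintype.linearCombination_apply, smul_eq_mul,
        Pi.zero_apply, Nat.sub_add_cancel h0] at this
      exact this
    have hrot : ∀ i, Mid i → ∑ χ : D.S.B.1, e χ * col N i χ.1 = 0 := by
      intro i hi
      have := D.two_le
      obtain ⟨n, hn0, hn, hcase⟩ := exists_reps hi
      have hmn : Mid (n : ZMod (2 * h)) := mid_natCast hn0 (by omega)
      have hnegn : ∑ χ : D.S.B.1, e χ * col N (-(n : ZMod (2 * h))) χ.1 = 0 := by
        have h2 := D.σ_add_one_mul (n : ZMod (2 * h))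
        split_ifs at h2 with hc
        · have e1 : -(n : ZMod (2 * h)) = D.σ * (n : ZMod (2 * h)) + h := by
            linear_combination -h2 - half_add (h := h)
          rw [e1, hper _ (D.mid_σ hmn)]
          simp only [D.col_σ hN]
          exact hpos n hn0 hn
        · rw [show -(n : ZMod (2 * h)) = D.σ * (n : ZMod (2 * h)) by linear_combination -h2]
          simp only [D.col_σ hN]
          exact hpos n hn0 hn
      rcases hcase with rfl | rfl | rfl | rfl
      · exact hpos n hn0 hn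
      · rw [hper _ hmn, hpos n hn0 hn]
      · exact hnegn
      · rw [hper _ (mid_neg hmn), hnegn]
    funext χ0
    set φ : IrrCharacter G := χ0.1.1 with hφdef
    set f : D.S.P → ℂ := fun v => ∑ χ : D.S.B.1, e χ * K D.S v ((χ : IrrCharacter G) : G → ℂ)
      (φ : G → ℂ) with hf
    have hfc : ∀ v, ∀ v' ∈ cls D.S v, f v' = f v := fun v v' hv =>
      Finset.sum_congr rfl fun χ _ => by rw [K_eq_of_mem_cls D.S hv]
    have hfX : ∀ v ∈ D.X, f v = 0 := fun v hv => by
      have hC : cls D.S v ∈ D.XC := Finset.mem_image_of_mem _ hv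
      have := hL (D.rep (cls D.S v)) e (congrFun hx ⟨_, hC⟩) φ
      rw [← hfc v _ (D.rep_mem_cls v)]
      exact this
    have hfr : ∀ i, Mid i → f (D.rot i) = 0 := fun i hi => by
      simp only [hf, hK i hi, mul_div_assoc', ← mul_assoc, ← Finset.sum_div, ← Finset.sum_mul,
        hrot i hi, zero_mul, zero_div]
    have hf1 : f 1 = 0 := hL 1 e h1 φ
    have hfz : f D.zP = (s0 : ℂ) * (sg χ0.1 : ℂ) * f 1 := by
      simp only [hf, Finset.mul_sum]
      refine Finset.sum_congr rfl fun χ _ => ?_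
      by_cases hχ : P0 χ
      · rw [D.K_zP_eq hz χ.2 χ0.1.2 (hsg χ) (hsg χ0.1)]
        have hse : sg χ = s0 := by
          have hχ' : sg χ * s0 = 1 := hχ
          rcases hs0 with rfl | rfl <;> omega
        rw [hse]
        ring
      · rw [hsupp χ hχ]; ring
    have htot : ∑ v : D.S.P, f v / ((cls D.S v).card : ℂ) = e χ0.1 := by
      simp only [hf, Finset.sum_div, mul_div_assoc]
      rw [Finset.sum_comm]
      simp only [← Finset.mul_sum]
      rw [Finset.sum_congr rfl fun χ _ => by rw [delta_eq D.S χ.2]]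
      simp [hφdef, Subtype.coe_inj]
    rw [D.sum_classes hfc hfX hfr, hfz, hf1, mul_zero, add_zero] at htot
    have : e χ0.1 = c χ0 := by
      simp only [he, Ext, LinearMap.coe_mk, AddHom.coe_mk, dif_pos χ0.2]
    rw [← this, ← htot]
    rfl
  have hle := LinearMap.finrank_le_finrank_of_injective hinj
  rw [Module.finrank_fintype_fun_eq_card, Module.finrank_prod, Module.finrank_prod,
    Module.finrank_fintype_fun_eq_card, Module.finrank_pi_fintype,
    Module.finrank_fintype_fun_eq_card] at hle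
  simp only [Module.finrank_fintype_fun_eq_card, Fintype.card_fin, D.blockRank_one,
    Finset.sum_congr rfl (fun (C : D.XC) _ => D.rank_X (D.rep_X C.2).1), Finset.sum_const,
    Finset.card_univ, Fintype.card_coe, smul_eq_mul, mul_one] at hle
  rw [Fintype.card_subtype] at hle
  rw [add_assoc]
  exact hle

end Plus

/-- The quotient of the defect group by the involution. -/
theorem nonempty_quot_iso (hQ : ¬ D.IsSemi) (h8 : h = 8)
    (Z : Subgroup G) [Z.Normal] (hZ : Z = Subgroup.zpowers ((D.zP : D.S.P) : G)) :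
    Nonempty ((D.S.P.map (QuotientGroup.mk' Z) : Subgroup (G ⧸ Z)) ≃* DihedralGroup (2 * 4)) := by
  subst h8
  let c : ZMod (2 * 8) →+* ZMod (2 * 4) :=
    ZMod.castHom (show 2 * 4 ∣ 2 * 8 by norm_num) (ZMod (2 * 4))
  have hc : ∀ i, c i = 0 ↔ i = 0 ∨ i = ((8 : ℕ) : ZMod (2 * 8)) := by
    intro i
    rw [ZMod.castHom_apply, ZMod.cast_eq_val, ZMod.natCast_eq_zero_iff]
    have hlt := ZMod.val_lt i
    constructor
    · intro hd
      rw [← ZMod.natCast_zmod_val i]
      rcases (show i.val = 0 ∨ i.val = 8 by omega) with e | e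
      · exact Or.inl (by rw [e, Nat.cast_zero])
      · exact Or.inr (by rw [e])
    · rintro (rfl | rfl)
      · rw [ZMod.val_zero]; exact dvd_zero _
      · rw [ZMod.val_natCast]
  have hσ : D.σ = -1 := by
    rcases D.semi_cases with ⟨e, -, -⟩ | ⟨-, e, -⟩
    · exact absurd e hQ
    · exact e
  have hee : c D.ee = 0 := by
    rw [ee, if_neg hQ]
    exact (hc _).2 (Or.inr rfl)
  let F : D.S.P → DihedralGroup (2 * 4) := fun v => Sum.elim (fun i => DihedralGroup.r (c i))
    (fun i => DihedralGroup.sr (c i)) (D.coordEquiv.symm v)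
  have Frot : ∀ i, F (D.rot i) = DihedralGroup.r (c i) := fun i => by
    show Sum.elim _ _ (D.coordEquiv.symm (D.coordEquiv (Sum.inl i))) = _
    rw [Equiv.symm_apply_apply]
    rfl
  have Fref : ∀ i, F (D.ref i) = DihedralGroup.sr (c i) := fun i => by
    show Sum.elim _ _ (D.coordEquiv.symm (D.coordEquiv (Sum.inr i))) = _
    rw [Equiv.symm_apply_apply]
    rfl
  let f : D.S.P →* DihedralGroup (2 * 4) := MonoidHom.mk' F fun x y => by
    rcases D.coord x with ⟨i, rfl⟩ | ⟨i, rfl⟩ <;> rcases D.coord y with ⟨j, rfl⟩ | ⟨j, rfl⟩ <;>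
      simp only [← D.rot_add, D.rot_mul_ref, D.ref_mul_rot, D.ref_mul_ref, Frot, Fref, hσ,
        neg_one_mul, map_add, map_neg, hee, zero_add, DihedralGroup.r_mul_r, DihedralGroup.r_mul_sr,
        DihedralGroup.sr_mul_r, DihedralGroup.sr_mul_sr] <;>
      simp only [sub_eq_add_neg, add_comm]
  have hcs : Function.Surjective c := ZMod.ringHom_surjective c
  have hfs : Function.Surjective f := by
    rintro (k | k) <;> obtain ⟨i, rfl⟩ := hcs k
    · exact ⟨D.rot i, Frot i⟩
    · exact ⟨D.ref i, Fref i⟩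
  have hker : f.ker = ((QuotientGroup.mk' Z).subgroupMap D.S.P).ker := by
    ext v
    rw [MonoidHom.mem_ker, MonoidHom.mem_ker]
    have key : (QuotientGroup.mk' Z).subgroupMap D.S.P v = 1 ↔ (v : G) ∈ Z :=
      Subtype.ext_iff.trans (QuotientGroup.eq_one_iff _)
    have hzz : ((D.zP : D.S.P) : G) * ((D.zP : D.S.P) : G) = 1 := by
      rw [← Subgroup.coe_mul, zP, (D.rot_sq_eq_one).2 (Or.inr rfl), OneMemClass.coe_one]
    have hZm : (v : G) ∈ Z ↔ v = D.rot 0 ∨ v = D.zP := by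
      rw [hZ, D.rot_zero]
      constructor
      · intro hv
        obtain ⟨k, hk⟩ := Subgroup.mem_zpowers_iff.1 hv
        rcases Int.even_or_odd k with ⟨l, rfl⟩ | ⟨l, rfl⟩
        · left
          refine Subtype.ext ?_
          rw [← hk, ← two_mul, zpow_mul, zpow_two, hzz, one_zpow, OneMemClass.coe_one]
        · right
          refine Subtype.ext ?_
          rw [← hk, zpow_add, zpow_mul, zpow_two, hzz, one_zpow, one_mul, zpow_one]
      · rintro (rfl | rfl)
        · rw [OneMemClass.coe_one]; exact one_mem _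
        · exact Subgroup.mem_zpowers _
    rw [key, hZm]
    rcases D.coord v with ⟨i, rfl⟩ | ⟨i, rfl⟩
    · show F (D.rot i) = 1 ↔ _
      rw [Frot, zP, D.rot_injective.eq_iff, D.rot_injective.eq_iff, ← hc,
        DihedralGroup.one_def, DihedralGroup.r.injEq]
    · show F (D.ref i) = 1 ↔ _
      rw [Fref, DihedralGroup.one_def, zP]
      simp only [D.ref_ne_rot, or_self, iff_false]
      intro e
      cases e
  exact ⟨(QuotientGroup.quotientKerEquivOfSurjective _
      (MonoidHom.subgroupMap_surjective (QuotientGroup.mk' Z) D.S.P)).symm.trans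
    ((QuotientGroup.quotientMulEquivOfEq hker.symm).trans
      (QuotientGroup.quotientKerEquivOfSurjective f hfs))⟩

/-- The members of the block trivial on the involution are seven for the quaternion group of
order 32. -/
theorem seven_le (hQ : ¬ D.IsSemi) (h8 : h = 8) (hz : ((D.zP : D.S.P) : G) ∈ Subgroup.center G)
    {sg : D.S.B.1 → ℤ}
    (hsg : ∀ χ : D.S.B.1, ∀ g, ((χ : IrrCharacter G) : G → ℂ) (((D.zP : D.S.P) : G) * g) =
      (sg χ : ℂ) * ((χ : IrrCharacter G) : G → ℂ) g) :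
    7 ≤ (Finset.univ.filter fun χ : D.S.B.1 => sg χ = 1).card := by
  set Z := Subgroup.zpowers ((D.zP : D.S.P) : G) with hZdef
  have hZc : Z ≤ Subgroup.center G := Subgroup.zpowers_le.2 hz
  haveI : Z.Normal := ⟨fun n hn g => by
    rw [Subgroup.mem_center_iff.1 (hZc hn) g, mul_inv_cancel_right]; exact hn⟩
  have hZp : IsPGroup 2 Z := D.S.isPGroup.to_le (Subgroup.zpowers_le.2 D.zP.2)
  have hM := D.S.isPModular
  have hP : IsDefectGroup 2 M D.S.B.1 D.S.P :=
    (isDefectGroup_iff D.S.B D.S.P).2 D.S.maxPair.isDef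
  haveI := Fintype.ofFinite (G ⧸ Z)
  have hQP := BlockCount.isDefectGroup_quot hM hZc hZp D.S.B.2 hP
  have hQB := BlockCount.isPBlock_quotBlock hM hZc hZp D.S.B.2
  obtain ⟨iso⟩ := D.nonempty_quot_iso hQ h8 Z hZdef
  obtain ⟨h7, -⟩ := BlockDih.invariants_of_dihedral hM hQB hQP (h := 4) (by norm_num) iso
  rw [← Fintype.card_subtype, ← Nat.card_eq_fintype_card]
  refine h7.ge.trans ?_
  refine Nat.card_le_card_of_injective
    (fun φ => ⟨⟨(Char.irrEquivQuotient Z φ.1 : IrrCharacter G), φ.2⟩, ?_⟩) ?_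
  · have h1 := hsg ⟨(Char.irrEquivQuotient Z φ.1 : IrrCharacter G), φ.2⟩ 1
    simp only [mul_one, Char.irrEquivQuotient_apply] at h1
    have hz1 : ((((D.zP : D.S.P) : G)) : G ⧸ Z) = 1 :=
      (QuotientGroup.eq_one_iff _).2 (Subgroup.mem_zpowers _)
    rw [hz1, QuotientGroup.mk_one, eq_comm] at h1
    exact_mod_cast (mul_eq_right₀ (Char.irr_one_ne_zero φ.1.2)).1 h1
  · intro a b e
    have := congrArg (fun x => ((x.1 : D.S.B.1) : IrrCharacter G)) e
    exact Subtype.ext ((Char.irrEquivQuotient Z).injective (Subtype.ext this))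

/-- The count when the involution is central. -/
theorem central (hz : ((D.zP : D.S.P) : G) ∈ Subgroup.center G)
    (hu : D.IsSemi → 1 ≤ D.XC.card) :
    blockRank 2 D.S.B.1 + D.XC.card = 3 := by
  obtain ⟨N, hN, hK, hsgn⟩ := D.exists_columns
  obtain ⟨s0, hs0, hs0'⟩ := hsgn hz
  choose sg hsg1 hsg using fun χ : D.S.B.1 => D.exists_sgn hz χ.1
  obtain ⟨m, C⟩ := D.exists_cols hN hK
  have hsign : Signs (fun χ : D.S.B.1 => N χ.1) fun χ => sg χ * s0 := fun χ => by
    refine ⟨?_, fun i hi => ?_⟩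
    · show sg χ * s0 = 1 ∨ sg χ * s0 = -1
      rcases hsg1 χ with e | e <;> rcases hs0 with e' | e' <;> rw [e, e'] <;> norm_num
    · show col N (i + (h : ZMod (2 * h))) χ.1 = ((sg χ * s0 : ℤ) : ℂ) * col N i χ.1
      rw [hs0' χ.1 (sg χ) (hsg χ) i hi, Int.cast_mul]
  have hk := D.card_block
  rw [D.rank_zP_eq hz] at hk
  have hpos : 1 ≤ blockRank 2 D.S.B.1 := Brauer.KleinBlock.blockRank_pos D.S.B.2
  have h2 := D.two_le
  rcases C.shape with hg | ⟨h8, hk9, hexc⟩ | ⟨h4, -, hexc⟩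
  · obtain ⟨hup4, hup2⟩ := hg.upper (blockRank 2 D.S.B.1) fun T hT =>
      (D.zOrth_le T hT).trans (D.rank_zP_eq hz).le
    have hlo := hg.plus _ hsign
    have hpl := D.plus_le hz hN hK hs0 hsg hsign
    have : 4 ≤ h ∨ h = 2 := by
      obtain ⟨q, hq⟩ := D.even_h
      omega
    rcases this with h4 | h2'
    · have := hup4 h4
      omega
    · have := hup2 h2'
      omega
  · exfalso
    by_cases hs : D.IsSemi
    · have := hu hs
      omega
    · have h7 := D.seven_le hs h8 hz hsg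
      obtain ⟨hp, hm⟩ := hexc _ hsign
      have : (Finset.univ.filter fun χ : D.S.B.1 => sg χ = 1).card ≤ 5 := by
        rcases hs0 with rfl | rfl
        · simpa using hp
        · refine le_trans (le_of_eq ?_) hm
          congr 1
          refine Finset.filter_congr fun χ _ => ?_
          constructor <;> intro e <;> omega
      omega
  · exact absurd hsign (hexc _)

end Ctx

end Cfsg.Agent.BlockTame
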