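import Cfsg.Agent.BlockTame.Local

/-!
# Maximal pairs with a semidihedral or generalized quaternion group of order `4 h`
-/

set_option autoImplicit false
set_option maxHeartbeats 800000
set_option linter.unusedSectionVars false
set_option linter.style.haveILetI false

noncomputable section

namespace Cfsg.Agent.BlockTame

open Cfsg Cfsg.Agent.BrauerPairs Cfsg.Agent.BrauerPairs.Nil Cfsg.Agent.BlkStar
open Cfsg.Agent.FusionCount
open scoped Classical

universe u

/-- A maximal pair with a semidihedral or generalized quaternion group. -/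
structure Ctx (M : Ideal AlgInt) [M.IsPrime] [CharP (Block.ResF M) 2] (G : Type u) [Group G]
    [Fintype G] (h : ℕ) where
  /-- The maximal pair. -/
  S : SD 2 M G
  /-- The generator of the cyclic subgroup of index two. -/
  a : G
  /-- An element outside. -/
  b : G
  /-- The exponent. -/
  s : ℕ
  mem_a : a ∈ S.P
  mem_b : b ∈ S.P
  orderOf_a : orderOf a = 2 * h
  two_le : 2 ≤ h
  flip : b * a * b⁻¹ = a ^ s
  not_mem_b : b ∉ Subgroup.zpowers a
  index_two : ∀ x ∈ S.P, x ∉ Subgroup.zpowers a → b⁻¹ * x ∈ Subgroup.zpowers a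
  type_cases : (b * b = 1 ∧ s + 1 = h ∧ 4 ∣ h) ∨ (b * b = a ^ h ∧ s + 1 = 2 * h)
  card_P : Nat.card S.P = 4 * h

namespace Ctx

variable {M : Ideal AlgInt} [M.IsPrime] [CharP (Block.ResF M) 2] {G : Type u} [Group G]
  [Fintype G] {h : ℕ} [NeZero (2 * h)] (D : Ctx M G h)

/-- The semidihedral case. -/
def IsSemi : Prop := D.b * D.b = 1

include D in
theorem exists_pow : ∃ m, h = 2 ^ (m + 1) := by
  obtain ⟨m, hm⟩ := (IsPGroup.iff_orderOf.1 D.S.isPGroup) ⟨D.a, D.mem_a⟩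
  rw [Subgroup.orderOf_mk, D.orderOf_a] at hm
  have := D.two_le
  rcases m with - | - | m
  · simp at hm
  · simp at hm; omega
  · exact ⟨m, by rw [pow_succ] at hm; omega⟩

include D in
theorem even_h : Even h := by
  obtain ⟨m, hm⟩ := D.exists_pow
  exact ⟨2 ^ m, by rw [hm, pow_succ]; omega⟩

/-- The action of an outside element on the exponents. -/
def σ : ZMod (2 * h) := (D.s : ZMod (2 * h))

/-- The exponent of the square of an outside generator. -/
def ee : ZMod (2 * h) := if D.IsSemi then 0 else (h : ZMod (2 * h))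

theorem half_add : (h : ZMod (2 * h)) + h = 0 := by
  rw [← Nat.cast_add, ← two_mul, ZMod.natCast_self]

theorem neg_half : -(h : ZMod (2 * h)) = h := by
  rw [neg_eq_iff_add_eq_zero, half_add]

theorem half_ne_zero : (h : ZMod (2 * h)) ≠ 0 := fun e => by
  rw [ZMod.natCast_eq_zero_iff] at e
  have h0 : h ≠ 0 := fun e => NeZero.ne (2 * h) (by rw [e, mul_zero])
  have := Nat.le_of_dvd (Nat.pos_of_ne_zero h0) e
  omega

theorem semi_cases : (D.IsSemi ∧ D.σ = (h : ZMod (2 * h)) - 1 ∧ 4 ∣ h) ∨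
    (¬ D.IsSemi ∧ D.σ = -1 ∧ D.b * D.b = D.a ^ h) := by
  rcases D.type_cases with ⟨h1, h2, h4⟩ | ⟨h1, h2⟩
  · refine Or.inl ⟨h1, ?_, h4⟩
    rw [σ, eq_sub_iff_add_eq, ← Nat.cast_one, ← Nat.cast_add, h2]
  · refine Or.inr ⟨?_, ?_, h1⟩
    · rw [IsSemi, h1, ← orderOf_dvd_iff_pow_eq_one, D.orderOf_a]
      intro e
      have := Nat.le_of_dvd (by linarith [D.two_le]) e
      linarith [D.two_le]
    · rw [σ, eq_neg_iff_add_eq_zero, ← Nat.cast_one, ← Nat.cast_add, h2, ZMod.natCast_self]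

theorem four_dvd_of_semi (hs : D.IsSemi) : 4 ∣ h := by
  rcases D.semi_cases with ⟨-, -, h4⟩ | ⟨h1, -⟩
  · exact h4
  · exact absurd hs h1

/-- Even exponents. -/
def Ev (i : ZMod (2 * h)) : Prop := ∃ k : ZMod (2 * h), i = 2 * k

theorem ev_or (i : ZMod (2 * h)) : Ev i ∨ Ev (i - 1) := by
  obtain ⟨n, rfl⟩ := ZMod.natCast_zmod_surjective i
  rcases Nat.even_or_odd n with ⟨l, rfl⟩ | ⟨l, rfl⟩
  · exact Or.inl ⟨l, by push_cast; ring⟩
  · exact Or.inr ⟨l, by push_cast; ring⟩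

theorem ev_iff {i : ZMod (2 * h)} : Ev i ↔ Even i.val := by
  constructor
  · rintro ⟨k, rfl⟩
    obtain ⟨n, rfl⟩ := ZMod.natCast_zmod_surjective k
    rw [show (2 : ZMod (2 * h)) * n = ((2 * n : ℕ) : ZMod (2 * h)) by push_cast; ring,
      ZMod.val_natCast, Nat.mul_mod_mul_left]
    exact even_two_mul _
  · rintro ⟨l, hl⟩
    exact ⟨l, by rw [← ZMod.natCast_zmod_val i, hl]; push_cast; ring⟩

include D in
theorem ev_half : Ev (h : ZMod (2 * h)) := by
  obtain ⟨l, hl⟩ := D.even_h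
  refine ⟨(l : ZMod (2 * h)), ?_⟩
  have := congrArg (Nat.cast : ℕ → ZMod (2 * h)) hl
  rw [this]; push_cast; ring

theorem half_mul_ev {i : ZMod (2 * h)} (hi : Ev i) : (h : ZMod (2 * h)) * i = 0 := by
  obtain ⟨k, rfl⟩ := hi
  rw [← mul_assoc, mul_two, half_add, zero_mul]

theorem half_mul_not_ev {i : ZMod (2 * h)} (hi : ¬ Ev i) : (h : ZMod (2 * h)) * i = h := by
  obtain ⟨k, hk⟩ := (ev_or i).resolve_left hi
  have : i = 2 * k + 1 := by rw [← hk, sub_add_cancel]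
  rw [this, mul_add, half_mul_ev ⟨k, rfl⟩, zero_add, mul_one]

theorem σ_mul_of_ev {i : ZMod (2 * h)} (hi : Ev i) : D.σ * i = -i := by
  rcases D.semi_cases with ⟨-, e, -⟩ | ⟨-, e, -⟩ <;> rw [e]
  · rw [sub_mul, half_mul_ev hi, one_mul, zero_sub]
  · rw [neg_one_mul]

theorem σ_sq : D.σ * D.σ = 1 := by
  rcases D.semi_cases with ⟨-, e, -⟩ | ⟨-, e, -⟩ <;> rw [e]
  · have h0 : (h : ZMod (2 * h)) * h = 0 := half_mul_ev D.ev_half
    linear_combination h0 - (half_add (h := h))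
  · ring

theorem σ_σ (i : ZMod (2 * h)) : D.σ * (D.σ * i) = i := by rw [← mul_assoc, D.σ_sq, one_mul]

theorem σ_add_one_mul (i : ZMod (2 * h)) :
    D.σ * i + i = if D.IsSemi ∧ ¬ Ev i then (h : ZMod (2 * h)) else 0 := by
  rcases D.semi_cases with ⟨hs, e, -⟩ | ⟨hs, e, -⟩ <;> rw [e]
  · by_cases hi : Ev i
    · rw [if_neg fun hh => hh.2 hi, sub_mul, half_mul_ev hi]
      ring
    · rw [if_pos ⟨hs, hi⟩, sub_mul, half_mul_not_ev hi]
      ring
  · rw [if_neg fun hh => hs hh.1]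
    ring

theorem σ_half : D.σ * (h : ZMod (2 * h)) = h := by rw [D.σ_mul_of_ev D.ev_half, neg_half]

theorem two_mul_eq_zero {i : ZMod (2 * h)} (hi : 2 * i = 0) : i = 0 ∨ i = h := by
  rw [← ZMod.natCast_zmod_val i, show (2 : ZMod (2 * h)) * (i.val : ZMod (2 * h)) =
    ((2 * i.val : ℕ) : ZMod (2 * h)) by push_cast; ring, ZMod.natCast_eq_zero_iff] at hi
  obtain ⟨c, hc⟩ := hi
  have hlt := ZMod.val_lt i
  have hc2 : c < 2 := by
    by_contra hn
    have : 2 * h * 2 ≤ 2 * h * c := Nat.mul_le_mul_left _ (by omega)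
    omega
  interval_cases c
  · exact Or.inl ((ZMod.val_eq_zero i).1 (by omega))
  · exact Or.inr (by rw [← ZMod.natCast_zmod_val i, show i.val = h by omega])

theorem σ_eq_iff {i : ZMod (2 * h)} : D.σ * i = i ↔ i = 0 ∨ i = h := by
  constructor
  · intro e
    rcases D.semi_cases with ⟨hs, -, h4⟩ | ⟨-, e', -⟩
    · have h1 := D.σ_add_one_mul i
      rw [e, ← two_mul] at h1
      by_cases hi : Ev i
      · rw [if_neg fun hh => hh.2 hi] at h1
        exact two_mul_eq_zero h1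
      · exfalso
        rw [if_pos ⟨hs, hi⟩] at h1
        apply hi
        obtain ⟨q, hq⟩ := h4
        have hcast : ((2 * q : ℕ) : ZMod (2 * h)) * 2 = h := by
          have := congrArg (Nat.cast : ℕ → ZMod (2 * h)) hq
          rw [this]; push_cast; ring
        have h2 : 2 * (i - ((2 * q : ℕ) : ZMod (2 * h))) = 0 := by
          rw [mul_sub, h1, mul_comm (2 : ZMod (2 * h)), hcast, sub_self]
        rcases two_mul_eq_zero h2 with h3 | h3
        · exact ⟨q, by rw [sub_eq_zero.1 h3]; push_cast; ring⟩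
        · obtain ⟨l, hl⟩ := D.ev_half
          exact ⟨l + q, by rw [sub_eq_iff_eq_add.1 h3, hl]; push_cast; ring⟩
    · rw [e', neg_one_mul, neg_eq_iff_add_eq_zero, ← two_mul] at e
      exact two_mul_eq_zero e
  · rintro (rfl | rfl)
    · rw [mul_zero]
    · exact D.σ_half

theorem ev_σ {i : ZMod (2 * h)} : Ev (D.σ * i) ↔ Ev i := by
  have key : ∀ j, Ev j → Ev (D.σ * j) := fun j ⟨k, hk⟩ => ⟨D.σ * k, by rw [hk]; ring⟩
  exact ⟨fun hh => D.σ_σ i ▸ key _ hh, key i⟩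

/-- The exponents away from the centre. -/
def Mid (i : ZMod (2 * h)) : Prop := i ≠ 0 ∧ i ≠ h

theorem mid_iff {i : ZMod (2 * h)} : Mid i ↔ D.σ * i ≠ i := by
  rw [Mid, Ne, Ne, Ne, D.σ_eq_iff, not_or]

theorem mid_σ {i : ZMod (2 * h)} (hi : Mid i) : Mid (D.σ * i) := by
  rw [D.mid_iff] at hi ⊢
  rw [D.σ_σ]
  exact hi.symm

/-! ### Coordinates -/

/-- The rotations. -/
def rot (i : ZMod (2 * h)) : D.S.P := ⟨D.a ^ i.val, pow_mem D.mem_a _⟩

/-- The elements outside. -/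
def ref (i : ZMod (2 * h)) : D.S.P := ⟨D.b, D.mem_b⟩ * D.rot i

theorem rot_coe (i : ZMod (2 * h)) : ((D.rot i : D.S.P) : G) = D.a ^ i.val := rfl

theorem pow_val (k : ℕ) : D.a ^ ((k : ZMod (2 * h))).val = D.a ^ k := by
  rw [ZMod.val_natCast, ← D.orderOf_a, pow_mod_orderOf]

theorem rot_natCast (k : ℕ) : ((D.rot (k : ZMod (2 * h)) : D.S.P) : G) = D.a ^ k := D.pow_val k

theorem rot_add (i j : ZMod (2 * h)) : D.rot (i + j) = D.rot i * D.rot j := by
  obtain ⟨k, rfl⟩ := ZMod.natCast_zmod_surjective i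
  obtain ⟨l, rfl⟩ := ZMod.natCast_zmod_surjective j
  refine Subtype.ext ?_
  rw [Subgroup.coe_mul, ← Nat.cast_add, rot_natCast, rot_natCast, rot_natCast, pow_add]

theorem rot_zero : D.rot 0 = 1 := Subtype.ext (by simp [rot])

theorem rot_neg (i : ZMod (2 * h)) : D.rot (-i) = (D.rot i)⁻¹ :=
  eq_inv_of_mul_eq_one_left (by rw [← rot_add, neg_add_cancel, rot_zero])

theorem rot_injective : Function.Injective D.rot := by
  intro i j hij
  have h1 : D.a ^ i.val = D.a ^ j.val := congrArg (fun x : D.S.P => (x : G)) hij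
  rw [pow_inj_mod, D.orderOf_a, Nat.mod_eq_of_lt (ZMod.val_lt i),
    Nat.mod_eq_of_lt (ZMod.val_lt j)] at h1
  exact ZMod.val_injective _ h1

theorem rot_pow (i : ZMod (2 * h)) (k : ℕ) : D.rot i ^ k = D.rot (k * i) := by
  induction k with
  | zero => simp [rot_zero]
  | succ k ih => rw [pow_succ, ih, ← rot_add]; congr 1; push_cast; ring

theorem rot_mem_zpowers (i : ZMod (2 * h)) : ((D.rot i : D.S.P) : G) ∈ Subgroup.zpowers D.a :=
  Subgroup.pow_mem _ (Subgroup.mem_zpowers _) _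

theorem exists_rot {x : G} (hx : x ∈ Subgroup.zpowers D.a) :
    ∃ i, ((D.rot i : D.S.P) : G) = x := by
  obtain ⟨k, hk⟩ := mem_zpowers_iff_mem_range_orderOf.1 hx |> Finset.mem_image.1 |>
    fun ⟨k, _, e⟩ => (⟨k, e⟩ : ∃ k : ℕ, D.a ^ k = x)
  exact ⟨k, (D.rot_natCast k).trans hk⟩

theorem conj_rot (i : ZMod (2 * h)) :
    D.b * ((D.rot i : D.S.P) : G) * D.b⁻¹ = ((D.rot (D.σ * i) : D.S.P) : G) := by
  obtain ⟨k, rfl⟩ := ZMod.natCast_zmod_surjective i
  rw [σ, ← Nat.cast_mul, rot_natCast, rot_natCast, ← conj_pow, D.flip, ← pow_mul]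

theorem bP_mul_rot (i : ZMod (2 * h)) :
    (⟨D.b, D.mem_b⟩ : D.S.P) * D.rot i = D.rot (D.σ * i) * ⟨D.b, D.mem_b⟩ :=
  Subtype.ext (by rw [Subgroup.coe_mul, Subgroup.coe_mul, ← D.conj_rot i, inv_mul_cancel_right])

theorem ref_mul_rot (i j : ZMod (2 * h)) : D.ref i * D.rot j = D.ref (i + j) := by
  rw [ref, ref, rot_add, mul_assoc]

theorem rot_mul_ref (i j : ZMod (2 * h)) : D.rot i * D.ref j = D.ref (D.σ * i + j) := by
  rw [ref, ref, rot_add, ← mul_assoc, ← mul_assoc, D.bP_mul_rot, D.σ_σ]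

theorem b_sq : (⟨D.b, D.mem_b⟩ : D.S.P) * ⟨D.b, D.mem_b⟩ = D.rot D.ee := by
  refine Subtype.ext ?_
  rw [Subgroup.coe_mul, ee]
  rcases D.semi_cases with ⟨hs, -, -⟩ | ⟨hs, -, hz⟩
  · rw [if_pos hs, rot_zero, OneMemClass.coe_one]
    exact hs
  · rw [if_neg hs, rot_natCast, hz]

theorem ref_mul_ref (i j : ZMod (2 * h)) : D.ref i * D.ref j = D.rot (D.ee + D.σ * i + j) := by
  rw [ref, ref, mul_assoc, ← mul_assoc (D.rot i),
    show D.rot i * (⟨D.b, D.mem_b⟩ : D.S.P) = (⟨D.b, D.mem_b⟩ : D.S.P) * D.rot (D.σ * i) by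
      rw [D.bP_mul_rot, D.σ_σ],
    ← mul_assoc, ← mul_assoc, D.b_sq, ← rot_add, ← rot_add]

theorem ref_ne_rot (i j : ZMod (2 * h)) : D.ref i ≠ D.rot j := by
  intro e
  apply D.not_mem_b
  have h1 : D.b * ((D.rot i : D.S.P) : G) = ((D.rot j : D.S.P) : G) :=
    congrArg (fun x : D.S.P => (x : G)) e
  rw [← eq_mul_inv_iff_mul_eq.2 h1 |>.symm]
  exact mul_mem (D.rot_mem_zpowers j) (inv_mem (D.rot_mem_zpowers i))

theorem ref_injective : Function.Injective D.ref := fun i j e =>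
  D.rot_injective (mul_left_cancel e)

theorem coord (x : D.S.P) : (∃ i, x = D.rot i) ∨ ∃ i, x = D.ref i := by
  by_cases hx : (x : G) ∈ Subgroup.zpowers D.a
  · obtain ⟨i, hi⟩ := D.exists_rot hx
    exact Or.inl ⟨i, Subtype.ext hi.symm⟩
  · obtain ⟨i, hi⟩ := D.exists_rot (D.index_two _ x.2 hx)
    refine Or.inr ⟨i, Subtype.ext ?_⟩
    show (x : G) = D.b * ((D.rot i : D.S.P) : G)
    rw [hi, mul_inv_cancel_left]

/-! ### Orders -/

theorem rot_sq_eq_one {i : ZMod (2 * h)} : D.rot i * D.rot i = 1 ↔ i = 0 ∨ i = h := by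
  rw [← rot_add, ← rot_zero D, D.rot_injective.eq_iff, ← two_mul]
  refine ⟨two_mul_eq_zero, ?_⟩
  rintro (rfl | rfl)
  · rw [mul_zero]
  · linear_combination (half_add (h := h))

theorem ref_sq (i : ZMod (2 * h)) :
    D.ref i * D.ref i = if D.IsSemi ∧ Ev i then 1 else D.rot h := by
  rw [ref_mul_ref, add_assoc, D.σ_add_one_mul, ee]
  by_cases hs : D.IsSemi <;> by_cases hi : Ev i <;> simp [hs, hi, rot_zero]

/-- The central involution. -/
def zP : D.S.P := D.rot h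

/-- The element of order four among the rotations. -/
def wIdx (h : ℕ) : ZMod (2 * h) := ((h / 2 : ℕ) : ZMod (2 * h))

include D in
theorem two_mul_wIdx : 2 * wIdx h = (h : ZMod (2 * h)) := by
  obtain ⟨l, hl⟩ := D.even_h
  rw [wIdx, show (2 : ZMod (2 * h)) = ((2 : ℕ) : ZMod (2 * h)) by norm_num, ← Nat.cast_mul,
    show 2 * (h / 2) = h by omega]

include D in
theorem mid_wIdx : Mid (wIdx h) := by
  have h2 := D.two_mul_wIdx
  constructor
  · intro e
    rw [e, mul_zero] at h2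
    exact half_ne_zero h2.symm
  · intro e
    rw [e] at h2
    exact half_ne_zero (by linear_combination h2)

theorem σ_wIdx : D.σ * wIdx h = wIdx h + h := by
  have h2 := D.two_mul_wIdx
  rcases D.semi_cases with ⟨hs, e, h4⟩ | ⟨-, e, -⟩
  · rw [D.σ_mul_of_ev, neg_eq_iff_add_eq_zero, ← add_assoc, ← two_mul, h2, half_add]
    obtain ⟨q, hq⟩ := h4
    exact ⟨q, by rw [wIdx, show h / 2 = 2 * q by omega]; push_cast; ring⟩
  · rw [e, neg_one_mul, neg_eq_iff_add_eq_zero, ← add_assoc, ← two_mul, h2, half_add]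

/-! ### Centralizers in the defect group -/

theorem commute_rot_rot (i j : ZMod (2 * h)) : D.rot i * D.rot j = D.rot j * D.rot i := by
  rw [← rot_add, ← rot_add, add_comm]

theorem commute_rot_ref {i j : ZMod (2 * h)} :
    D.rot i * D.ref j = D.ref j * D.rot i ↔ i = 0 ∨ i = h := by
  rw [rot_mul_ref, ref_mul_rot, D.ref_injective.eq_iff, add_comm j i, add_left_inj, D.σ_eq_iff]

theorem commute_ref_ref {i j : ZMod (2 * h)} :
    D.ref i * D.ref j = D.ref j * D.ref i ↔ j - i = 0 ∨ j - i = h := by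
  rw [ref_mul_ref, ref_mul_ref, D.rot_injective.eq_iff, add_assoc, add_assoc, add_right_inj,
    ← D.σ_eq_iff, mul_sub]
  constructor <;> intro e <;> linear_combination (-1 : ZMod (2 * h)) * e

theorem central_zP (x : D.S.P) : x * D.zP = D.zP * x := by
  rcases D.coord x with ⟨i, rfl⟩ | ⟨i, rfl⟩
  · exact D.commute_rot_rot _ _
  · exact ((D.commute_rot_ref).2 (Or.inr rfl)).symm

theorem mem_inf_cen {v : D.S.P} {x : G} :
    x ∈ D.S.P ⊓ cen D.S v ↔ ∃ hx : x ∈ D.S.P, (⟨x, hx⟩ : D.S.P) * v = v * ⟨x, hx⟩ := by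
  rw [Subgroup.mem_inf, mem_cen]
  exact ⟨fun ⟨h1, h2⟩ => ⟨h1, Subtype.ext h2⟩, fun ⟨h1, h2⟩ => ⟨h1, congrArg Subtype.val h2⟩⟩

theorem P_le_cen_zP : D.S.P ≤ cen D.S D.zP := fun x hx =>
  (mem_cen D.S).2 (congrArg Subtype.val (D.central_zP ⟨x, hx⟩))

theorem inf_cen_rot {i : ZMod (2 * h)} (hi : Mid i) :
    D.S.P ⊓ cen D.S (D.rot i) = Subgroup.zpowers D.a := by
  ext x
  rw [D.mem_inf_cen]
  constructor
  · rintro ⟨hx, e⟩
    rcases D.coord ⟨x, hx⟩ with ⟨j, hj⟩ | ⟨j, hj⟩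
    · rw [show x = ((D.rot j : D.S.P) : G) from congrArg Subtype.val hj]
      exact D.rot_mem_zpowers j
    · rw [hj] at e
      rcases (D.commute_rot_ref).1 e.symm with e | e
      · exact absurd e hi.1
      · exact absurd e hi.2
  · intro hx
    obtain ⟨j, rfl⟩ := D.exists_rot hx
    exact ⟨(D.rot j).2, D.commute_rot_rot j i⟩

theorem card_inf_cen_rot {i : ZMod (2 * h)} (hi : Mid i) :
    Nat.card ↥(D.S.P ⊓ cen D.S (D.rot i)) = 2 * h := by
  rw [D.inf_cen_rot hi, Nat.card_zpowers, D.orderOf_a]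

theorem inf_cen_ref {i : ZMod (2 * h)} {x : G} (hx : x ∈ D.S.P ⊓ cen D.S (D.ref i)) :
    x ∈ ({1, ((D.zP : D.S.P) : G), ((D.ref i : D.S.P) : G),
      ((D.ref (i + h) : D.S.P) : G)} : Finset G) := by
  obtain ⟨hx, e⟩ := D.mem_inf_cen.1 hx
  simp only [Finset.mem_insert, Finset.mem_singleton]
  rcases D.coord ⟨x, hx⟩ with ⟨j, hj⟩ | ⟨j, hj⟩
  · rw [hj] at e
    rw [show x = ((D.rot j : D.S.P) : G) from congrArg Subtype.val hj]
    rcases (D.commute_rot_ref).1 e with rfl | rfl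
    · exact Or.inl (by rw [rot_zero, OneMemClass.coe_one])
    · exact Or.inr (Or.inl rfl)
  · rw [hj] at e
    rw [show x = ((D.ref j : D.S.P) : G) from congrArg Subtype.val hj]
    rcases (D.commute_ref_ref).1 e.symm with e | e
    · exact Or.inr (Or.inr (Or.inl (by rw [sub_eq_zero.1 e])))
    · exact Or.inr (Or.inr (Or.inr (by rw [sub_eq_iff_eq_add.1 e, add_comm])))

theorem card_inf_cen_ref (i : ZMod (2 * h)) :
    Nat.card ↥(D.S.P ⊓ cen D.S (D.ref i)) = 4 := by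
  set T : Finset G := {1, ((D.zP : D.S.P) : G), ((D.ref i : D.S.P) : G),
      ((D.ref (i + h) : D.S.P) : G)}
  have heq : Finset.univ.filter (fun x => x ∈ D.S.P ⊓ cen D.S (D.ref i)) = T := by
    refine Finset.Subset.antisymm (fun x hx => D.inf_cen_ref (Finset.mem_filter.1 hx).2) ?_
    intro x hx
    refine Finset.mem_filter.2 ⟨Finset.mem_univ _, D.mem_inf_cen.2 ?_⟩
    simp only [T, Finset.mem_insert, Finset.mem_singleton] at hx
    rcases hx with rfl | rfl | rfl | rfl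
    · exact ⟨one_mem _, Subtype.ext (by simp)⟩
    · exact ⟨D.zP.2, (D.central_zP _).symm⟩
    · exact ⟨(D.ref i).2, rfl⟩
    · exact ⟨(D.ref _).2, ((D.commute_ref_ref).2 (Or.inr (by ring))).symm⟩
  rw [Nat.card_eq_fintype_card, Fintype.card_subtype, heq]
  have h1 : (1 : D.S.P) ≠ D.zP := fun e =>
    half_ne_zero (D.rot_injective (e.symm.trans D.rot_zero.symm))
  have h2 : ∀ j, (1 : D.S.P) ≠ D.ref j := fun j e => D.ref_ne_rot j 0 (by rw [← e, rot_zero])
  have h3 : ∀ j, D.zP ≠ D.ref j := fun j e => D.ref_ne_rot j h e.symm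
  have h4 : D.ref i ≠ D.ref (i + h) := fun e => half_ne_zero (left_eq_add.1 (D.ref_injective e))
  have hc : T = ({1, D.zP, D.ref i, D.ref (i + h)} : Finset D.S.P).image Subtype.val := by
    simp only [T, Finset.image_insert, Finset.image_singleton, OneMemClass.coe_one]
  rw [hc, Finset.card_image_of_injective _ Subtype.coe_injective,
    Finset.card_insert_of_notMem (by simp [h1, h2]), Finset.card_insert_of_notMem (by simp [h3]),
    Finset.card_insert_of_notMem (by simp [h4]), Finset.card_singleton]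

theorem card_inf_cen_le {v : D.S.P} (hv : v * v ≠ 1) :
    Nat.card ↥(D.S.P ⊓ cen D.S v) ≤ 2 * h := by
  rcases D.coord v with ⟨i, rfl⟩ | ⟨i, rfl⟩
  · rw [D.card_inf_cen_rot]
    rw [Ne, D.rot_sq_eq_one, not_or] at hv
    exact hv
  · rw [D.card_inf_cen_ref]
    linarith [D.two_le]

end Ctx

end Cfsg.Agent.BlockTame
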