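import Cfsg.Agent.BlockTame.Ctx
import Cfsg.Agent.DihSolv.Central

/-!
# The fusion classes of a maximal pair with a semidihedral or generalized quaternion group
-/

set_option autoImplicit false
set_option maxHeartbeats 800000
set_option linter.unusedSectionVars false
set_option linter.style.haveILetI false

noncomputable section

namespace Cfsg.Agent.BlockTame

open Cfsg Cfsg.Agent.BrauerPairs Cfsg.Agent.BrauerPairs.Nil Cfsg.Agent.BlkStar
open Cfsg.Agent.FusionCount
open scoped Classical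

universe u

variable {M : Ideal AlgInt} [M.IsPrime] [CharP (Block.ResF M) 2] {G : Type u} [Group G]
  [Fintype G]

theorem conj_mem_cls (D : SD 2 M G) (x y : D.P) : x * y * x⁻¹ ∈ cls D y := by
  obtain ⟨b, hb⟩ := exists_cjRel (S := pairSys M G) (x : G) (pr D y)
  have hs := sle_of_cjRel_mem x.2 hb (pr_sle D y)
  have h1 : b.1 = Subgroup.zpowers (((x * y * x⁻¹ : D.P)) : G) := by
    rw [← hb.1]
    exact MonoidHom.map_zpowers _ _
  rw [D.eq_of_sle hs (pr_sle D _) h1] at hb
  exact (mem_cls_iff D).2 ⟨x, rfl, hb⟩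

namespace Ctx

variable {h : ℕ} [NeZero (2 * h)] (D : Ctx M G h)

/-- The element of order four in the rotations. -/
def wP : D.S.P := D.rot (wIdx h)

theorem sq_ne_one_of_mid {i : ZMod (2 * h)} (hi : Mid i) : D.rot i * D.rot i ≠ 1 := by
  rw [Ne, D.rot_sq_eq_one, not_or]
  exact hi

theorem sq_ne_one_of_cls {v v' : D.S.P} (h' : v' ∈ cls D.S v) (hv : v * v ≠ 1) : v' * v' ≠ 1 := by
  intro e
  apply hv
  have ho := orderOf_eq_of_mem_cls D.S h'
  rw [← sq] at e ⊢
  rw [← orderOf_dvd_iff_pow_eq_one] at e ⊢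
  rwa [← Subgroup.orderOf_coe v, ← ho, Subgroup.orderOf_coe v']

theorem σ_mem_cls (i : ZMod (2 * h)) : D.rot (D.σ * i) ∈ cls D.S (D.rot i) := by
  have := conj_mem_cls D.S ⟨D.b, D.mem_b⟩ (D.rot i)
  rwa [D.bP_mul_rot, mul_inv_cancel_right] at this

theorem cMax_mid {i : ZMod (2 * h)} (hi : Mid i) : CMax D.S (D.rot i) := fun v' hv' => by
  rw [D.card_inf_cen_rot hi]
  exact D.card_inf_cen_le (D.sq_ne_one_of_cls hv' (D.sq_ne_one_of_mid hi))

theorem cMax_zP : CMax D.S D.zP := cMax_of_central D.S D.P_le_cen_zP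

theorem exists_wIdx_mul {i : ZMod (2 * h)} (hi : Mid i) :
    ((D.wP : D.S.P) : G) ∈ Subgroup.zpowers ((D.rot i : D.S.P) : G) := by
  obtain ⟨k, hk⟩ := D.S.exists_orderOf (D.rot i)
  induction k generalizing i with
  | zero =>
    exfalso
    rw [pow_zero, Subgroup.orderOf_coe, orderOf_eq_one_iff, ← D.rot_zero,
      D.rot_injective.eq_iff] at hk
    exact hi.1 hk
  | succ k ih =>
    by_cases h2 : Mid (2 * i)
    · have hk' : orderOf ((D.rot (2 * i) : D.S.P) : G) = 2 ^ k := by
        rw [Subgroup.orderOf_coe, show (2 : ZMod (2 * h)) * i = (2 : ℕ) * i by norm_num, ← rot_pow,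
          orderOf_pow' _ two_ne_zero, ← Subgroup.orderOf_coe, hk, pow_succ,
          Nat.gcd_eq_right (dvd_mul_left 2 _), Nat.mul_div_cancel _ two_pos]
      refine Subgroup.zpowers_le.2 ?_ (ih h2 hk')
      rw [show (2 : ZMod (2 * h)) * i = (2 : ℕ) * i by norm_num, ← rot_pow, SubgroupClass.coe_pow]
      exact Subgroup.pow_mem _ (Subgroup.mem_zpowers _) _
    · rw [Mid, not_and_or, not_not, not_not] at h2
      have h3 : 2 * i = h := by
        refine h2.resolve_left fun e => ?_
        rcases two_mul_eq_zero e with e | e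
        · exact hi.1 e
        · exact hi.2 e
      have h4 : 2 * (wIdx h - i) = 0 := by rw [mul_sub, D.two_mul_wIdx, h3, sub_self]
      rcases two_mul_eq_zero h4 with e | e
      · rw [wP, sub_eq_zero.1 e]
        exact Subgroup.mem_zpowers _
      · rw [wP, show wIdx h = (3 : ℕ) * i by push_cast; linear_combination e - h3, ← rot_pow,
          SubgroupClass.coe_pow]
        exact Subgroup.pow_mem _ (Subgroup.mem_zpowers _) _

theorem cen_rot_le {i : ZMod (2 * h)} (hi : Mid i) : cen D.S (D.rot i) ≤ cen D.S D.wP :=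
  centralizer_anti (Subgroup.zpowers_le.2 (D.exists_wIdx_mul hi))

theorem odd_rot {i : ZMod (2 * h)} (hi : Mid i) :
    ∀ Q : Subgroup G, Q ≤ D.S.P ⊓ cen D.S (D.rot i) → ∀ x : G,
      x ∈ Subgroup.normalizer (Q : Set G) → x ∈ cen D.S (D.rot i) → ¬ 2 ∣ orderOf x →
      x ∈ Subgroup.centralizer (Q : Set G) := by
  intro Q hQ x hN _ hodd
  rw [D.inf_cen_rot hi] at hQ
  obtain ⟨c, hc⟩ : ∃ c, Q = Subgroup.zpowers c := by
    haveI : IsCyclic (Q.subgroupOf (Subgroup.zpowers D.a)) := inferInstance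
    obtain ⟨c, hc⟩ := (Subgroup.isCyclic_iff_exists_zpowers_eq_top _).1 this
    refine ⟨(c : G), ?_⟩
    have := congrArg (Subgroup.map (Subgroup.zpowers D.a).subtype) hc
    rw [MonoidHom.map_zpowers, Subgroup.map_subgroupOf_eq_of_le hQ] at this
    exact this.symm
  have hcQ : c ∈ Q := hc ▸ Subgroup.mem_zpowers c
  obtain ⟨j, hj⟩ := D.S.exists_orderOf ⟨c, (Subgroup.zpowers_le.2 D.mem_a) (hQ hcQ)⟩
  have hcomm := DihSolv.commute_of_cyclic hj hodd
    (hc ▸ (Subgroup.mem_normalizer_iff.1 hN c).1 hcQ)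
  rw [hc, Subgroup.mem_centralizer_iff]
  intro q hq
  obtain ⟨l, rfl⟩ := Subgroup.mem_zpowers_iff.1 hq
  exact (((show Commute x c from hcomm).zpow_right l).eq).symm

theorem odd_ref (i : ZMod (2 * h)) :
    ∀ Q : Subgroup G, Q ≤ D.S.P ⊓ cen D.S (D.ref i) → ∀ x : G,
      x ∈ Subgroup.normalizer (Q : Set G) → x ∈ cen D.S (D.ref i) → ¬ 2 ∣ orderOf x →
      x ∈ Subgroup.centralizer (Q : Set G) := by
  intro Q hQ x hN hx hodd
  set v : G := ((D.ref i : D.S.P) : G) with hv
  set z : G := ((D.zP : D.S.P) : G) with hz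
  have hxv : x * v = v * x := (mem_cen D.S).1 hx
  have hvz : ((D.ref (i + h) : D.S.P) : G) = v * z := by
    rw [← D.ref_mul_rot, Subgroup.coe_mul]
    rfl
  have hzz : z * z = 1 := by
    rw [hz, ← Subgroup.coe_mul, zP, (D.rot_sq_eq_one).2 (Or.inr rfl), OneMemClass.coe_one]
  have hvv : v * v = if D.IsSemi ∧ Ev i then 1 else z := by
    have h1 := congrArg Subtype.val (D.ref_sq i)
    rw [Subgroup.coe_mul] at h1
    rw [h1]
    split_ifs <;> rfl
  rw [Subgroup.mem_centralizer_iff]
  intro q hq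
  suffices hfix : x * q = q * x from hfix.symm
  have hmem : ∀ q ∈ Q, q = 1 ∨ q = z ∨ q = v ∨ q = v * z := by
    intro q hq
    have := D.inf_cen_ref (hQ hq)
    simp only [Finset.mem_insert, Finset.mem_singleton, hvz] at this
    exact this
  by_cases hs : D.IsSemi ∧ Ev i
  · rw [if_pos hs] at hvv
    have hvzc : v * z = z * v := congrArg Subtype.val (D.central_zP (D.ref i))
    by_cases hq1 : q = 1
    · rw [hq1, mul_one, one_mul]
    by_cases hq2 : q = v
    · rw [hq2]; exact hxv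
    set q' := x * q * x⁻¹ with hq'
    have hq'1 : q' ≠ 1 := fun e => hq1 (by rwa [hq', mul_inv_eq_one, mul_eq_left] at e)
    have hq'v : q' ≠ v := fun e => hq2 (by
      rw [hq', mul_inv_eq_iff_eq_mul, ← hxv] at e
      exact mul_left_cancel e)
    have hz' : ∀ r ∈ Q, r ≠ 1 → r ≠ v → r = z ∨ r = v * z := fun r hr h1 h2 => by
      rcases hmem r hr with e | e | e | e
      · exact absurd e h1
      · exact Or.inl e
      · exact absurd e h2
      · exact Or.inr e
    have hqq := hz' q hq hq1 hq2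
    have hq'q := hz' q' ((Subgroup.mem_normalizer_iff.1 hN q).1 hq) hq'1 hq'v
    by_cases heq : q' = q
    · rwa [hq', mul_inv_eq_iff_eq_mul] at heq
    exfalso
    have hrel : q' = v * q := by
      rcases hqq with e | e <;> rcases hq'q with e' | e'
      · exact absurd (e'.trans e.symm) heq
      · rw [e', e]
      · rw [e', e, ← mul_assoc, hvv, one_mul]
      · exact absurd (e'.trans e.symm) heq
    have hstep : x * (v * q) * x⁻¹ = q := by
      rw [← mul_assoc, hxv, mul_assoc v x q, mul_assoc v, ← hq', hrel, ← mul_assoc, hvv, one_mul]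
    have h2 : Commute (x ^ 2) q := by
      have : x ^ 2 * q * (x ^ 2)⁻¹ = q := by
        calc x ^ 2 * q * (x ^ 2)⁻¹ = x * (x * q * x⁻¹) * x⁻¹ := by rw [sq]; group
          _ = q := by rw [← hq', hrel, hstep]
      exact mul_inv_eq_iff_eq_mul.1 this
    obtain ⟨l, hl⟩ : Odd (orderOf x) := Nat.not_even_iff_odd.1 fun he => hodd he.two_dvd
    have hx2 : (x ^ 2) ^ (l + 1) = x := by
      rw [← pow_mul, show 2 * (l + 1) = orderOf x + 1 by omega, pow_succ, pow_orderOf_eq_one,
        one_mul]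
    apply heq
    rw [hq', mul_inv_eq_iff_eq_mul, ← hx2]
    exact (h2.pow_left (l + 1)).eq
  · rw [if_neg hs] at hvv
    have hxv' : Commute x v := hxv
    have hxz : Commute x z := hvv ▸ hxv'.mul_right hxv'
    rcases hmem q hq with rfl | rfl | rfl | rfl
    · rw [mul_one, one_mul]
    · exact hxz.eq
    · exact hxv
    · exact (hxv'.mul_right hxz).eq

theorem rank_rot {i : ZMod (2 * h)} (hi : Mid i) : blockRank 2 (pr D.S (D.rot i)).2.1 = 1 := by
  obtain ⟨T⟩ := exists_local D.S (D.cMax_mid hi)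
  exact T.rank_one (T.isNilpotent (D.odd_rot hi))

theorem defect_rot {i : ZMod (2 * h)} (hi : Mid i) :
    2 ^ blockDefect 2 (pr D.S (D.rot i)).2.1 = 2 * h := by
  rw [← card_defect_pr D.S (D.cMax_mid hi), D.card_inf_cen_rot hi]

/-- A rotation is fused only to its conjugates among the rotations. -/
theorem cls_rot {i j : ZMod (2 * h)} (hi : Mid i) (hj : D.rot j ∈ cls D.S (D.rot i)) :
    j = i ∨ j = D.σ * i := by
  have hjm : Mid j := by
    have := D.sq_ne_one_of_cls hj (D.sq_ne_one_of_mid hi)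
    rwa [Ne, D.rot_sq_eq_one, not_or] at this
  obtain ⟨T⟩ := exists_local D.S (D.cMax_mid D.mid_wIdx)
  have hn := T.isNilpotent (D.odd_rot D.mid_wIdx)
  have hmem : ∀ k, ((D.rot k : D.S.P) : G) ∈ cen D.S D.wP := fun k =>
    (mem_cen D.S).2 (congrArg Subtype.val (D.commute_rot_rot k _))
  have key : ∀ j', Mid j' → ∀ g ∈ cen D.S D.wP,
      g * ((D.rot i : D.S.P) : G) * g⁻¹ = ((D.rot j' : D.S.P) : G) →
      CjRel (pairSys M G) g (pr D.S (D.rot i)) (pr D.S (D.rot j')) → j' = i := by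
    intro j' hj' g hg e hc
    have hx := T.lifts_pr (x := T.ofP (D.rot i) (hmem i)) (D.cen_rot_le hi)
    have hy := T.lifts_pr (x := T.ofP (D.rot j') (hmem j')) (D.cen_rot_le hj')
    have hdown := cjRel_down hx hy (y := ⟨g, hg⟩) hc
    rw [← T.nil_pair hn, ← T.nil_pair hn] at hdown
    obtain ⟨x, hxP, hxe⟩ := (T.nil hn).exists_mem_of_cjRel (g := ⟨g, hg⟩)
      (u := T.ofP (D.rot i) (hmem i)) (v := T.ofP (D.rot j') (hmem j')) (Subtype.ext e) hdown
    have hxa : ((x : cen D.S D.wP) : G) ∈ Subgroup.zpowers D.a := by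
      rw [← D.inf_cen_rot D.mid_wIdx]
      exact ⟨T.mem_P.1 hxP, x.2⟩
    obtain ⟨k, hk⟩ := D.exists_rot hxa
    have e2 : ((x : cen D.S D.wP) : G) * ((D.rot i : D.S.P) : G) * ((x : cen D.S D.wP) : G)⁻¹ =
        ((D.rot j' : D.S.P) : G) := congrArg Subtype.val hxe
    rw [← hk, ← Subgroup.coe_mul, D.commute_rot_rot, Subgroup.coe_mul, mul_inv_cancel_right] at e2
    exact (D.rot_injective (Subtype.ext e2)).symm
  obtain ⟨g, he, hc⟩ := (mem_cls_iff D.S).1 hj
  obtain ⟨l, hl⟩ := Subgroup.mem_zpowers_iff.1 (D.exists_wIdx_mul hi)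
  have hgw : g * ((D.wP : D.S.P) : G) * g⁻¹ ∈ Subgroup.zpowers D.a := by
    rw [← hl, ← conj_zpow, he]
    exact Subgroup.zpow_mem _ (D.rot_mem_zpowers j) _
  obtain ⟨k, hk⟩ := D.exists_rot hgw
  have hk2 : 2 * k = h := by
    have h1 : D.rot k * D.rot k ≠ 1 := by
      intro e
      apply D.sq_ne_one_of_mid D.mid_wIdx
      refine Subtype.ext ?_
      have h2 : g * (((D.wP : D.S.P) : G) * ((D.wP : D.S.P) : G)) * g⁻¹ = 1 := by
        calc _ = (g * ((D.wP : D.S.P) : G) * g⁻¹) * (g * ((D.wP : D.S.P) : G) * g⁻¹) := by group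
          _ = 1 := by rw [← hk, ← Subgroup.coe_mul, e, OneMemClass.coe_one]
      rw [mul_inv_eq_one, mul_eq_left] at h2
      rw [OneMemClass.coe_one, Subgroup.coe_mul]
      exact h2
    have h4 : D.rot (2 * k) * D.rot (2 * k) = 1 := by
      refine Subtype.ext ?_
      have h3 : ((D.wP : D.S.P) : G) * ((D.wP : D.S.P) : G) *
          (((D.wP : D.S.P) : G) * ((D.wP : D.S.P) : G)) = 1 := by
        rw [wP, ← Subgroup.coe_mul, ← rot_add, ← two_mul, D.two_mul_wIdx, ← Subgroup.coe_mul,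
          (D.rot_sq_eq_one).2 (Or.inr rfl), OneMemClass.coe_one]
      rw [two_mul, rot_add, Subgroup.coe_mul, Subgroup.coe_mul, hk, OneMemClass.coe_one]
      calc _ = g * (((D.wP : D.S.P) : G) * ((D.wP : D.S.P) : G) *
            (((D.wP : D.S.P) : G) * ((D.wP : D.S.P) : G))) * g⁻¹ := by group
        _ = 1 := by rw [h3]; group
    refine ((D.rot_sq_eq_one).1 h4).resolve_left fun e => h1 ((D.rot_sq_eq_one).2 ?_)
    exact two_mul_eq_zero e
  have hk' : k = wIdx h ∨ k = wIdx h + h := by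
    rcases two_mul_eq_zero (i := k - wIdx h) (by rw [mul_sub, hk2, D.two_mul_wIdx, sub_self]) with
      e | e
    · exact Or.inl (sub_eq_zero.1 e)
    · exact Or.inr (by rw [sub_eq_iff_eq_add.1 e, add_comm])
  rcases hk' with rfl | rfl
  · exact Or.inl (key j hjm g ((mem_cen D.S).2 (mul_inv_eq_iff_eq_mul.1 hk.symm)) he hc)
  · right
    have hb := (mem_cls_iff D.S).1 (D.σ_mem_cls j)
    obtain ⟨g', he', hc'⟩ := hb
    have hb2 : D.rot (D.σ * j) ∈ cls D.S (D.rot i) := cls_trans D.S hj (D.σ_mem_cls j)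
    obtain ⟨c, hc1⟩ := exists_cjRel (S := pairSys M G) D.b (pr D.S (D.rot j))
    have hs := sle_of_cjRel_mem D.mem_b hc1 (pr_sle D.S (D.rot j))
    have hc2 : c.1 = Subgroup.zpowers (((D.rot (D.σ * j) : D.S.P)) : G) := by
      rw [← hc1.1, ← D.conj_rot]
      exact MonoidHom.map_zpowers _ _
    rw [D.S.eq_of_sle hs (pr_sle D.S _) hc2] at hc1
    have hgb : D.b * g ∈ cen D.S D.wP := by
      refine (mem_cen D.S).2 (mul_inv_eq_iff_eq_mul.1 ?_)
      calc D.b * g * ((D.wP : D.S.P) : G) * (D.b * g)⁻¹ =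
          D.b * (g * ((D.wP : D.S.P) : G) * g⁻¹) * D.b⁻¹ := by group
        _ = _ := by rw [← hk, D.conj_rot, mul_add, D.σ_wIdx, D.σ_half, add_assoc, half_add,
            add_zero]; rfl
    have := key (D.σ * j) (D.mid_σ hjm) _ hgb (by
      calc D.b * g * ((D.rot i : D.S.P) : G) * (D.b * g)⁻¹ =
          D.b * (g * ((D.rot i : D.S.P) : G) * g⁻¹) * D.b⁻¹ := by group
        _ = _ := by rw [he, D.conj_rot]) (hc.trans hc1)
    rw [← this, D.σ_σ]

/-- The elements outside that are not fused to rotations. -/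
def X : Finset D.S.P := Finset.univ.filter fun v => ∀ i, D.rot i ∉ cls D.S v

theorem mem_X {v : D.S.P} : v ∈ D.X ↔ ∀ i, D.rot i ∉ cls D.S v := by simp [X]

theorem X_of_cls {v v' : D.S.P} (hv : v ∈ D.X) (h' : v' ∈ cls D.S v) : v' ∈ D.X := by
  rw [D.mem_X] at hv ⊢
  intro i
  rw [cls_eq_of_mem D.S h']
  exact hv i

theorem exists_ref_of_X {v : D.S.P} (hv : v ∈ D.X) : ∃ i, v = D.ref i := by
  refine (D.coord v).resolve_left ?_
  rintro ⟨i, rfl⟩
  exact (D.mem_X.1 hv) i (self_mem_cls D.S _)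

theorem cMax_X {v : D.S.P} (hv : v ∈ D.X) : CMax D.S v := fun v' hv' => by
  obtain ⟨i, rfl⟩ := D.exists_ref_of_X hv
  obtain ⟨j, rfl⟩ := D.exists_ref_of_X (D.X_of_cls hv hv')
  rw [D.card_inf_cen_ref, D.card_inf_cen_ref]

theorem rank_X {v : D.S.P} (hv : v ∈ D.X) : blockRank 2 (pr D.S v).2.1 = 1 := by
  obtain ⟨T⟩ := exists_local D.S (D.cMax_X hv)
  obtain ⟨i, rfl⟩ := D.exists_ref_of_X hv
  exact T.rank_one (T.isNilpotent (D.odd_ref i))

theorem defect_X {v : D.S.P} (hv : v ∈ D.X) : 2 ^ blockDefect 2 (pr D.S v).2.1 = 4 := by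
  rw [← card_defect_pr D.S (D.cMax_X hv)]
  obtain ⟨i, rfl⟩ := D.exists_ref_of_X hv
  exact D.card_inf_cen_ref i

/-- The classes outside. -/
def XC : Finset (Finset D.S.P) := D.X.image (cls D.S)

/-- A representative of a class. -/
def rep (C : Finset D.S.P) : D.S.P := if hC : C.Nonempty then hC.choose else 1

theorem rep_mem_cls (v : D.S.P) : D.rep (cls D.S v) ∈ cls D.S v := by
  have hC : (cls D.S v).Nonempty := ⟨v, self_mem_cls D.S v⟩
  rw [rep, dif_pos hC]
  exact hC.choose_spec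

theorem rep_X {C : Finset D.S.P} (hC : C ∈ D.XC) : D.rep C ∈ D.X ∧ cls D.S (D.rep C) = C := by
  obtain ⟨v, hv, rfl⟩ := Finset.mem_image.1 hC
  exact ⟨D.X_of_cls hv (D.rep_mem_cls v), cls_eq_of_mem D.S (D.rep_mem_cls v)⟩

theorem zP_cls {i : ZMod (2 * h)} (hi : D.rot i ∈ cls D.S D.zP) : i = h := by
  obtain ⟨g, hg, -⟩ := (mem_cls_iff D.S).1 hi
  have h1 : D.rot i * D.rot i = 1 := by
    refine Subtype.ext ?_
    rw [Subgroup.coe_mul, ← hg, OneMemClass.coe_one]
    calc _ = g * (((D.zP : D.S.P) : G) * ((D.zP : D.S.P) : G)) * g⁻¹ := by group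
      _ = 1 := by rw [← Subgroup.coe_mul, zP, (D.rot_sq_eq_one).2 (Or.inr rfl),
          OneMemClass.coe_one]; group
  refine ((D.rot_sq_eq_one).1 h1).resolve_left fun e => half_ne_zero (D.rot_injective ?_)
  have := cls_symm D.S hi
  rw [e, D.rot_zero, cls_one, Finset.mem_singleton] at this
  rw [D.rot_zero]
  exact this

/-- The sum over the classes. -/
theorem sum_cls_eq (f : D.S.P → ℂ) (hf : ∀ v, ∀ v' ∈ cls D.S v, f v' = f v) :
    ∑ v : D.S.P, f v / ((cls D.S v).card : ℂ) =
      f 1 + f D.zP + (∑ i : ZMod (2 * h), if Mid i then f (D.rot i) / 2 else 0) +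
        ∑ C ∈ D.XC, f (D.rep C) := by
  rw [← Finset.sum_filter_add_sum_filter_not Finset.univ (fun v => v ∈ D.X), add_comm]
  congr 1
  · set R : D.S.P → Finset (ZMod (2 * h)) :=
      fun v => Finset.univ.filter fun i => D.rot i ∈ cls D.S v
    have hR : ∀ v, v ∉ D.X → ((R v).card : ℂ) ≠ 0 := by
      intro v hv
      rw [D.mem_X] at hv
      push Not at hv
      obtain ⟨i, hi⟩ := hv
      exact Nat.cast_ne_zero.2 (Finset.card_pos.2 ⟨i, by simp [R, hi]⟩).ne'
    rw [Finset.sum_congr rfl (g := fun v => ∑ i ∈ R v,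
      f (D.rot i) / (((cls D.S (D.rot i)).card : ℂ) * ((R (D.rot i)).card : ℂ))) fun v hv => by
        rw [Finset.sum_congr rfl (g := fun _ =>
          f v / (((cls D.S v).card : ℂ) * ((R v).card : ℂ))) fun i hi => by
            have hm := (Finset.mem_filter.1 hi).2
            have e : R (D.rot i) = R v := by simp only [R, cls_eq_of_mem D.S hm]
            rw [e, hf v _ hm, cls_eq_of_mem D.S hm], Finset.sum_const, nsmul_eq_mul,
          ← mul_div_assoc, mul_comm ((R v).card : ℂ), mul_div_mul_right _ _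
            (hR v (Finset.mem_filter.1 hv).2)]]
    rw [Finset.sum_comm' (t' := Finset.univ)
      (s' := fun i => cls D.S (D.rot i)) (fun v i => ?_)]
    · have hcard : ∀ i, (R (D.rot i)).card = if Mid i then 2 else 1 := by
        intro i
        split_ifs with hi
        · have e : R (D.rot i) = {i, D.σ * i} := by
            ext j
            simp only [R, Finset.mem_filter, Finset.mem_univ, true_and, Finset.mem_insert,
              Finset.mem_singleton]
            refine ⟨D.cls_rot hi, ?_⟩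
            rintro (rfl | rfl)
            · exact self_mem_cls D.S _
            · exact D.σ_mem_cls i
          rw [e, Finset.card_pair ((D.mid_iff).1 hi).symm]
        · rw [Mid, not_and_or, not_not, not_not] at hi
          refine Finset.card_eq_one.2 ⟨i, Finset.ext fun j => ?_⟩
          simp only [R, Finset.mem_filter, Finset.mem_univ, true_and, Finset.mem_singleton]
          refine ⟨fun hj => ?_, fun e => e ▸ self_mem_cls D.S _⟩
          rcases hi with rfl | rfl
          · rw [D.rot_zero, cls_one, Finset.mem_singleton, ← D.rot_zero] at hj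
            exact D.rot_injective hj
          · exact D.zP_cls hj
      simp only [Finset.sum_const, nsmul_eq_mul, hcard]
      have hterm : ∀ i, ((cls D.S (D.rot i)).card : ℂ) * (f (D.rot i) /
          (((cls D.S (D.rot i)).card : ℂ) * ((if Mid i then 2 else 1 : ℕ) : ℂ))) =
          f (D.rot i) / ((if Mid i then 2 else 1 : ℕ) : ℂ) := fun i => by
        rw [← mul_div_assoc, mul_div_mul_left _ _ (Nat.cast_ne_zero.2
          (Finset.card_pos.2 ⟨_, self_mem_cls D.S (D.rot i)⟩).ne')]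
      simp only [hterm]
      have hsplit : ∀ i, f (D.rot i) / ((if Mid i then 2 else 1 : ℕ) : ℂ) =
          (if i = 0 then f (D.rot i) else 0) + (if i = (h : ZMod (2 * h)) then f (D.rot i) else 0) +
            (if Mid i then f (D.rot i) / 2 else 0) := by
        intro i
        by_cases h0 : i = 0
        · subst h0
          simp [Mid, (half_ne_zero (h := h)).symm]
        by_cases h1 : i = (h : ZMod (2 * h))
        · subst h1
          simp [Mid, half_ne_zero (h := h)]
        · have hm : Mid i := ⟨h0, h1⟩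
          simp [hm, h0, h1]
      simp only [hsplit, Finset.sum_add_distrib, Finset.sum_ite_eq', Finset.mem_univ, if_true,
        D.rot_zero, zP]
    · simp only [Finset.mem_filter, Finset.mem_univ, true_and, R, and_true]
      constructor
      · rintro ⟨-, hi⟩
        exact cls_symm D.S hi
      · intro hv
        exact ⟨fun hX => (D.mem_X.1 hX) i (cls_symm D.S hv), cls_symm D.S hv⟩
  · rw [Finset.filter_mem_eq_inter, Finset.univ_inter,
      ← Finset.sum_fiberwise_of_maps_to (g := cls D.S) (t := D.XC)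
        fun v hv => Finset.mem_image_of_mem _ hv]
    refine Finset.sum_congr rfl fun C hC => ?_
    obtain ⟨hr, hrc⟩ := D.rep_X hC
    have e : D.X.filter (fun v => cls D.S v = C) = C := by
      refine Finset.ext fun v => ⟨fun hv => ?_, fun hv => ?_⟩
      · rw [← (Finset.mem_filter.1 hv).2]; exact self_mem_cls D.S v
      · rw [← hrc] at hv
        exact Finset.mem_filter.2 ⟨D.X_of_cls hr hv, (cls_eq_of_mem D.S hv).trans hrc⟩
    rw [e, Finset.sum_congr rfl (g := fun _ => f (D.rep C) / (C.card : ℂ)) fun v hv => by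
      rw [← hrc] at hv
      rw [hf _ v hv, cls_eq_of_mem D.S hv, hrc], Finset.sum_const, nsmul_eq_mul]
    refine mul_div_cancel₀ _ (Nat.cast_ne_zero.2 (Finset.card_pos.2 ⟨D.rep C, ?_⟩).ne')
    have hm := self_mem_cls D.S (D.rep C)
    rwa [hrc] at hm

end Ctx

end Cfsg.Agent.BlockTame
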