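import Cfsg.Agent.BlockTame.Subsec
import Cfsg.Agent.BlockDih.NilExtra
import Cfsg.Agent.BrauerPairs.Nilpotent
import Cfsg.Agent.BrauerPairs.BlockFS

/-!
# The block at a fully centralized element of the defect group
-/

set_option autoImplicit false
set_option maxHeartbeats 800000
set_option linter.unusedSectionVars false
set_option linter.style.haveILetI false

noncomputable section

namespace Cfsg.Agent.BlockTame

open Cfsg Cfsg.Agent.BrauerPairs Cfsg.Agent.BrauerPairs.Nil Cfsg.Agent.BlkStar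
open Cfsg.Agent.BlkChar.Contrib Cfsg.Agent.BlkChar.Cyclo Cfsg.Agent.FusionCount
open scoped ComplexConjugate Classical

universe u

variable {p : ℕ} [Fact p.Prime] {M : Ideal AlgInt} [M.IsPrime] [CharP (Block.ResF M) p]
  {G : Type u} [Group G] [Fintype G]

/-! ### Transport of parts without class functions -/

theorem phi_conj' {x : G} {a b : PairIdx M G} (h : CjRel (pairSys M G) x a b) (w : G)
    (φ : G → ℂ) (y : G) :
    Phi b (x * w * x⁻¹) φ (x * y * x⁻¹) = Phi a w (fun g => φ (x * g * x⁻¹)) y := by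
  have hmap : (Subgroup.centralizer (a.1 : Set G)).map (MulAut.conj x).toMonoidHom =
      Subgroup.centralizer (b.1 : Set G) := by rw [← h.1, centralizer_map_conj]
  rw [phi_eq_sum, phi_eq_sum]
  refine (Fintype.sum_equiv (MulAut.conj x).toEquiv _ _ fun c => ?_).symm
  show _ = subgroupBlockCoeff _ b.2.1 (x * c * x⁻¹) *
    φ (x * w * x⁻¹ * (x * c * x⁻¹) * (x * y * x⁻¹))
  rw [subgroupBlockCoeff_cj x hmap h.2, show x⁻¹ * (x * c * x⁻¹) * x = c by group,
    show x * w * x⁻¹ * (x * c * x⁻¹) * (x * y * x⁻¹) = x * (w * c * y) * x⁻¹ by group]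

theorem secReg_conj' {x : G} {a b : PairIdx M G} (h : CjRel (pairSys M G) x a b) (w : G)
    (φ ψ : G → ℂ) :
    secReg p b (x * w * x⁻¹) φ ψ =
      secReg p a w (fun g => φ (x * g * x⁻¹)) (fun g => ψ (x * g * x⁻¹)) := by
  have hmem : ∀ y : G, x * y * x⁻¹ ∈ Subgroup.centralizer (b.1 : Set G) ↔
      y ∈ Subgroup.centralizer (a.1 : Set G) := by
    intro y
    rw [← h.1, centralizer_map_conj, mem_map_conj_iff]
    simp [mul_assoc]
  rw [secReg, secReg, Finset.sum_filter, Finset.sum_filter]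
  refine (Fintype.sum_equiv (MulAut.conj x).toEquiv _ _ fun y => ?_).symm
  show _ = if x * y * x⁻¹ ∈ Subgroup.centralizer (b.1 : Set G) ∧ ¬ p ∣ orderOf (x * y * x⁻¹) then
      Phi b (x * w * x⁻¹) φ (x * y * x⁻¹) * conj (Phi b (x * w * x⁻¹) ψ (x * y * x⁻¹)) else 0
  rw [phi_conj' h, phi_conj' h, ← MulAut.conj_apply x y, MulEquiv.orderOf_eq, MulAut.conj_apply]
  simp only [hmem]

theorem secReg_lifts {L : Subgroup G} {a' : PairIdx M L} {a : PairIdx M G} (ha : Lifts L a' a)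
    (w : L) (φ ψ : G → ℂ) :
    secReg p a' w (fun x : L => φ x) (fun x : L => ψ x) = secReg p a (w : G) φ ψ := by
  have hC : Subgroup.centralizer (a.1 : Set G) ≤ L := ha.2.1
  have hmap : (Subgroup.centralizer (a'.1 : Set L)).map L.subtype =
      Subgroup.centralizer (a.1 : Set G) := by
    rw [centralizer_map_subtype (by rw [ha.1]; exact hC), ha.1]
  rw [secReg, secReg]
  refine Finset.sum_bij' (fun y _ => (y : G))
    (fun y hy => ⟨y, hC (Finset.mem_filter.1 hy).2.1⟩) (fun y hy => ?_) (fun y hy => ?_)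
    (fun _ _ => rfl) (fun _ _ => rfl) fun y _ => ?_
  · obtain ⟨-, h1, h2⟩ := Finset.mem_filter.1 hy
    refine Finset.mem_filter.2 ⟨Finset.mem_univ _, ?_, by rwa [Subgroup.orderOf_coe]⟩
    rw [← hmap]
    exact ⟨y, h1, rfl⟩
  · obtain ⟨-, h1, h2⟩ := Finset.mem_filter.1 hy
    refine Finset.mem_filter.2 ⟨Finset.mem_univ _, ?_, by rwa [← Subgroup.orderOf_coe]⟩
    rw [← Subgroup.mem_map_iff_mem L.subtype_injective, hmap]
    exact h1
  · rw [BlockDih.phi_lifts ha, BlockDih.phi_lifts ha]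

/-- A pair of a subgroup is determined by its lift. -/
theorem Lifts.eq_down {L : Subgroup G} {a' b' : PairIdx M L} {a : PairIdx M G}
    (ha : Lifts L a' a) (hb : Lifts L b' a) : a' = b' := by
  obtain ⟨Q, f⟩ := a'
  obtain ⟨R, g⟩ := b'
  obtain rfl : Q = R := Subgroup.map_injective L.subtype_injective (ha.1.trans hb.1.symm)
  have h : Block.incl L ((pairSys M L Q).idem f) = Block.incl L ((pairSys M L Q).idem g) :=
    ha.2.2.symm.trans hb.2.2
  rw [(pairSys M L Q).idem_injective (Block.incl_injective L h)]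

theorem cjRel_down {L : Subgroup G} {a' b' : PairIdx M L} {a b : PairIdx M G}
    (ha : Lifts L a' a) (hb : Lifts L b' b) {y : L} (h : CjRel (pairSys M G) (y : G) a b) :
    CjRel (pairSys M L) y a' b' := by
  obtain ⟨c', hc'⟩ := exists_cjRel (S := pairSys M L) y a'
  have hm : c'.1.map L.subtype = b.1 := by rw [← hc'.1, map_map_conj_subtype, ha.1, h.1]
  obtain ⟨c, hc⟩ := exists_lifts_up (L := L) c' (by rw [hm]; exact hb.2.1)
  obtain rfl : c = b := (Lifts.cjRel ha hc hc').unique h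
  obtain rfl : c' = b' := Lifts.eq_down hc hb
  exact hc'

variable (D : SD p M G)

/-- The centralizer of an element of the defect group. -/
abbrev cen (v : D.P) : Subgroup G := Subgroup.centralizer (Subgroup.zpowers (v : G) : Set G)

/-- No conjugate in the fusion system has a larger centralizer in the defect group. -/
def CMax (v : D.P) : Prop :=
  ∀ v' ∈ cls D v, Nat.card ↥(D.P ⊓ cen D v') ≤ Nat.card ↥(D.P ⊓ cen D v)

theorem mem_cen {v : D.P} {x : G} : x ∈ cen D v ↔ x * (v : G) = (v : G) * x :=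
  BlockHeight.mem_centralizer_zpowers

theorem cMax_of_central {v : D.P} (h : D.P ≤ cen D v) : CMax D v := fun _ _ => by
  rw [inf_eq_left.2 h]
  exact Subgroup.card_le_of_le inf_le_left

theorem isDefectGroup_pr {v : D.P} (h : CMax D v) :
    IsDefectGroup p M (pr D v).2.1 ((D.P ⊓ cen D v).subgroupOf (cen D v)) := by
  refine (isFullyCentralized_iff D.isFS (pr_sle D v)).1 ⟨Subgroup.zpowers_le.2 v.2, fun R hR => ?_⟩
  obtain ⟨x, b, hb, hb', rfl⟩ := (isConj_iff_exists D.isFS (pr_sle D v)).1 hR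
  have hb1 : b.1 = Subgroup.zpowers (x * (v : G) * x⁻¹) := by
    rw [← hb.1]
    exact MonoidHom.map_zpowers _ _
  set v' : D.P := ⟨x * (v : G) * x⁻¹, hb'.le (hb1 ▸ Subgroup.mem_zpowers _)⟩
  have hb2 : b = pr D v' := D.eq_of_sle hb' (pr_sle D v') hb1
  have := h v' ((mem_cls_iff D).2 ⟨x, rfl, hb2 ▸ hb⟩)
  rw [hb1]
  exact this

theorem card_defect_pr {v : D.P} (h : CMax D v) :
    Nat.card ↥(D.P ⊓ cen D v) = p ^ blockDefect p (pr D v).2.1 := by
  rw [← BlockVal.card_defectGroup D.isPModular (pr D v).2.2 (isDefectGroup_pr D h)]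
  exact (Nat.card_congr (Subgroup.subgroupOfEquivOfLe inf_le_right).toEquiv).symm

theorem card_P_eq : Nat.card D.P = p ^ blockDefect p D.B.1 :=
  BlockVal.card_defectGroup D.isPModular D.B.2
    ((isDefectGroup_iff D.B D.P).2 D.maxPair.isDef)

/-- The data of the block at a fully centralized element. -/
structure Local (v : D.P) where
  /-- The block with its maximal pair. -/
  T : SD p M (cen D v)
  B_eq : T.B = (pr D v).2
  P_eq : T.P = (D.P ⊓ cen D v).subgroupOf (cen D v)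
  top : ∃ b, Lifts (cen D v) ⟨T.P, T.e⟩ b ∧ SLE (pairSys M G) p b ⟨D.P, D.e⟩

theorem exists_local {v : D.P} (h : CMax D v) : Nonempty (Local D v) := by
  obtain ⟨fQ, hfQ, -⟩ := existsUnique_sle (S := pairSys M G) (b := ⟨D.P, D.e⟩)
    (Q := D.P ⊓ cen D v) D.isPGroup inf_le_left
  have hvQ : Subgroup.zpowers (v : G) ≤ D.P ⊓ cen D v :=
    le_inf (Subgroup.zpowers_le.2 v.2) (Subgroup.zpowers_le.2 ((mem_cen D).2 rfl))
  obtain ⟨⟨Q', i⟩, hd⟩ := exists_lifts_down (L := cen D v)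
    (⟨D.P ⊓ cen D v, fQ⟩ : PairIdx M G) inf_le_right (centralizer_anti hvQ)
  have hQ' : Q' = (D.P ⊓ cen D v).subgroupOf (cen D v) := by
    have h1 : Q'.map (cen D v).subtype = D.P ⊓ cen D v := hd.1
    rw [← h1]
    exact (Subgroup.comap_map_eq_self_of_injective (cen D v).subtype_injective Q').symm
  subst hQ'
  have hsle : SLE (pairSys M G) p (pr D v) ⟨D.P ⊓ cen D v, fQ⟩ :=
    sle_of_sle_of_le D.isPGroup (pr_sle D v) hfQ hvQ
  have hdE : PairOf (blockSysTop M) (pairSys M (cen D v)) p (pr D v).2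
      ⟨(D.P ⊓ cen D v).subgroupOf (cen D v), i⟩ :=
    hd.pairOf (E := (pr D v).2) rfl (nsub_of_sle_of_le_normalizer (D.isPGroup.to_le inf_le_left)
      hsle (inf_le_right.trans (Subgroup.centralizer_le_normalizer _)))
  have hDef : IsDef (blockSysTop M) p (pr D v).2 ((D.P ⊓ cen D v).subgroupOf (cen D v)) :=
    (isDefectGroup_iff (pr D v).2 _).1 (isDefectGroup_pr D h)
  have hmax : MaxPair (blockSysTop M) (pairSys M (cen D v)) p (pr D v).2
      ⟨(D.P ⊓ cen D v).subgroupOf (cen D v), i⟩ := by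
    refine ⟨hdE, fun c hc hle => ?_⟩
    obtain ⟨g, hg⟩ := hDef.conjLE hc.1 hc.trunc_ne_zero
    have hcard := Subgroup.card_le_of_le hg
    exact (Subgroup.eq_of_le_of_card_ge hle.le (hcard.trans
      (le_of_eq (Subgroup.card_map_of_injective (MulAut.conj g).injective)))).symm
  have hm := (isMaximalBrauerPair_iff (pr D v).2 ⟨_, i⟩).2 hmax
  obtain ⟨F, hF⟩ := exists_blockFS hm
  exact ⟨⟨⟨(pr D v).2, _, i, F, D.isPModular, hF⟩, rfl, rfl, _, hd, hfQ⟩⟩

namespace Local

variable {D} {v : D.P} (T : Local D v)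

theorem mem_P {x : cen D v} : x ∈ T.T.P ↔ (x : G) ∈ D.P := by
  rw [T.P_eq, Subgroup.mem_subgroupOf, Subgroup.mem_inf]
  exact and_iff_left x.2

/-- An element of the local defect group, in the defect group. -/
def toP (x : T.T.P) : D.P := ⟨((x : cen D v) : G), T.mem_P.1 x.2⟩

/-- An element of the defect group centralizing `v`, in the local defect group. -/
def ofP (x : D.P) (h : (x : G) ∈ cen D v) : T.T.P := ⟨⟨(x : G), h⟩, T.mem_P.2 x.2⟩

@[simp] theorem toP_coe (x : T.T.P) : ((T.toP x : D.P) : G) = ((x : cen D v) : G) := rfl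

@[simp] theorem toP_ofP (x : D.P) (h : (x : G) ∈ cen D v) : T.toP (T.ofP x h) = x := rfl

theorem toP_injective : Function.Injective T.toP := fun x y h =>
  Subtype.ext (Subtype.ext (congrArg (fun z : D.P => (z : G)) h))

theorem lifts_pr {x : T.T.P}
    (hC : Subgroup.centralizer (Subgroup.zpowers ((x : cen D v) : G) : Set G) ≤ cen D v) :
    Lifts (cen D v) (pr T.T x) (pr D (T.toP x)) := by
  have hmap : (pr T.T x).1.map (cen D v).subtype =
      Subgroup.zpowers ((x : cen D v) : G) := MonoidHom.map_zpowers _ _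
  obtain ⟨b, hb⟩ := exists_lifts_up (L := cen D v) (pr T.T x) (by rw [hmap]; exact hC)
  obtain ⟨t, ht, hts⟩ := T.top
  obtain ⟨c, hc, hbc⟩ := hb.sle (pr_sle T.T x)
  obtain rfl : c = t := hc.unique ht
  obtain rfl : b = pr D (T.toP x) :=
    D.eq_of_sle (hbc.trans hts) (pr_sle D (T.toP x)) (hb.1.symm.trans hmap)
  exact hb

theorem mem_cls_toP {x y : T.T.P}
    (hx : Subgroup.centralizer (Subgroup.zpowers ((x : cen D v) : G) : Set G) ≤ cen D v)
    (hy : Subgroup.centralizer (Subgroup.zpowers ((y : cen D v) : G) : Set G) ≤ cen D v)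
    (hg : ∀ g : G, g * ((x : cen D v) : G) * g⁻¹ = ((y : cen D v) : G) → g ∈ cen D v) :
    T.toP y ∈ cls D (T.toP x) ↔ y ∈ cls T.T x := by
  rw [mem_cls_iff, mem_cls_iff]
  constructor
  · rintro ⟨g, h1, h2⟩
    exact ⟨⟨g, hg g h1⟩, Subtype.ext h1, cjRel_down (T.lifts_pr hx) (T.lifts_pr hy) h2⟩
  · rintro ⟨g, h1, h2⟩
    exact ⟨g, congrArg Subtype.val h1, Lifts.cjRel (T.lifts_pr hx) (T.lifts_pr hy) h2⟩

/-- The local block is nilpotent when odd order elements act trivially. -/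
theorem isNilpotent (hodd : ∀ Q : Subgroup G, Q ≤ D.P ⊓ cen D v → ∀ x : G,
      x ∈ Subgroup.normalizer (Q : Set G) → x ∈ cen D v → ¬ p ∣ orderOf x →
      x ∈ Subgroup.centralizer (Q : Set G)) :
    IsNilpotentBlock p M T.T.B.1 := by
  refine isNilpotentBlock_of_sle T.T.maxPair fun c hc x hx hreg => ?_
  obtain ⟨Q, g⟩ := c
  have hQP : Q.map (cen D v).subtype ≤ D.P ⊓ cen D v := by
    rintro _ ⟨q, hq, rfl⟩
    exact ⟨T.mem_P.1 (hc.le hq), q.2⟩
  have hxN : (x : G) ∈ Subgroup.normalizer ((Q.map (cen D v).subtype : Subgroup G) : Set G) :=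
    Subgroup.le_normalizer_map _ ⟨x, hx.1, rfl⟩
  have h1 := hodd _ hQP _ hxN x.2 (by rw [Subgroup.orderOf_coe]; exact hreg)
  rw [Subgroup.mem_centralizer_iff]
  intro q hq
  exact Subtype.ext (Subgroup.mem_centralizer_iff.1 h1 q ⟨q, hq, rfl⟩)

/-- The nilpotent block data. -/
def nil (hn : IsNilpotentBlock p M T.T.B.1) : NilData p M (cen D v) :=
  ⟨T.T.B, T.T.P, T.T.e, T.T.isPModular, T.T.isMax, hn⟩

theorem nil_pair (hn : IsNilpotentBlock p M T.T.B.1) (x : T.T.P) :
    (T.nil hn).pair x = pr T.T x :=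
  T.T.eq_of_sle ((T.nil hn).pair_sle x) (pr_sle T.T x) rfl

include T in
theorem rank_one (hn : IsNilpotentBlock p M T.T.B.1) : blockRank p (pr D v).2.1 = 1 := by
  rw [← T.B_eq]
  exact blockRank_eq_one (T.nil hn)

end Local

/-- A central element sees the whole character. -/
theorem phi_central {v : D.P} (hv : (v : G) ∈ Subgroup.center G) {χ : IrrCharacter G}
    (hχ : χ ∈ D.B.1) {y : G} (hreg : ¬ p ∣ orderOf y) :
    Phi (pr D v) (v : G) (χ : G → ℂ) y = (χ : G → ℂ) ((v : G) * y) := by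
  obtain ⟨k, hk⟩ := D.exists_orderOf v
  have hC : ∀ g : G, g ∈ cen D v := fun g => (mem_cen D).2 (Subgroup.mem_center_iff.1 hv g)
  rw [← sum_phi (M := M) (Subgroup.zpowers (v : G)) (v : G) (χ : G → ℂ) y]
  symm
  refine (Finset.sum_eq_single (pr D v).2 (fun f _ hf => ?_)
    (fun h => absurd (Finset.mem_univ _) h)).trans rfl
  refine phi_eq_zero D.isPModular hk hχ f (fun hB => hf ?_) (hC y) hreg
  obtain ⟨⟨g, x⟩, hl⟩ := D.exists_link hk (a := ⟨Subgroup.zpowers (v : G), f⟩) rfl hB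
  obtain ⟨h1, a₀, ha₀, ha₀1, hc⟩ := hl
  simp only at h1 ha₀1 hc
  obtain rfl : x = v := Subtype.ext (by
    have h2 := Subgroup.mem_center_iff.1 hv g
    calc (x : G) = g⁻¹ * (g * x * g⁻¹) * g := by group
      _ = (v : G) := by rw [h1, mul_assoc, ← h2, inv_mul_cancel_left])
  obtain rfl : a₀ = pr D x := D.eq_of_sle ha₀ (pr_sle D x) ha₀1
  have h2 := hc.unique (cjRel_self_of_mem_stab (centralizer_le_stab (pr D x) (hC g)))
  exact eq_of_heq (Sigma.mk.inj_iff.1 h2).2

/-! ### The scale of a subsection -/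

theorem scale_eq' {C : Subgroup G} [Fintype C] {b : Set (IrrCharacter C)}
    {B : Set (IrrCharacter G)} (hM : IsPModular p M)
    (hd : blockDefect p b ≤ blockDefect p B) {χ : IrrCharacter G} (hχ : χ ∈ B) :
    ∃ v : ℂ, MemLocalRing M v ∧ ¬ MemLocalIdeal M v ∧
      scale p b χ * (p : ℂ) ^ (blockDefect p B - blockDefect p b) =
        (p : ℂ) ^ blockHeight p B (χ : G → ℂ) * v := by
  set h := blockHeight p B (χ : G → ℂ)
  obtain ⟨hdeg, hdeg0⟩ := BlockVal.irr_one_eq_charDegree χ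
  have hp : p.Prime := Fact.out
  set N := p ^ blockDefect p B * charDegree (χ : G → ℂ) with hN
  set D := Nat.card G * p ^ h with hD
  have hN0 : N ≠ 0 := mul_ne_zero (pow_ne_zero _ hp.ne_zero) hdeg0
  have hD0 : D ≠ 0 := mul_ne_zero Nat.card_pos.ne' (pow_ne_zero _ hp.ne_zero)
  have hfac : N.factorization p = D.factorization p := by
    rw [hN, hD, Nat.factorization_mul (pow_ne_zero _ hp.ne_zero) hdeg0,
      Nat.factorization_mul Nat.card_pos.ne' (pow_ne_zero _ hp.ne_zero), Finsupp.add_apply,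
      Finsupp.add_apply, hp.factorization_pow, hp.factorization_pow,
      Finsupp.single_eq_same, Finsupp.single_eq_same]
    have := degree_factorization (p := p) hχ
    omega
  refine ⟨(N : ℂ) / (D : ℂ), (Block.memLocalRing_natCast_div_iff hM hN0 hD0).2 hfac.ge,
    Block.not_memLocalIdeal_natCast_div hM hN0 hD0 hfac.le, ?_⟩
  have hpp : ((p : ℂ) ^ h) ≠ 0 := pow_ne_zero _ (Nat.cast_ne_zero.2 hp.ne_zero)
  have hpe : (p : ℂ) ^ blockDefect p B =
      (p : ℂ) ^ blockDefect p b * (p : ℂ) ^ (blockDefect p B - blockDefect p b) := by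
    rw [← pow_add, Nat.add_sub_cancel' hd]
  have hG : (Nat.card G : ℂ) ≠ 0 := Nat.cast_ne_zero.2 Nat.card_pos.ne'
  rw [scale, hdeg, hN, hD]
  push_cast
  rw [hpe]
  field_simp

/-- The contributions at a subsection of smaller defect, against a character of height zero. -/
theorem cM_minor_mem (v : D.P) {k : ℕ} (hk0 : k ≠ 0) (hk : (v : G) ^ p ^ k = 1)
    (hd : blockDefect p (pr D v).2.1 < blockDefect p D.B.1) {χ ψ : IrrCharacter G}
    (hχ : χ ∈ D.B.1) (hψ : ψ ∈ D.B.1) (hψ0 : blockHeight p D.B.1 (ψ : G → ℂ) = 0) :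
    MemLocalIdeal M (cM (exists_section D v hk) (pr D v).2.1 χ ψ 1 *
      (p : ℂ) ^ (blockDefect p D.B.1 - blockDefect p (pr D v).2.1) /
        (p : ℂ) ^ blockHeight p D.B.1 (χ : G → ℂ)) := by
  haveI : Fact (1 < p ^ k) := ⟨Nat.one_lt_pow hk0 (Fact.out : p.Prime).one_lt⟩
  have hp0 : (p : ℂ) ≠ 0 := Nat.cast_ne_zero.2 (Fact.out : p.Prime).ne_zero
  have hM := D.isPModular
  set hS := exists_section D v hk
  set e := blockDefect p D.B.1 - blockDefect p (pr D v).2.1 with he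
  have hb := (isInducedBlock_pr D v).1
  have hcm : MemLocalRing M (cM hS (pr D v).2.1 ψ ψ 1) := by
    rw [show cM hS (pr D v).2.1 ψ ψ 1 = cev (coefA hS (pr D v).2.1 ψ ψ) 1 from
      cM_eq_cev hS (pr D v).2.1 ψ ψ 1, cev]
    exact (Block.localRing M).sum_mem fun d _ => (Block.localRing M).mul_mem
      (intCast_mem (Block.localRing M) _) (Block.memLocalRing_of_pow_eq_one
        (pow_ne_zero k (Fact.out : p.Prime).ne_zero) (by
          rw [← AddChar.map_nsmul_eq_pow, nsmul_eq_mul, ZMod.natCast_self, zero_mul,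
            AddChar.map_zero_eq_one]))
  have hpI : MemLocalIdeal M ((p : ℂ) ^ e) := by
    have h4 : MemLocalIdeal M (((p : ℕ) : ℤ) : ℂ) :=
      (Block.memLocalIdeal_intCast_iff hM _).2 dvd_rfl
    rw [Int.cast_natCast] at h4
    obtain ⟨t, ht⟩ := Nat.exists_eq_add_of_le' (show 1 ≤ e by omega)
    rw [ht, pow_succ]
    exact Block.memLocalIdeal_mul_left
      ((Block.localRing M).pow_mem (natCast_mem (Block.localRing M) p) t) h4
  obtain ⟨v0, hv0, hv0', he0⟩ := scale_eq'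
    (C := Subgroup.centralizer (Subgroup.zpowers (v : G) : Set G)) (b := (pr D v).2.1) hM hd.le hψ
  obtain ⟨v1, hv1, -, he1⟩ := scale_eq'
    (C := Subgroup.centralizer (Subgroup.zpowers (v : G) : Set G)) (b := (pr D v).2.1) hM hd.le hχ
  rw [hψ0, pow_zero, one_mul] at he0
  have hω0 : MemLocalIdeal M (omegaSec hS (pr D v).2.1 ψ ψ 1) := by
    have h1 : MemLocalIdeal M (cM hS (pr D v).2.1 ψ ψ 1 * (p : ℂ) ^ e) :=
      Block.memLocalIdeal_mul_left hcm hpI
    rw [cM_eq_scale_mul hS hM hb ψ ψ isUnit_one, mul_assoc, mul_comm (omegaSec hS (pr D v).2.1 ψ ψ 1),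
      ← mul_assoc, he] at h1
    erw [he0] at h1
    exact (memLocalIdeal_mul_imp hv0 (omegaSec_mem hS hM (pr D v).2.1 ψ ψ 1) h1).resolve_left hv0'
  have hω : MemLocalIdeal M (omegaSec hS (pr D v).2.1 χ ψ 1) := by
    have h2 := omegaSec_congr hS hM (pr D v).2.1 (χ := χ) (χ' := ψ)
      (Block.pBlock_sameBlock D.B.2 hχ hψ) ψ 1
    simpa using Block.memLocalIdeal_add h2 hω0
  rw [cM_eq_scale_mul hS hM hb χ ψ isUnit_one, mul_assoc, mul_comm (omegaSec hS (pr D v).2.1 χ ψ 1),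
    ← mul_assoc, he]
  erw [he1]
  rw [mul_assoc, mul_div_cancel_left₀ _ (pow_ne_zero _ hp0)]
  exact Block.memLocalIdeal_mul_left hv1 hω

end Cfsg.Agent.BlockTame
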