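import Cfsg.Agent.BlockTame.Central
import Cfsg.Agent.TwoGroups.QuasiDihedral

/-!
# Two-blocks with semidihedral or generalized quaternion defect groups
-/

set_option autoImplicit false
set_option maxHeartbeats 800000
set_option linter.unusedSectionVars false
set_option linter.style.haveILetI false

noncomputable section

namespace Cfsg.Agent.BlockTame

open Cfsg Cfsg.Agent.BrauerPairs Cfsg.Agent.BrauerPairs.Nil Cfsg.Agent.BlkStar Cfsg.Agent.BlkWat
open Cfsg.Agent.FusionCount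
open scoped Classical

universe u

variable {M : Ideal AlgInt} [M.IsPrime] [CharP (Block.ResF M) 2] {G : Type u} [Group G]
  [Fintype G]

namespace Ctx

variable {h : ℕ} [NeZero (2 * h)] (D : Ctx M G h)

theorem a_mem_cen : D.a ∈ cen D.S D.zP := D.P_le_cen_zP D.mem_a

theorem b_mem_cen : D.b ∈ cen D.S D.zP := D.P_le_cen_zP D.mem_b

/-- The data in the centralizer of the involution. -/
def down (T : Local D.S D.zP) : Ctx M (cen D.S D.zP) h where
  S := T.T
  a := ⟨D.a, D.a_mem_cen⟩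
  b := ⟨D.b, D.b_mem_cen⟩
  s := D.s
  mem_a := T.mem_P.2 D.mem_a
  mem_b := T.mem_P.2 D.mem_b
  orderOf_a := by rw [Subgroup.orderOf_mk, D.orderOf_a]
  two_le := D.two_le
  flip := Subtype.ext D.flip
  not_mem_b hb := by
    obtain ⟨k, hk⟩ := Subgroup.mem_zpowers_iff.1 hb
    exact D.not_mem_b (Subgroup.mem_zpowers_iff.2 ⟨k, by simpa using congrArg Subtype.val hk⟩)
  index_two x hx hxa := by
    obtain ⟨k, hk⟩ := Subgroup.mem_zpowers_iff.1 (D.index_two (x : G) (T.mem_P.1 hx) fun e => hxa (by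
      obtain ⟨l, hl⟩ := Subgroup.mem_zpowers_iff.1 e
      exact Subgroup.mem_zpowers_iff.2 ⟨l, Subtype.ext (by simpa using hl)⟩))
    exact Subgroup.mem_zpowers_iff.2 ⟨k, Subtype.ext (by simpa using hk)⟩
  type_cases := by
    rcases D.type_cases with ⟨h1, h2⟩ | ⟨h1, h2⟩
    · exact Or.inl ⟨Subtype.ext h1, h2⟩
    · exact Or.inr ⟨Subtype.ext (by simpa using h1), h2⟩
  card_P := by
    rw [T.P_eq, ← D.card_P, inf_eq_left.2 D.P_le_cen_zP]
    exact Nat.card_congr (Subgroup.subgroupOfEquivOfLe D.P_le_cen_zP).toEquiv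

variable (T : Local D.S D.zP)

theorem isSemi_down : (D.down T).IsSemi ↔ D.IsSemi :=
  ⟨fun e => congrArg Subtype.val e, fun e => Subtype.ext e⟩

theorem toP_rot (i : ZMod (2 * h)) : T.toP ((D.down T).rot i) = D.rot i :=
  Subtype.ext (by simp [rot, down])

theorem toP_zP : T.toP (D.down T).zP = D.zP := D.toP_rot T h

theorem zP_down_center :
    (((D.down T).zP : (D.down T).S.P) : cen D.S D.zP) ∈ Subgroup.center (cen D.S D.zP) := by
  refine Subgroup.mem_center_iff.2 fun x => Subtype.ext ?_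
  show (x : G) * _ = _ * (x : G)
  have e : (((D.down T).zP : cen D.S D.zP) : G) = ((D.zP : D.S.P) : G) :=
    congrArg (fun v : D.S.P => (v : G)) (D.toP_zP T)
  rw [e]
  exact (mem_cen D.S).1 x.2

theorem toP_surjective : Function.Surjective T.toP := fun x =>
  ⟨T.ofP x (D.P_le_cen_zP x.2), rfl⟩

theorem toP_mul (x y : T.T.P) : T.toP (x * y) = T.toP x * T.toP y := rfl

theorem toP_one : T.toP 1 = 1 := rfl

theorem four_cases {v : D.S.P} (h4 : v * v * (v * v) = 1) (h2 : v * v ≠ 1) : v * v = D.zP := by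
  rcases D.coord v with ⟨i, rfl⟩ | ⟨i, rfl⟩
  · rw [← D.rot_add] at h4 h2 ⊢
    rw [zP]
    congr 1
    exact (D.rot_sq_eq_one.1 h4).resolve_left fun e => h2 (by rw [e, D.rot_zero])
  · rw [D.ref_sq] at h2 ⊢
    split_ifs with hs
    · rw [if_pos hs] at h2; exact absurd rfl h2
    · rfl

theorem four_of_X {v : D.S.P} (hv : v ∈ D.X) : v * v * (v * v) = 1 := by
  obtain ⟨i, rfl⟩ := D.exists_ref_of_X hv
  rw [D.ref_sq]
  split_ifs
  · rw [mul_one]
  · exact (D.rot_sq_eq_one).2 (Or.inr rfl)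

theorem sq_iff_of_cls {v v' : D.S.P} (hv : v' ∈ cls D.S v) :
    (v' * v' = 1 ↔ v * v = 1) ∧ (v' * v' * (v' * v') = 1 ↔ v * v * (v * v) = 1) := by
  have ho : orderOf v' = orderOf v := by
    rw [← Subgroup.orderOf_coe, ← Subgroup.orderOf_coe]
    exact orderOf_eq_of_mem_cls D.S hv
  have key : ∀ n, (v' ^ n = 1 ↔ v ^ n = 1) := fun n => by
    rw [← orderOf_dvd_iff_pow_eq_one, ← orderOf_dvd_iff_pow_eq_one, ho]
  refine ⟨by simpa [pow_two] using key 2, ?_⟩
  have := key 4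
  rwa [show 4 = 2 + 2 from rfl, pow_add, pow_add, pow_two, pow_two] at this

/-- The elements of order four. -/
def Four (v : D.S.P) : Prop := v * v ≠ 1 ∧ v * v * (v * v) = 1

theorem cls_four {x y : T.T.P} (hx : D.Four (T.toP x)) (hy : D.Four (T.toP y)) :
    T.toP y ∈ cls D.S (T.toP x) ↔ y ∈ cls T.T x := by
  have key : ∀ x : T.T.P, D.Four (T.toP x) →
      ((x : cen D.S D.zP) : G) * ((x : cen D.S D.zP) : G) = ((D.zP : D.S.P) : G) := fun x hx =>
    congrArg (fun v : D.S.P => (v : G)) (D.four_cases hx.2 hx.1)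
  refine T.mem_cls_toP ?_ ?_ ?_
  · refine centralizer_anti (Subgroup.zpowers_le.2 ?_)
    rw [← key x hx]
    exact mul_mem (Subgroup.mem_zpowers _) (Subgroup.mem_zpowers _)
  · refine centralizer_anti (Subgroup.zpowers_le.2 ?_)
    rw [← key y hy]
    exact mul_mem (Subgroup.mem_zpowers _) (Subgroup.mem_zpowers _)
  · intro g hg
    refine (mem_cen D.S).2 ?_
    have : g * ((D.zP : D.S.P) : G) * g⁻¹ = ((D.zP : D.S.P) : G) := by
      conv_lhs => rw [← key x hx]
      rw [← key y hy, ← hg]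
      group
    exact mul_inv_eq_iff_eq_mul.1 this

/-- The classes of involutions outside. -/
def XI : Finset (Finset D.S.P) := (D.X.filter fun v => v * v = 1).image (cls D.S)

/-- The classes of elements of order four outside. -/
def X4 : Finset (Finset D.S.P) := (D.X.filter fun v => v * v ≠ 1).image (cls D.S)

theorem card_XC : D.XC.card = D.XI.card + D.X4.card := by
  rw [XC, XI, X4, ← Finset.card_union_of_disjoint, ← Finset.image_union,
    Finset.filter_union_filter_not_eq]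
  rw [Finset.disjoint_left]
  intro C hC hC'
  obtain ⟨v, hv, rfl⟩ := Finset.mem_image.1 hC
  obtain ⟨w, hw, e⟩ := Finset.mem_image.1 hC'
  have hm : w ∈ cls D.S v := e ▸ self_mem_cls D.S w
  exact (Finset.mem_filter.1 hw).2 ((D.sq_iff_of_cls hm).1.2 (Finset.mem_filter.1 hv).2)

/-- Classes of elements of order four are preserved by a map compatible with the fusion. -/
theorem card_X4_eq {L : Type u} [Group L] [Fintype L] (E : Ctx M L h) (f : E.S.P → D.S.P)
    (hinj : Function.Injective f) (hsurj : Function.Surjective f)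
    (hmul : ∀ x y, f (x * y) = f x * f y) (hone : f 1 = 1) (hrot : ∀ i, f (E.rot i) = D.rot i)
    (hcls : ∀ x y, D.Four (f x) → D.Four (f y) → (f y ∈ cls D.S (f x) ↔ y ∈ cls E.S x)) :
    E.X4.card = D.X4.card := by
  have hfd : ∀ x, E.Four x ↔ D.Four (f x) := fun x => by
    simp only [Four, ← hmul, ← hone, ne_eq, hinj.eq_iff]
  have hcl : ∀ {x y}, D.Four (f x) → y ∈ cls E.S x → D.Four (f y) := fun {x y} hx hy => by
    have h1 := E.sq_iff_of_cls hy
    have hd := (hfd x).2 hx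
    exact (hfd y).1 ⟨fun e => hd.1 (h1.1.1 e), h1.2.2 hd.2⟩
  have hcl' : ∀ {x y}, D.Four (f x) → f y ∈ cls D.S (f x) → D.Four (f y) := fun {x y} hx hy => by
    have h1 := D.sq_iff_of_cls hy
    exact ⟨fun e => hx.1 (h1.1.1 e), h1.2.2 hx.2⟩
  have hX : ∀ x, D.Four (f x) → (x ∈ E.X ↔ f x ∈ D.X) := fun x hx => by
    rw [mem_X, mem_X]
    refine forall_congr' fun i => not_congr ⟨fun hc => ?_, fun hc => ?_⟩
    · rw [← hrot]
      exact (hcls x _ hx (hcl hx hc)).2 hc
    · rw [← hrot] at hc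
      exact (hcls x _ hx (hcl' hx hc)).1 hc
  have himage : ∀ x, D.Four (f x) → (cls E.S x).image f = cls D.S (f x) := fun x hx => by
    ext v
    rw [Finset.mem_image]
    constructor
    · rintro ⟨y, hy, rfl⟩
      exact (hcls x y hx (hcl hx hy)).2 hy
    · intro hv
      obtain ⟨y, rfl⟩ := hsurj v
      exact ⟨y, (hcls x y hx (hcl' hx hv)).1 hv, rfl⟩
  refine Finset.card_bij (fun C _ => C.image f) (fun C hC => ?_) (fun C _ C' _ e =>
    Finset.image_injective hinj e) fun C hC => ?_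
  · obtain ⟨x, hx, rfl⟩ := Finset.mem_image.1 hC
    obtain ⟨h1, h2⟩ := Finset.mem_filter.1 hx
    have hf : D.Four (f x) := (hfd x).1 ⟨h2, E.four_of_X h1⟩
    rw [himage x hf]
    exact Finset.mem_image_of_mem _ (Finset.mem_filter.2 ⟨(hX x hf).1 h1, hf.1⟩)
  · obtain ⟨v, hv, rfl⟩ := Finset.mem_image.1 hC
    obtain ⟨x, rfl⟩ := hsurj v
    obtain ⟨h1, h2⟩ := Finset.mem_filter.1 hv
    have hf : D.Four (f x) := ⟨h2, D.four_of_X h1⟩
    exact ⟨cls E.S x, Finset.mem_image_of_mem _ (Finset.mem_filter.2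
      ⟨(hX x hf).2 h1, ((hfd x).2 hf).1⟩), himage x hf⟩

theorem card_X4_down : (D.down T).X4.card = D.X4.card :=
  D.card_X4_eq (D.down T) T.toP T.toP_injective (D.toP_surjective T) (fun _ _ => rfl) rfl
    (D.toP_rot T) fun _ _ hx hy => D.cls_four T hx hy

theorem XI_eq_empty (hQ : ¬ D.IsSemi) : D.XI = ∅ := by
  rw [XI, Finset.image_eq_empty, Finset.filter_eq_empty_iff]
  intro v hv
  obtain ⟨i, rfl⟩ := D.exists_ref_of_X hv
  rw [D.ref_sq, if_neg fun e => hQ e.1, ← D.rot_zero, D.rot_injective.eq_iff]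
  exact half_ne_zero

theorem ref_cls (hs : D.IsSemi) {i : ZMod (2 * h)} (hi : Ev i) : D.ref i ∈ cls D.S (D.ref 0) := by
  obtain ⟨k, rfl⟩ := hi
  obtain ⟨q, hq⟩ := D.four_dvd_of_semi hs
  have hw : Ev (wIdx h) := ⟨q, by rw [wIdx, show h / 2 = 2 * q by omega]; push_cast; rfl⟩
  have key : ∀ j, D.rot j * D.ref 0 * (D.rot j)⁻¹ = D.ref (D.σ * j - j) := fun j => by
    rw [D.rot_mul_ref, ← rot_neg, D.ref_mul_rot, add_zero, sub_eq_add_neg]
  by_cases hk : Ev k
  · have := conj_mem_cls D.S (D.rot (-k)) (D.ref 0)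
    rw [key, mul_neg, D.σ_mul_of_ev hk] at this
    convert this using 2
    ring
  · have hev : ¬ Ev (wIdx h - k) := fun ⟨a, ha⟩ => by
      obtain ⟨b, hb⟩ := hw
      exact hk ⟨b - a, by linear_combination hb - ha⟩
    have h1 := D.σ_add_one_mul (wIdx h - k)
    rw [if_pos ⟨hs, hev⟩] at h1
    have := conj_mem_cls D.S (D.rot (wIdx h - k)) (D.ref 0)
    rw [key] at this
    convert this using 2
    linear_combination D.two_mul_wIdx - h1

theorem card_XI_le : D.XI.card ≤ 1 := by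
  refine Finset.card_le_one.2 fun C hC C' hC' => ?_
  have key : ∀ C ∈ D.XI, C = cls D.S (D.ref 0) := fun C hC => by
    obtain ⟨v, hv, rfl⟩ := Finset.mem_image.1 hC
    obtain ⟨hX, h2⟩ := Finset.mem_filter.1 hv
    obtain ⟨i, rfl⟩ := D.exists_ref_of_X hX
    rw [D.ref_sq] at h2
    by_cases hs : D.IsSemi ∧ Ev i
    · exact cls_eq_of_mem D.S (D.ref_cls hs.1 hs.2)
    · rw [if_neg hs, ← D.rot_zero, D.rot_injective.eq_iff] at h2
      exact absurd h2 half_ne_zero
  rw [key C hC, key C' hC']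

theorem card_XI_eq_one (hz : ((D.zP : D.S.P) : G) ∈ Subgroup.center G) (hs : D.IsSemi) :
    D.XI.card = 1 := by
  refine le_antisymm D.card_XI_le (Finset.card_pos.2 ⟨cls D.S (D.ref 0), ?_⟩)
  have h2 : D.ref 0 * D.ref 0 = 1 := by
    rw [D.ref_sq, if_pos ⟨hs, ⟨0, by rw [mul_zero]⟩⟩]
  refine Finset.mem_image_of_mem _ (Finset.mem_filter.2 ⟨D.mem_X.2 fun i hi => ?_, h2⟩)
  obtain ⟨g, hg, -⟩ := (mem_cls_iff D.S).1 (cls_symm D.S hi)
  rcases D.rot_sq_eq_one.1 ((D.sq_iff_of_cls hi).1.2 h2) with rfl | rfl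
  · rw [D.rot_zero, OneMemClass.coe_one, mul_one, mul_inv_cancel] at hg
    refine D.ref_ne_rot 0 0 ?_
    rw [D.rot_zero]
    exact Subtype.ext hg.symm
  · refine D.ref_ne_rot 0 (h : ZMod (2 * h)) (Subtype.ext ?_)
    rw [← hg]
    show g * ((D.zP : D.S.P) : G) * g⁻¹ = ((D.zP : D.S.P) : G)
    rw [Subgroup.mem_center_iff.1 hz g]
    exact mul_inv_cancel_right _ g

/-- The ranks in the block and at the involution. -/
theorem card_cases :
    (D.IsSemi ∧ ∃ e : ℕ, e ≤ 1 ∧ Fintype.card D.S.B.1 = blockRank 2 D.S.B.1 + h + 1 + e ∧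
      blockRank 2 (pr D.S D.zP).2.1 ≤ 2) ∨
    (¬ D.IsSemi ∧ Fintype.card D.S.B.1 = blockRank 2 D.S.B.1 + h + 2 ∧
      blockRank 2 (pr D.S D.zP).2.1 ≤ 3) := by
  obtain ⟨T⟩ := exists_local D.S D.cMax_zP
  set E := D.down T
  have hr : blockRank 2 E.S.B.1 = blockRank 2 (pr D.S D.zP).2.1 := by
    show blockRank 2 T.T.B.1 = _
    rw [T.B_eq]
    congr!
  have hk := D.card_block
  rw [D.card_XC] at hk
  by_cases hs : D.IsSemi
  · refine Or.inl ⟨hs, D.XI.card, D.card_XI_le, ?_⟩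
    have hI := E.card_XI_eq_one (D.zP_down_center T) ((D.isSemi_down T).2 hs)
    have hE := E.central (D.zP_down_center T) fun _ => by rw [E.card_XC, hI]; omega
    rw [E.card_XC, hI, D.card_X4_down T, hr] at hE
    omega
  · refine Or.inr ⟨hs, ?_⟩
    have hs' : ¬ E.IsSemi := fun e => hs ((D.isSemi_down T).1 e)
    have hE := E.central (D.zP_down_center T) fun e => absurd e hs'
    rw [E.card_XC, E.XI_eq_empty hs', D.card_X4_down T, hr, Finset.card_empty] at hE
    rw [D.XI_eq_empty hs, Finset.card_empty] at hk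
    omega

/-- The invariants of the block. -/
theorem invariants {m : ℕ} (hm : h = 2 ^ (m + 1)) :
    1 ≤ blockRank 2 D.S.B.1 ∧ blockRank 2 D.S.B.1 ≤ 3 ∧
    (D.IsSemi → (Fintype.card D.S.B.1 = h + 3 ∨ Fintype.card D.S.B.1 = h + 4) ∧
      (blockRank 2 D.S.B.1 = 3 → Fintype.card D.S.B.1 = h + 4) ∧
      (blockRank 2 D.S.B.1 = 1 → Fintype.card D.S.B.1 = h + 3)) ∧
    (¬ D.IsSemi → Fintype.card D.S.B.1 = blockRank 2 D.S.B.1 + h + 2) ∧
    (Finset.univ.filter fun χ => D.Ht χ = 0).card = 4 ∧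
    (∀ χ, D.Ht χ = 0 ∨ D.Ht χ = 1 ∨ D.Ht χ = m + 1) ∧
    (4 ≤ h → (Finset.univ.filter fun χ => D.Ht χ = 1).card = h - 1) := by
  obtain ⟨N, hN, hK, -⟩ := D.exists_columns
  obtain ⟨m', C⟩ := D.exists_cols hN hK
  obtain rfl : m = m' := by
    have := Nat.pow_right_injective le_rfl (hm.symm.trans C.h_eq)
    omega
  have hpos : 1 ≤ blockRank 2 D.S.B.1 := Brauer.KleinBlock.blockRank_pos D.S.B.2
  have h2 := D.two_le
  have hcases := D.card_cases
  rcases C.shape with hg | hex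
  · obtain ⟨hup4, hup2⟩ := hg.upper (blockRank 2 (pr D.S D.zP).2.1) D.zOrth_le
    refine ⟨hpos, ?_, fun hs => ?_, fun hs => ?_, hg.card_zero, hg.heights, hg.card_one⟩
    · rcases hcases with ⟨hs, e, he, hk, hz⟩ | ⟨hs, hk, hz⟩
      · have h4 : 4 ≤ h := by
          obtain ⟨q, hq⟩ := D.four_dvd_of_semi hs
          omega
        have := hup4 h4
        have := hg.lower h4
        omega
      · by_cases h4 : 4 ≤ h
        · have := hup4 h4
          omega
        · have := hup2 (by obtain ⟨q, hq⟩ := D.even_h; omega)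
          omega
    · rcases hcases with ⟨-, e, he, hk, hz⟩ | ⟨hs', -, -⟩
      · have h4 : 4 ≤ h := by
          obtain ⟨q, hq⟩ := D.four_dvd_of_semi hs
          omega
        have := hup4 h4
        have := hg.lower h4
        omega
      · exact absurd hs hs'
    · rcases hcases with ⟨hs', -⟩ | ⟨-, hk, -⟩
      · exact absurd hs' hs
      · exact hk
  · exfalso
    rcases hex with ⟨h8, hk', -⟩ | ⟨h4, hk', -⟩ <;>
      rcases hcases with ⟨hs, e, he, hk, hz⟩ | ⟨hs, hk, hz⟩ <;> omega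

end Ctx

theorem card_subtype_height (D : SD 2 M G) (n : ℕ) :
    Nat.card {χ : IrrCharacter G // χ ∈ D.B.1 ∧ blockHeight 2 D.B.1 (χ : G → ℂ) = n} =
      (Finset.univ.filter fun χ : D.B.1 =>
        blockHeight 2 D.B.1 ((χ : IrrCharacter G) : G → ℂ) = n).card := by
  rw [← Fintype.card_subtype, ← Nat.card_eq_fintype_card]
  exact (Nat.card_congr (Equiv.subtypeSubtypeEquivSubtypeInter (fun χ => χ ∈ D.B.1)
    (fun χ : IrrCharacter G => blockHeight 2 D.B.1 (χ : G → ℂ) = n))).symm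

/-- The data exist for a maximal pair with suitable generators. -/
theorem exists_ctx {G : Type u} [Group G] [Fintype G] (hM : IsPModular 2 M)
    {B : Set (IrrCharacter G)} (hB : IsPBlock M B) {P : Subgroup G}
    (hP : IsDefectGroup 2 M B P) {h : ℕ} (a b : P) (s : ℕ) (ha : orderOf a = 2 * h) (h2 : 2 ≤ h)
    (hflip : b * a * b⁻¹ = a ^ s) (hb : b ∉ Subgroup.zpowers a)
    (hidx : ∀ x : P, x ∉ Subgroup.zpowers a → b⁻¹ * x ∈ Subgroup.zpowers a)
    (ht : (b * b = 1 ∧ s + 1 = h ∧ 4 ∣ h) ∨ (b * b = a ^ h ∧ s + 1 = 2 * h))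
    (hcard : Nat.card P = 4 * h) :
    ∃ D : Ctx M G h, D.S.B.1 = B ∧ (D.IsSemi ↔ b * b = 1) := by
  obtain ⟨c, hc⟩ := exists_maxPair_of_isDef (S := pairSys M G)
    (isDef_of_isDefectGroup (B := (⟨B, hB⟩ : Blk M G)) hP)
  obtain ⟨F, hF⟩ := exists_blockFS (e := c)
    ((isMaximalBrauerPair_iff (⟨B, hB⟩ : Blk M G) ⟨P, c⟩).2 hc)
  have hmem : ∀ {x : P}, (x : G) ∈ Subgroup.zpowers (a : G) ↔ x ∈ Subgroup.zpowers a := fun {x} =>
    ⟨fun hx => by
      obtain ⟨k, hk⟩ := Subgroup.mem_zpowers_iff.1 hx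
      exact Subgroup.mem_zpowers_iff.2 ⟨k, Subtype.ext (by simpa using hk)⟩,
    fun hx => by
      obtain ⟨k, hk⟩ := Subgroup.mem_zpowers_iff.1 hx
      exact Subgroup.mem_zpowers_iff.2 ⟨k, by simpa using congrArg Subtype.val hk⟩⟩
  refine ⟨{ S := ⟨⟨B, hB⟩, P, c, F, hM, hF⟩, a := a, b := b, s := s, mem_a := a.2, mem_b := b.2,
            orderOf_a := by rw [Subgroup.orderOf_coe, ha], two_le := h2,
            flip := by simpa using congrArg Subtype.val hflip,
            not_mem_b := fun e => hb (hmem.1 e),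
            index_two := fun x hx hxa => by
              simpa using hmem.2 (hidx ⟨x, hx⟩ fun e => hxa (hmem.2 e)),
            type_cases := by
              rcases ht with ⟨h1, h3⟩ | ⟨h1, h3⟩
              · exact Or.inl ⟨congrArg Subtype.val h1, h3⟩
              · exact Or.inr ⟨by simpa using congrArg Subtype.val h1, h3⟩,
            card_P := hcard }, rfl, ?_⟩
  exact ⟨fun e => Subtype.ext e, fun e => congrArg Subtype.val e⟩

/-- The invariants of a block with semidihedral defect group. -/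
theorem invariants_of_semidihedral {G : Type u} [Group G] [Finite G] {M : Ideal AlgInt}
    (hM : IsPModular 2 M) {B : Set (IrrCharacter G)} (hB : IsPBlock M B) {P : Subgroup G}
    (hP : IsDefectGroup 2 M B P) {n : ℕ} (hn : 4 ≤ n) (hcard : Nat.card P = 2 ^ n)
    (hsd : IsQuasiDihedral P) :
    (Nat.card B = 2 ^ (n - 2) + 3 ∨ Nat.card B = 2 ^ (n - 2) + 4) ∧ 1 ≤ blockRank 2 B ∧
      blockRank 2 B ≤ 3 ∧ (blockRank 2 B = 3 → Nat.card B = 2 ^ (n - 2) + 4) ∧
      (blockRank 2 B = 1 → Nat.card B = 2 ^ (n - 2) + 3) ∧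
      Nat.card {χ : IrrCharacter G // χ ∈ B ∧ blockHeight 2 B (χ : G → ℂ) = 0} = 4 ∧
      Nat.card {χ : IrrCharacter G // χ ∈ B ∧ blockHeight 2 B (χ : G → ℂ) = 1} =
        2 ^ (n - 2) - 1 ∧
      ∀ χ ∈ B, blockHeight 2 B (χ : G → ℂ) = 0 ∨ blockHeight 2 B (χ : G → ℂ) = 1 ∨
        blockHeight 2 B (χ : G → ℂ) = n - 2 := by
  haveI : M.IsPrime := hM.2.1.isPrime
  haveI : Fact (Nat.Prime 2) := ⟨Nat.prime_two⟩
  haveI := Block.charP_resF hM
  letI := Fintype.ofFinite G
  obtain ⟨n', hn', hcard', x, y, hx, hy, hxy⟩ := hsd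
  obtain ⟨m, rfl⟩ := Nat.exists_eq_add_of_le' hn
  obtain rfl : n' = m + 3 := by
    have := Nat.pow_right_injective le_rfl (hcard'.symm.trans hcard)
    omega
  set h := 2 ^ (m + 2) with hh
  haveI : NeZero (2 * h) := ⟨by positivity⟩
  have e1 : 2 ^ (m + 3) = 2 * h := by rw [hh]; ring
  have e2 : (2 : ℕ) ^ (m + 3 - 1) = h := by rw [hh]; congr 1
  have h4 : 4 ∣ h := ⟨2 ^ m, by rw [hh]; ring⟩
  have hpos : 4 ≤ h := by
    rw [hh]
    calc 4 = 2 ^ 2 := rfl
      _ ≤ _ := Nat.pow_le_pow_right two_pos (by omega)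
  have hidx : (Subgroup.zpowers x).index = 2 := by
    refine TwoGroups.index_zpowers_eq_two ?_
    rw [hcard', hx]; ring
  have hyx : y ∉ Subgroup.zpowers x := by
    intro hy'
    obtain ⟨k, rfl⟩ := Subgroup.mem_zpowers_iff.1 hy'
    have hc : x ^ (h - 1) = x := by
      rw [← e2, ← hxy, ((Commute.refl x).zpow_left k).eq, mul_inv_cancel_right]
    have hd : orderOf x ∣ h - 2 := by
      rw [orderOf_dvd_iff_pow_eq_one]
      have : x ^ (h - 2) * x = x := by rw [← pow_succ, show h - 2 + 1 = h - 1 by omega, hc]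
      simpa using this
    rw [hx, e1] at hd
    have := Nat.le_of_dvd (by omega) hd
    omega
  have hy2 : y * y = 1 := by rw [← pow_two]; exact hy ▸ pow_orderOf_eq_one y
  obtain ⟨D, hDB, hsemi⟩ := exists_ctx hM hB hP (h := h) x y (h - 1) (hx.trans e1) (by omega)
    (by rw [hxy, e2]) hyx (fun z hz => by
      rw [Subgroup.mul_mem_iff_of_index_two hidx, inv_mem_iff]
      exact iff_of_false hyx hz)
    (Or.inl ⟨hy2, by omega, h4⟩) (by rw [hcard', hh]; ring)
  subst hDB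
  obtain ⟨r1, r3, hS, -, hc0, hht, hc1⟩ := D.invariants (m := m + 1) hh
  obtain ⟨hk, hk3, hk1⟩ := hS (hsemi.2 hy2)
  rw [show 2 ^ (m + 4 - 2) = h from rfl, Nat.card_eq_fintype_card, card_subtype_height,
    card_subtype_height]
  exact ⟨hk, r1, r3, hk3, hk1, hc0, hc1 hpos, fun χ hχ => hht ⟨χ, hχ⟩⟩

/-- The invariants of a block with generalized quaternion defect group. -/
theorem invariants_of_quaternion {G : Type u} [Group G] [Finite G] {M : Ideal AlgInt}
    (hM : IsPModular 2 M) {B : Set (IrrCharacter G)} (hB : IsPBlock M B) {P : Subgroup G}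
    (hP : IsDefectGroup 2 M B P) {n : ℕ} (hn : 3 ≤ n)
    (hq : Nonempty (P ≃* QuaternionGroup (2 ^ (n - 2)))) :
    1 ≤ blockRank 2 B ∧ blockRank 2 B ≤ 3 ∧
      Nat.card B = blockRank 2 B + 2 ^ (n - 2) + 2 ∧
      Nat.card {χ : IrrCharacter G // χ ∈ B ∧ blockHeight 2 B (χ : G → ℂ) = 0} = 4 ∧
      (∀ χ ∈ B, blockHeight 2 B (χ : G → ℂ) = 0 ∨ blockHeight 2 B (χ : G → ℂ) = 1 ∨
        blockHeight 2 B (χ : G → ℂ) = n - 2) ∧
      (4 ≤ n → Nat.card {χ : IrrCharacter G // χ ∈ B ∧ blockHeight 2 B (χ : G → ℂ) = 1} =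
        2 ^ (n - 2) - 1) := by
  haveI : M.IsPrime := hM.2.1.isPrime
  haveI : Fact (Nat.Prime 2) := ⟨Nat.prime_two⟩
  haveI := Block.charP_resF hM
  letI := Fintype.ofFinite G
  obtain ⟨φ⟩ := hq
  obtain ⟨m, rfl⟩ := Nat.exists_eq_add_of_le' hn
  rw [show m + 3 - 2 = m + 1 by omega] at *
  set h := 2 ^ (m + 1) with hh
  haveI : NeZero (2 * h) := ⟨by positivity⟩
  haveI : NeZero h := ⟨by positivity⟩
  have h2 : 2 ≤ h := by
    rw [hh]
    calc 2 = 2 ^ 1 := rfl
      _ ≤ _ := Nat.pow_le_pow_right two_pos (by omega)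
  set a : P := φ.symm (QuaternionGroup.a 1) with ha
  set b : P := φ.symm (QuaternionGroup.xa 0) with hb
  have hcastneg : ((2 * h - 1 : ℕ) : ZMod (2 * h)) = -1 := by
    have e := congrArg (Nat.cast : ℕ → ZMod (2 * h))
      (Nat.sub_add_cancel (show 1 ≤ 2 * h by omega))
    rw [Nat.cast_add, ZMod.natCast_self, Nat.cast_one] at e
    exact eq_neg_iff_add_eq_zero.2 e
  have hzp : ∀ x : P, x ∈ Subgroup.zpowers a ↔ ∃ i, φ x = QuaternionGroup.a i := by
    intro x
    constructor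
    · intro hx
      obtain ⟨k, hk⟩ := mem_powers_iff_mem_zpowers.2 hx
      exact ⟨k, by rw [← hk, map_pow, ha, MulEquiv.apply_symm_apply, QuaternionGroup.a_one_pow]⟩
    · rintro ⟨i, hi⟩
      have : x = a ^ i.val := φ.injective (by
        rw [hi, map_pow, ha, MulEquiv.apply_symm_apply, QuaternionGroup.a_one_pow,
          ZMod.natCast_zmod_val])
      rw [this]
      exact Subgroup.pow_mem _ (Subgroup.mem_zpowers _) _
  have hflip : b * a * b⁻¹ = a ^ (2 * h - 1) := by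
    rw [mul_inv_eq_iff_eq_mul]
    apply φ.injective
    simp only [map_mul, map_pow, ha, hb, MulEquiv.apply_symm_apply, QuaternionGroup.a_one_pow,
      hcastneg, QuaternionGroup.xa_mul_a, QuaternionGroup.a_mul_xa]
    simp
  have hbb : b * b = a ^ h := by
    apply φ.injective
    simp [ha, hb, QuaternionGroup.a_one_pow, QuaternionGroup.xa_mul_xa]
  obtain ⟨D, hDB, hsemi⟩ := exists_ctx hM hB hP (h := h) a b (2 * h - 1)
    (by rw [ha, MulEquiv.orderOf_eq, QuaternionGroup.orderOf_a_one]) h2 hflip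
    (fun e => by
      obtain ⟨i, hi⟩ := (hzp b).1 e
      rw [hb, MulEquiv.apply_symm_apply] at hi
      cases hi)
    (fun x hx => by
      rw [hzp]
      rcases hxx : φ x with i | i
      · exact absurd ((hzp x).2 ⟨i, hxx⟩) hx
      · refine ⟨i, ?_⟩
        rw [map_mul, map_inv, hb, MulEquiv.apply_symm_apply, hxx, inv_mul_eq_iff_eq_mul,
          QuaternionGroup.xa_mul_a, zero_add])
    (Or.inr ⟨hbb, by omega⟩)
    (by rw [Nat.card_congr φ.toEquiv, Nat.card_eq_fintype_card, QuaternionGroup.card])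
  subst hDB
  obtain ⟨r1, r3, -, hQ, hc0, hht, hc1⟩ := D.invariants (m := m) hh
  have hns : ¬ D.IsSemi := fun e => by
    have h1 := hsemi.1 e
    rw [hbb, ← orderOf_dvd_iff_pow_eq_one, ha, MulEquiv.orderOf_eq,
      QuaternionGroup.orderOf_a_one] at h1
    have := Nat.le_of_dvd (by omega) h1
    omega
  rw [Nat.card_eq_fintype_card, card_subtype_height, card_subtype_height]
  refine ⟨r1, r3, hQ hns, hc0, fun χ hχ => hht ⟨χ, hχ⟩, fun h4 => hc1 ?_⟩
  rw [hh]
  calc 4 = 2 ^ 2 := rfl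
    _ ≤ _ := Nat.pow_le_pow_right two_pos (by omega)

end Cfsg.Agent.BlockTame
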