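import Cfsg.Agent.BlockTame.Fusion
import Cfsg.Agent.BlockDih.Columns
import Cfsg.Agent.Char.Linear
import Cfsg.Agent.Char.Kernel
import Cfsg.Agent.BlkChar.CycloDiv

/-!
# The columns at the rotations of a semidihedral or generalized quaternion defect group
-/

set_option autoImplicit false
set_option maxHeartbeats 800000
set_option linter.unusedSectionVars false
set_option linter.style.haveILetI false

noncomputable section

namespace Cfsg.Agent.BlockTame

open Cfsg Cfsg.Agent.BrauerPairs Cfsg.Agent.BrauerPairs.Nil Cfsg.Agent.BlkStar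
open Cfsg.Agent.BlkChar.Contrib Cfsg.Agent.FusionCount
open Cfsg.Agent.BlockDih (col card_mul_coeff exists_pow_sum_stdAddChar exists_signed_equiv
  A_eq_zero_of_notMem A_sum_smul phi_sum_smul phi_pair_eq_zero)
open scoped ComplexConjugate Classical

universe u

variable {M : Ideal AlgInt} [M.IsPrime] [CharP (Block.ResF M) 2] {G : Type u} [Group G]
  [Fintype G]

/-- The extension by zero of a function on a subgroup. -/
def ext0 {L : Subgroup G} (f : L → ℂ) (g : G) : ℂ := if hg : g ∈ L then f ⟨g, hg⟩ else 0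

theorem ext0_coe {L : Subgroup G} (f : L → ℂ) : (fun x : L => ext0 f (x : G)) = f := by
  funext x
  rw [ext0, dif_pos x.2]

namespace Ctx

variable {h : ℕ} [NeZero (2 * h)] (D : Ctx M G h)

theorem cjRel_b (i : ZMod (2 * h)) :
    CjRel (pairSys M G) D.b (pr D.S (D.rot i)) (pr D.S (D.rot (D.σ * i))) := by
  obtain ⟨c, hc⟩ := exists_cjRel (S := pairSys M G) D.b (pr D.S (D.rot i))
  have hs := sle_of_cjRel_mem D.mem_b hc (pr_sle D.S (D.rot i))
  have hc2 : c.1 = Subgroup.zpowers (((D.rot (D.σ * i) : D.S.P)) : G) := by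
    rw [← hc.1, ← D.conj_rot]
    exact MonoidHom.map_zpowers _ _
  rwa [D.S.eq_of_sle hs (pr_sle D.S _) hc2] at hc

theorem K_conj_b (i : ZMod (2 * h)) (F H : G → ℂ) :
    K D.S (D.rot (D.σ * i)) F H =
      K D.S (D.rot i) (fun g => F (D.b * g * D.b⁻¹)) (fun g => H (D.b * g * D.b⁻¹)) := by
  have hc := D.cjRel_b i
  have hC := congrArg (fun S : Subgroup G => Nat.card S) (centralizer_cjRel hc)
  replace hC := (Subgroup.card_map_of_injective
    (K := Subgroup.centralizer ((pr D.S (D.rot i)).1 : Set G))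
    (f := (MulAut.conj D.b).toMonoidHom) (MulAut.conj D.b).injective).symm.trans hC
  have hs := secReg_conj' (p := 2) hc ((D.rot i : D.S.P) : G) F H
  rw [D.conj_rot] at hs
  rw [K, K, hs, show Nat.card (Subgroup.centralizer
    (Subgroup.zpowers ((D.rot (D.σ * i) : D.S.P) : G) : Set G)) =
    Nat.card (Subgroup.centralizer (Subgroup.zpowers ((D.rot i : D.S.P) : G) : Set G)) from
      hC.symm]

theorem rot_mem_cen (i : ZMod (2 * h)) : ((D.rot i : D.S.P) : G) ∈ cen D.S D.wP :=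
  (mem_cen D.S).2 (congrArg Subtype.val (D.commute_rot_rot i _))

theorem σ_wIdx_eq_three : D.σ * wIdx h = (3 : ℕ) * wIdx h := by
  rw [D.σ_wIdx]
  push_cast
  linear_combination -D.two_mul_wIdx

theorem conj_mem_cen {x : G} (hx : x ∈ cen D.S D.wP) : D.b * x * D.b⁻¹ ∈ cen D.S D.wP := by
  rw [mem_cen] at hx ⊢
  have e : ((D.wP : D.S.P) : G) =
      D.b * ((D.rot (D.σ * wIdx h) : D.S.P) : G) * D.b⁻¹ := by
    rw [D.conj_rot, D.σ_σ]
    rfl
  have hc : Commute x ((D.rot (D.σ * wIdx h) : D.S.P) : G) := by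
    rw [D.σ_wIdx_eq_three, ← rot_pow, SubgroupClass.coe_pow]
    exact (show Commute x ((D.wP : D.S.P) : G) from hx).pow_right 3
  rw [e]
  calc D.b * x * D.b⁻¹ * (D.b * ((D.rot (D.σ * wIdx h) : D.S.P) : G) * D.b⁻¹) =
      D.b * (x * ((D.rot (D.σ * wIdx h) : D.S.P) : G)) * D.b⁻¹ := by group
    _ = _ := by rw [hc.eq]; group

theorem conj_inv_mem_cen {x : G} (hx : x ∈ cen D.S D.wP) : D.b⁻¹ * x * D.b ∈ cen D.S D.wP := by
  have h2 : D.b * D.b ∈ cen D.S D.wP := by
    have := congrArg Subtype.val D.b_sq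
    rw [Subgroup.coe_mul] at this
    rw [this]
    exact D.rot_mem_cen _
  have h3 := D.conj_mem_cen (Subgroup.mul_mem _ (Subgroup.mul_mem _ (Subgroup.inv_mem _ h2) hx) h2)
  convert h3 using 1
  group

/-- Conjugation by the flip on the centralizer of the element of order four. -/
def τ : cen D.S D.wP ≃* cen D.S D.wP where
  toFun x := ⟨D.b * x * D.b⁻¹, D.conj_mem_cen x.2⟩
  invFun x := ⟨D.b⁻¹ * x * D.b, D.conj_inv_mem_cen x.2⟩
  left_inv x := Subtype.ext (by simp [mul_assoc])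
  right_inv x := Subtype.ext (by simp [mul_assoc])
  map_mul' x y := Subtype.ext (by simp [mul_assoc])

theorem ext0_τ (f : cen D.S D.wP → ℂ) :
    ext0 (fun x => f (D.τ x)) = fun g => ext0 f (D.b * g * D.b⁻¹) := by
  funext g
  simp only [ext0]
  by_cases hg : g ∈ cen D.S D.wP
  · rw [dif_pos hg, dif_pos (D.conj_mem_cen hg)]
    rfl
  · have hg' : D.b * g * D.b⁻¹ ∉ cen D.S D.wP := fun e => hg (by
      simpa [mul_assoc] using D.conj_inv_mem_cen e)
    rw [dif_neg hg, dif_neg hg']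

theorem zP_mem_zpowers {i : ZMod (2 * h)} (hi : Mid i) :
    ((D.zP : D.S.P) : G) ∈ Subgroup.zpowers ((D.rot i : D.S.P) : G) := by
  have e : D.zP = D.wP * D.wP := by
    rw [zP, wP, ← rot_add]
    congr 1
    linear_combination -D.two_mul_wIdx
  rw [e, Subgroup.coe_mul]
  exact mul_mem (D.exists_wIdx_mul hi) (D.exists_wIdx_mul hi)

theorem mid_half_add {i : ZMod (2 * h)} (hi : Mid i) : Mid (i + (h : ZMod (2 * h))) :=
  ⟨fun e => hi.2 (by rw [eq_neg_of_add_eq_zero_left e, neg_half]),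
    fun e => hi.1 (add_eq_right.1 e)⟩

theorem zpowers_add_half {i : ZMod (2 * h)} (hi : Mid i) :
    Subgroup.zpowers ((D.rot (i + (h : ZMod (2 * h))) : D.S.P) : G) =
      Subgroup.zpowers ((D.rot i : D.S.P) : G) := by
  have key : ∀ j, Mid j → Subgroup.zpowers ((D.rot (j + (h : ZMod (2 * h))) : D.S.P) : G) ≤
      Subgroup.zpowers ((D.rot j : D.S.P) : G) := fun j hj => by
    rw [Subgroup.zpowers_le, rot_add, Subgroup.coe_mul]
    exact mul_mem (Subgroup.mem_zpowers _) (D.zP_mem_zpowers hj)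
  refine le_antisymm (key i hi) ?_
  have := key _ (mid_half_add hi)
  rwa [add_assoc, half_add, add_zero] at this

theorem K_add_half {i : ZMod (2 * h)} (hi : Mid i) {F H : G → ℂ} {s t : ℂ}
    (hF : ∀ g, F (((D.zP : D.S.P) : G) * g) = s * F g)
    (hH : ∀ g, H (((D.zP : D.S.P) : G) * g) = t * H g) :
    K D.S (D.rot (i + (h : ZMod (2 * h)))) F H = s * conj t * K D.S (D.rot i) F H := by
  have hz := D.zpowers_add_half hi
  have e : ((D.rot (i + (h : ZMod (2 * h))) : D.S.P) : G) =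
      ((D.zP : D.S.P) : G) * ((D.rot i : D.S.P) : G) := by
    rw [← Subgroup.coe_mul, zP, ← rot_add, add_comm]
  have hphi : ∀ (F : G → ℂ) (s : ℂ), (∀ g, F (((D.zP : D.S.P) : G) * g) = s * F g) → ∀ y,
      Phi (pr D.S (D.rot i)) (((D.zP : D.S.P) : G) * ((D.rot i : D.S.P) : G)) F y =
        s * Phi (pr D.S (D.rot i)) ((D.rot i : D.S.P) : G) F y := by
    intro F s hF y
    rw [phi_eq_sum, phi_eq_sum, Finset.mul_sum]
    refine Finset.sum_congr rfl fun c _ => ?_
    rw [mul_assoc ((D.zP : D.S.P) : G), mul_assoc ((D.zP : D.S.P) : G), hF]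
    ring
  rw [K, K, pr_congr D.S (v := D.rot (i + (h : ZMod (2 * h)))) (v' := D.rot i) hz, hz, secReg,
    secReg, e]
  simp only [hphi F s hF, hphi H t hH, map_mul (starRingEnd ℂ), Finset.mul_sum]
  exact Finset.sum_congr rfl fun y _ => by ring

section LocalBlock

variable (T : Local D.S D.wP) (hn : IsNilpotentBlock 2 M T.T.B.1)

/-- The rotations in the local defect group. -/
def lrot (i : ZMod (2 * h)) : (T.nil hn).P := T.ofP (D.rot i) (D.rot_mem_cen i)

theorem lrot_eq_pow (i : ZMod (2 * h)) : D.lrot T hn i = D.lrot T hn 1 ^ i.val := by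
  refine Subtype.ext (Subtype.ext ?_)
  have : D.rot 1 ^ i.val = D.rot i := by rw [rot_pow, mul_one, ZMod.natCast_zmod_val]
  rw [SubgroupClass.coe_pow, SubgroupClass.coe_pow]
  exact (congrArg Subtype.val this).symm

theorem exists_lrot (x : (T.nil hn).P) : ∃ i, x = D.lrot T hn i := by
  obtain ⟨i, hi⟩ := D.exists_rot (x := ((x : cen D.S D.wP) : G)) (by
    rw [← D.inf_cen_rot D.mid_wIdx]
    exact ⟨T.mem_P.1 x.2, x.1.2⟩)
  exact ⟨i, Subtype.ext (Subtype.ext hi.symm)⟩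

theorem commute_local (x y : (T.nil hn).P) : x * y = y * x := by
  obtain ⟨i, rfl⟩ := D.exists_lrot T hn x
  obtain ⟨j, rfl⟩ := D.exists_lrot T hn y
  exact Subtype.ext (Subtype.ext (congrArg (fun z : D.S.P => (z : G)) (D.commute_rot_rot i j)))

theorem card_local : Nat.card (T.nil hn).P = 2 * h := by
  show Nat.card T.T.P = 2 * h
  rw [T.P_eq, ← D.card_inf_cen_rot D.mid_wIdx]
  exact Nat.card_congr (Subgroup.subgroupOfEquivOfLe inf_le_right).toEquiv

theorem card_centralizer_lrot {i : ZMod (2 * h)} (hi : Mid i) :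
    Nat.card (Subgroup.centralizer
      (Subgroup.zpowers ((D.lrot T hn i : cen D.S D.wP)) : Set (cen D.S D.wP))) =
      Nat.card (cen D.S (D.rot i)) := by
  refine Nat.card_congr
    { toFun := fun x => ⟨((x : cen D.S D.wP) : G), (mem_cen D.S).2
        (congrArg Subtype.val (BlockHeight.mem_centralizer_zpowers.1 x.2))⟩
      invFun := fun g => ⟨⟨(g : G), D.cen_rot_le hi g.2⟩,
        BlockHeight.mem_centralizer_zpowers.2 (Subtype.ext ((mem_cen D.S).1 g.2))⟩
      left_inv := fun _ => rfl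
      right_inv := fun _ => rfl }

theorem A_eq_K {i : ZMod (2 * h)} (hi : Mid i) (F H : G → ℂ) :
    (T.nil hn).A (D.lrot T hn i) (fun x : cen D.S D.wP => F x) (fun x : cen D.S D.wP => H x) =
      ((2 * h : ℕ) : ℂ) * K D.S (D.rot i) F H := by
  have hinf : (T.nil hn).P ⊓ Subgroup.centralizer
      (Subgroup.zpowers ((D.lrot T hn i : cen D.S D.wP)) : Set (cen D.S D.wP)) =
      (T.nil hn).P := inf_eq_left.2 fun x hx => BlockHeight.mem_centralizer_zpowers.2
        (congrArg Subtype.val (D.commute_local T hn ⟨x, hx⟩ (D.lrot T hn i)))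
  rw [NilData.A, hinf, D.card_local, D.card_centralizer_lrot T hn hi]
  erw [T.nil_pair hn (T.ofP (D.rot i) (D.rot_mem_cen i))]
  erw [secReg_lifts (T.lifts_pr (x := T.ofP (D.rot i) (D.rot_mem_cen i)) (D.cen_rot_le hi))]
  rw [K, div_eq_mul_inv, mul_assoc]
  rfl

theorem A_eq_mul {ζ : IrrCharacter (cen D.S D.wP)} (hζ : ζ ∈ (T.nil hn).B.1)
    (h0 : blockHeight 2 (T.nil hn).B.1 (ζ : cen D.S D.wP → ℂ) = 0) (v : (T.nil hn).P)
    {f g : cen D.S D.wP → ℂ} (hf : IsClassFunction (cen D.S D.wP) f)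
    (hg : IsClassFunction (cen D.S D.wP) g) :
    (T.nil hn).A v f g = (T.nil hn).A v f (ζ : cen D.S D.wP → ℂ) *
      conj ((T.nil hn).A v g (ζ : cen D.S D.wP → ℂ)) := by
  obtain ⟨Φ, s, -, -, hP⟩ := exists_signed_equiv (T.nil hn) hζ h0
  have key : ∀ f : cen D.S D.wP → ℂ, IsClassFunction (cen D.S D.wP) f →
      ∀ y ∈ Subgroup.centralizer (((T.nil hn).pair v).1 : Set (cen D.S D.wP)), ¬ 2 ∣ orderOf y →
      Phi ((T.nil hn).pair v) (v : cen D.S D.wP) f y =
        (T.nil hn).A v f (ζ : cen D.S D.wP → ℂ) * Phi ((T.nil hn).pair v) (v : cen D.S D.wP) ζ y := by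
    intro f hf y hy hreg
    rw [Char.eq_sum_classInner_smul hf, A_sum_smul, phi_sum_smul, Finset.sum_mul]
    refine Finset.sum_congr rfl fun φ _ => ?_
    by_cases hφ : φ ∈ (T.nil hn).B.1
    · rw [hP ⟨φ, hφ⟩ v y hy hreg, mul_assoc]
    · rw [A_eq_zero_of_notMem (T.nil hn) _ hφ, phi_pair_eq_zero (T.nil hn) _ hφ hy hreg, mul_zero, zero_mul]
  rw [← mul_one ((T.nil hn).A v f (ζ : cen D.S D.wP → ℂ) * conj ((T.nil hn).A v g (ζ : cen D.S D.wP → ℂ))),
    ← (T.nil hn).A_self_eq_one hζ h0 v]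
  simp only [NilData.A, secReg, Finset.mul_sum]
  refine Finset.sum_congr rfl fun y hy => ?_
  obtain ⟨-, h1, h2⟩ := Finset.mem_filter.1 hy
  rw [key f hf y h1 h2, key g hg y h1 h2, map_mul (starRingEnd ℂ)]
  simp only [NilData.A, secReg, Finset.mul_sum]
  ring

theorem charDegree_eq {φ ψ : IrrCharacter (cen D.S D.wP)} (hφ : φ ∈ (T.nil hn).B.1)
    (hψ : ψ ∈ (T.nil hn).B.1) :
    charDegree (φ : cen D.S D.wP → ℂ) = charDegree (ψ : cen D.S D.wP → ℂ) := by
  obtain ⟨ζ, hζ, h0⟩ := BlockVal.exists_height_zero (p := 2)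
    (Block.pBlock_nonempty (T.nil hn).B.2)
  obtain ⟨Φ, hΦ⟩ := (T.nil hn).exists_equiv hζ h0
  have h1 : ∀ θ : (T.nil hn).B.1,
      ((θ : IrrCharacter (cen D.S D.wP)) : cen D.S D.wP → ℂ) 1 =
        (ζ : cen D.S D.wP → ℂ) 1 := by
    intro θ
    rw [hΦ θ 1 (by simp), ← (BlockVal.irr_one_eq_charDegree (Φ θ)).1,
      Char.irr_degree_one_of_comm (D.commute_local T hn) (Φ θ).2, one_mul]
  apply Nat.cast_injective (R := ℂ)
  rw [← (BlockVal.irr_one_eq_charDegree φ).1, ← (BlockVal.irr_one_eq_charDegree ψ).1,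
    h1 ⟨φ, hφ⟩, h1 ⟨ψ, hψ⟩]

theorem height_eq_zero {φ : IrrCharacter (cen D.S D.wP)} (hφ : φ ∈ (T.nil hn).B.1) :
    blockHeight 2 (T.nil hn).B.1 (φ : cen D.S D.wP → ℂ) = 0 :=
  (BlockVal.blockHeight_eq_zero_iff hφ).2 fun ψ hψ =>
    le_of_eq (by rw [D.charDegree_eq T hn hφ hψ])

/-- The twist of a character by the flip. -/
def tw (φ : IrrCharacter (cen D.S D.wP)) : IrrCharacter (cen D.S D.wP) :=
  ⟨fun x => (φ : cen D.S D.wP → ℂ) (D.τ x), Char.isIrrCharacter_comp_mulEquiv φ.2 D.τ⟩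

theorem tw_tw (φ : IrrCharacter (cen D.S D.wP)) : D.tw (D.tw φ) = φ := by
  refine Subtype.ext (funext fun x => ?_)
  have h2 : D.b * D.b ∈ cen D.S D.wP := by
    have := congrArg Subtype.val D.b_sq
    rw [Subgroup.coe_mul] at this
    rw [this]
    exact D.rot_mem_cen _
  show (φ : cen D.S D.wP → ℂ) (D.τ (D.τ x)) = (φ : cen D.S D.wP → ℂ) x
  rw [← Char.irr_isClassFunction φ.2 x ⟨D.b * D.b, h2⟩]
  refine congrArg _ (Subtype.ext ?_)
  show D.b * (D.b * (x : G) * D.b⁻¹) * D.b⁻¹ = D.b * D.b * (x : G) * (D.b * D.b)⁻¹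
  group

theorem tw_mem {φ : IrrCharacter (cen D.S D.wP)} (hφ : φ ∈ (T.nil hn).B.1) :
    D.tw φ ∈ (T.nil hn).B.1 := by
  by_contra hne
  have h1 := A_eq_zero_of_notMem (T.nil hn) (D.lrot T hn (wIdx h)) hne
    (D.tw φ : cen D.S D.wP → ℂ)
  have h2 := D.A_eq_K T hn D.mid_wIdx (ext0 (D.tw φ : cen D.S D.wP → ℂ))
    (ext0 (D.tw φ : cen D.S D.wP → ℂ))
  rw [ext0_coe, h1] at h2
  have h3 : ext0 (D.tw φ : cen D.S D.wP → ℂ) = fun g =>
      ext0 (φ : cen D.S D.wP → ℂ) (D.b * g * D.b⁻¹) := D.ext0_τ _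
  rw [h3, ← D.K_conj_b] at h2
  have h4 := D.A_eq_K T hn (D.mid_σ D.mid_wIdx) (ext0 (φ : cen D.S D.wP → ℂ))
    (ext0 (φ : cen D.S D.wP → ℂ))
  rw [ext0_coe, (T.nil hn).A_self_eq_one hφ (D.height_eq_zero T hn hφ), ← h2] at h4
  exact one_ne_zero h4

theorem classInner_tw (χ : IrrCharacter G) (φ : IrrCharacter (cen D.S D.wP)) :
    classInner (fun x : cen D.S D.wP => (χ : G → ℂ) x) (D.tw φ : cen D.S D.wP → ℂ) =
      classInner (fun x : cen D.S D.wP => (χ : G → ℂ) x) (φ : cen D.S D.wP → ℂ) := by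
  rw [classInner, classInner]
  congr 1
  refine Fintype.sum_equiv D.τ.toEquiv _ _ fun x => ?_
  show (χ : G → ℂ) (x : G) * conj ((φ : cen D.S D.wP → ℂ) (D.τ x)) =
    (χ : G → ℂ) ((D.τ x : cen D.S D.wP) : G) * conj ((φ : cen D.S D.wP → ℂ) (D.τ x))
  rw [show ((D.τ x : cen D.S D.wP) : G) = D.b * (x : G) * D.b⁻¹ from rfl,
    Char.irr_isClassFunction χ.2]

/-- The nilpotent block has a member fixed by the flip. -/
theorem exists_fixed : ∃ φ ∈ (T.nil hn).B.1, D.tw φ = φ := by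
  by_contra hne
  push Not at hne
  obtain ⟨ψ, hψ, hψ0⟩ := BlockVal.exists_height_zero (p := 2) (Block.pBlock_nonempty D.S.B.2)
  obtain ⟨ζ, hζ, hζ0⟩ := BlockVal.exists_height_zero (p := 2)
    (Block.pBlock_nonempty (T.nil hn).B.2)
  have hM := D.S.isPModular
  set N := T.nil hn
  set f : cen D.S D.wP → ℂ := fun x => (ψ : G → ℂ) x with hf
  have hfc : IsCharacter (cen D.S D.wP) f :=
    Char.isCharacter_comp (Char.isCharacter_of_irr ψ.2) (cen D.S D.wP).subtype
  choose m hm using fun φ : IrrCharacter (cen D.S D.wP) => Char.isCharacter_classInner_nat hfc φ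
  set S0 := Finset.univ.filter (fun φ : IrrCharacter (cen D.S D.wP) => φ ∈ N.B.1) with hS0
  have heven : (2 : ℕ) ∣ ∑ φ ∈ S0, m φ := by
    rw [← ZMod.natCast_eq_zero_iff, Nat.cast_sum]
    refine Finset.sum_involution (fun φ _ => D.tw φ) (fun φ _ => ?_) (fun φ hφ _ => ?_)
      (fun φ hφ => ?_) (fun φ _ => D.tw_tw φ)
    · have e : m (D.tw φ) = m φ := by
        apply Nat.cast_injective (R := ℂ)
        rw [← hm, ← hm]
        exact D.classInner_tw ψ φ
      rw [e, ← two_mul]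
      exact mul_eq_zero_of_left (ZMod.natCast_self 2) _
    · exact hne φ (Finset.mem_filter.1 hφ).2
    · exact Finset.mem_filter.2 ⟨Finset.mem_univ _,
        D.tw_mem T hn (Finset.mem_filter.1 hφ).2⟩
  obtain ⟨Φ, s, hs, hA, -⟩ := exists_signed_equiv N hζ hζ0
  set w := D.lrot T hn (wIdx h)
  obtain ⟨e, he⟩ := D.exists_pow
  have hR : MemLocalIdeal M (N.A w f (ζ : cen D.S D.wP → ℂ)) := by
    have hroot : ∀ θ : N.B.1, MemLocalIdeal M ((Φ θ : N.P → ℂ) w - 1) := by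
      intro θ
      obtain ⟨χ1, hχ1⟩ := Char.irr_exists_monoidHom_of_comm (D.commute_local T hn) (Φ θ).2
      rw [hχ1]
      refine BlkChar.Cyclo.sub_one_mem_of_pow_prime_pow (k := e + 2) hM ?_
      rw [← Units.val_pow_eq_pow_val, ← map_pow,
        orderOf_dvd_iff_pow_eq_one.1 ((orderOf_dvd_natCard w).trans (by
          rw [D.card_local, he]; exact dvd_of_eq (by ring))), map_one, Units.val_one]
    rw [Char.eq_sum_classInner_smul (Char.isCharacter_isClassFunction hfc), A_sum_smul,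
      ← Finset.sum_subset (Finset.subset_univ S0) fun φ _ hφ => by
        rw [A_eq_zero_of_notMem N _ (by simpa [hS0] using hφ), mul_zero]]
    rw [← sub_add_cancel (∑ φ ∈ S0, classInner f (φ : cen D.S D.wP → ℂ) *
      N.A w (φ : cen D.S D.wP → ℂ) (ζ : cen D.S D.wP → ℂ)) ((∑ φ ∈ S0, m φ : ℕ) : ℂ)]
    refine Block.memLocalIdeal_add ?_ ?_
    · rw [Nat.cast_sum, ← Finset.sum_sub_distrib]
      refine Block.memLocalIdeal_sum _ _ fun φ hφ => ?_
      rw [hm, ← mul_sub_one]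
      refine Block.memLocalIdeal_mul_left (natCast_mem (Block.localRing M) _) ?_
      rw [hA ⟨φ, (Finset.mem_filter.1 hφ).2⟩]
      rcases hs ⟨φ, (Finset.mem_filter.1 hφ).2⟩ with hh | hh <;> rw [hh]
      · simpa using hroot _
      · have h2 : MemLocalIdeal M ((2 : ℤ) : ℂ) :=
          (Block.memLocalIdeal_intCast_iff hM _).2 dvd_rfl
        have := Block.memLocalIdeal_neg (Block.memLocalIdeal_add
          (hroot ⟨φ, (Finset.mem_filter.1 hφ).2⟩) h2)
        convert this using 1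
        push_cast
        ring
    · rw [← Int.cast_natCast]
      exact (Block.memLocalIdeal_intCast_iff hM _).2 (by exact_mod_cast heven)
  obtain ⟨k, hk0, hk⟩ := exists_exp D.S D.wP
  haveI : Fact (1 < 2 ^ k) := ⟨Nat.one_lt_pow hk0 one_lt_two⟩
  refine cM_not_mem (exists_section D.S D.wP hk) hM (isInducedBlock_pr D.S D.wP) hψ hψ0 hψ hψ0 1 ?_
  rw [cM_eq_mul_K D.S D.wP hk0 hk,
    show 2 ^ blockDefect 2 (pr D.S D.wP).2.1 = 2 * h from D.defect_rot D.mid_wIdx]
  erw [← D.A_eq_K T hn D.mid_wIdx]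
  rw [D.A_eq_mul T hn hζ hζ0 _ (Char.isCharacter_isClassFunction hfc)
    (Char.isCharacter_isClassFunction hfc)]
  refine Block.memLocalIdeal_mul_right hR ?_
  rw [Char.eq_sum_classInner_smul (Char.isCharacter_isClassFunction hfc), A_sum_smul, map_sum]
  refine (Block.localRing M).sum_mem fun φ _ => ?_
  rw [map_mul (starRingEnd ℂ), hm, map_natCast]
  refine (Block.localRing M).mul_mem (natCast_mem _ _) ?_
  by_cases hφ : φ ∈ N.B.1
  · rw [hA ⟨φ, hφ⟩, map_mul (starRingEnd ℂ), map_intCast]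
    refine (Block.localRing M).mul_mem (intCast_mem _ _) ?_
    obtain ⟨χ1, hχ1⟩ := Char.irr_exists_monoidHom_of_comm (D.commute_local T hn) (Φ ⟨φ, hφ⟩).2
    rw [hχ1]
    refine Block.memLocalRing_of_pow_eq_one (orderOf_pos w).ne' ?_
    rw [← map_pow, ← Units.val_pow_eq_pow_val, ← map_pow, pow_orderOf_eq_one, map_one,
      Units.val_one, map_one]
  · rw [A_eq_zero_of_notMem N _ hφ, map_zero]
    exact (Block.localRing M).zero_mem

/-- The column of a character at a rotation. -/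
theorem exists_coeff {ζ : IrrCharacter (cen D.S D.wP)} (hζ : ζ ∈ (T.nil hn).B.1)
    (h0 : blockHeight 2 (T.nil hn).B.1 (ζ : cen D.S D.wP → ℂ) = 0) (hfix : D.tw ζ = ζ)
    (χ : IrrCharacter G) : ∃ n : ZMod (2 * h) → ℤ, (∀ r, n (D.σ * r) = n r) ∧
      ∀ i, (T.nil hn).A (D.lrot T hn i) (fun x : cen D.S D.wP => (χ : G → ℂ) x)
        (ζ : cen D.S D.wP → ℂ) = ∑ r, (n r : ℂ) * ZMod.stdAddChar (r * i) := by
  set N := T.nil hn
  obtain ⟨Φ, s, hs, hA, -⟩ := exists_signed_equiv N hζ h0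
  set f : cen D.S D.wP → ℂ := fun x => (χ : G → ℂ) x with hf
  have hres : IsCharacter (cen D.S D.wP) f :=
    Char.isCharacter_comp (Char.isCharacter_of_irr χ.2) (cen D.S D.wP).subtype
  choose m hm using fun φ : IrrCharacter (cen D.S D.wP) => Char.isCharacter_classInner_nat hres φ
  have hord : D.lrot T hn 1 ^ (2 * h) = 1 := by
    have := pow_card_eq_one' (x := D.lrot T hn 1)
    rwa [D.card_local T hn] at this
  choose c hc using fun ψ : N.B.1 =>
    exists_pow_sum_stdAddChar (m := 2 * h) (Char.isCharacter_of_irr (Φ ψ).2) hord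
  set n : ZMod (2 * h) → ℤ := fun r => ∑ ψ : N.B.1, (m ψ : ℤ) * s ψ * c ψ r with hN
  have hR : ∀ i, N.A (D.lrot T hn i) f (ζ : cen D.S D.wP → ℂ) =
      ∑ r, (n r : ℂ) * ZMod.stdAddChar (r * i) := by
    intro i
    conv_lhs => rw [Char.eq_sum_classInner_smul (Char.isCharacter_isClassFunction hres)]
    rw [A_sum_smul, ← Finset.sum_subset (Finset.subset_univ (Finset.univ.filter (· ∈ N.B.1)))
      fun φ _ hφ => by rw [A_eq_zero_of_notMem N _ (by simpa using hφ), mul_zero],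
      Finset.sum_subtype (p := fun φ => φ ∈ N.B.1) (Finset.univ.filter (· ∈ N.B.1)) (by simp)
        (fun φ => classInner f (φ : cen D.S D.wP → ℂ) *
          N.A (D.lrot T hn i) (φ : cen D.S D.wP → ℂ) (ζ : cen D.S D.wP → ℂ))]
    simp only [hA, hm, D.lrot_eq_pow T hn i, hc, hN, Int.cast_sum, Int.cast_mul, Int.cast_natCast,
      Finset.sum_mul, Finset.mul_sum]
    rw [Finset.sum_comm]
    exact Finset.sum_congr rfl fun r _ => Finset.sum_congr rfl fun ψ _ => by ring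
  refine ⟨n, fun r => ?_, hR⟩
  have hsymm : ∀ i, N.A (D.lrot T hn (D.σ * i)) f (ζ : cen D.S D.wP → ℂ) =
      N.A (D.lrot T hn i) f (ζ : cen D.S D.wP → ℂ) := by
    intro i
    by_cases hi : Mid i
    · have h1 := D.A_eq_K T hn (D.mid_σ hi) (χ : G → ℂ) (ext0 (ζ : cen D.S D.wP → ℂ))
      have h2 := D.A_eq_K T hn hi (χ : G → ℂ) (ext0 (ζ : cen D.S D.wP → ℂ))
      rw [ext0_coe] at h1 h2
      rw [h1, h2, D.K_conj_b]
      congr 2
      · exact funext fun g => Char.irr_isClassFunction χ.2 g D.b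
      · rw [← D.ext0_τ]
        exact congrArg ext0 (congrArg Subtype.val hfix)
    · rw [Classical.not_not.1 fun e => hi (D.mid_iff.2 e)]
  have hm0 : ((2 * h : ℕ) : ℂ) ≠ 0 := Nat.cast_ne_zero.2 (NeZero.ne _)
  apply Int.cast_injective (α := ℂ)
  apply mul_left_cancel₀ hm0
  have e1 := card_mul_coeff (fun _ : Unit => n) () (D.σ * r)
  have e2 := card_mul_coeff (fun _ : Unit => n) () r
  rw [e1, e2]
  let τ' : ZMod (2 * h) ≃ ZMod (2 * h) :=
    ⟨fun i => D.σ * i, fun i => D.σ * i, D.σ_σ, D.σ_σ⟩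
  refine Fintype.sum_equiv τ' _ _ fun i => ?_
  have h1 : ∀ i, col (fun _ : Unit => n) i () =
      N.A (D.lrot T hn i) f (ζ : cen D.S D.wP → ℂ) := fun i => (hR i).symm
  simp only [h1, τ', Equiv.coe_fn_mk, hsymm]
  congr 2
  ring

end LocalBlock

/-- The integral columns at the rotations. -/
theorem exists_columns : ∃ N : IrrCharacter G → ZMod (2 * h) → ℤ,
    (∀ χ r, N χ (D.σ * r) = N χ r) ∧ (∀ i, Mid i → ∀ χ ψ : IrrCharacter G,
      K D.S (D.rot i) (χ : G → ℂ) (ψ : G → ℂ) =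
        col N i χ * conj (col N i ψ) / ((2 * h : ℕ) : ℂ)) ∧
    (((D.zP : D.S.P) : G) ∈ Subgroup.center G → ∃ s0 : ℤ, (s0 = 1 ∨ s0 = -1) ∧
      ∀ (χ : IrrCharacter G) (s : ℂ), (∀ g, (χ : G → ℂ) (((D.zP : D.S.P) : G) * g) =
          s * (χ : G → ℂ) g) →
        ∀ i, Mid i → col N (i + (h : ZMod (2 * h))) χ = s * (s0 : ℂ) * col N i χ) := by
  obtain ⟨T⟩ := exists_local D.S (D.cMax_mid D.mid_wIdx)
  have hn := T.isNilpotent (D.odd_rot D.mid_wIdx)
  obtain ⟨ζ, hζ, hfix⟩ := D.exists_fixed T hn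
  have h0 := D.height_eq_zero T hn hζ
  choose N hN hR using D.exists_coeff T hn hζ h0 hfix
  refine ⟨N, hN, fun i hi χ ψ => ?_, fun hz => ?_⟩
  · have hcl : ∀ χ : IrrCharacter G,
        IsClassFunction (cen D.S D.wP) fun x => (χ : G → ℂ) x := fun χ =>
      Char.isCharacter_isClassFunction
        (Char.isCharacter_comp (Char.isCharacter_of_irr χ.2) (cen D.S D.wP).subtype)
    show _ = (∑ r, (N χ r : ℂ) * ZMod.stdAddChar (r * i)) *
      conj (∑ r, (N ψ r : ℂ) * ZMod.stdAddChar (r * i)) / _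
    rw [← hR, ← hR, ← D.A_eq_mul T hn hζ h0 _ (hcl χ) (hcl ψ), D.A_eq_K T hn hi,
      mul_div_cancel_left₀ _ (Nat.cast_ne_zero.2 (NeZero.ne (2 * h)))]
  · set zL : cen D.S D.wP := ⟨((D.zP : D.S.P) : G), D.rot_mem_cen _⟩ with hzL
    have hzc : zL ∈ Subgroup.center (cen D.S D.wP) :=
      Subgroup.mem_center_iff.2 fun x => Subtype.ext (Subgroup.mem_center_iff.1 hz (x : G))
    obtain ⟨w, -, hw, -⟩ := exists_scalar ζ hzc
    have hw2 : w * w = 1 := by
      have h1 := hw (zL * 1)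
      have h2 : zL * zL = 1 := Subtype.ext (by
        show ((D.zP : D.S.P) : G) * ((D.zP : D.S.P) : G) = 1
        rw [← Subgroup.coe_mul, zP, (D.rot_sq_eq_one).2 (Or.inr rfl), OneMemClass.coe_one])
      rw [← mul_assoc, h2, hw 1, one_mul] at h1
      have := Char.irr_one_ne_zero ζ.2
      apply mul_right_cancel₀ this
      rw [mul_assoc, ← h1, one_mul]
    obtain ⟨s0, hs0, rfl⟩ : ∃ s0 : ℤ, (s0 = 1 ∨ s0 = -1) ∧ (s0 : ℂ) = w := by
      rcases mul_self_eq_one_iff.1 hw2 with e | e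
      · exact ⟨1, Or.inl rfl, by rw [e, Int.cast_one]⟩
      · exact ⟨-1, Or.inr rfl, by rw [e]; norm_num⟩
    refine ⟨s0, hs0, fun χ s hs i hi => ?_⟩
    have hext : ∀ g, ext0 (ζ : cen D.S D.wP → ℂ) (((D.zP : D.S.P) : G) * g) =
        (s0 : ℂ) * ext0 (ζ : cen D.S D.wP → ℂ) g := fun g => by
      simp only [ext0]
      have hzm : ((D.zP : D.S.P) : G) ∈ cen D.S D.wP := zL.2
      by_cases hg : g ∈ cen D.S D.wP
      · rw [dif_pos hg, dif_pos (mul_mem hzm hg)]
        exact hw ⟨g, hg⟩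
      · rw [dif_neg hg, dif_neg fun e => hg (by
          simpa [← mul_assoc] using mul_mem (inv_mem hzm) e),
          mul_zero]
    have h1 := D.A_eq_K T hn (mid_half_add hi) (χ : G → ℂ) (ext0 (ζ : cen D.S D.wP → ℂ))
    have h2 := D.A_eq_K T hn hi (χ : G → ℂ) (ext0 (ζ : cen D.S D.wP → ℂ))
    rw [ext0_coe] at h1 h2
    show (∑ r, (N χ r : ℂ) * ZMod.stdAddChar (r * (i + (h : ZMod (2 * h))))) =
      s * (s0 : ℂ) * ∑ r, (N χ r : ℂ) * ZMod.stdAddChar (r * i)
    rw [← hR, ← hR, h1, h2, D.K_add_half hi hs hext, map_intCast]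
    ring

end Ctx

end Cfsg.Agent.BlockTame
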