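import Cfsg.Agent.BlockTame.Shape

/-!
# Generic and exceptional shapes
-/

set_option autoImplicit false
set_option maxHeartbeats 800000
set_option linter.unusedSectionVars false

noncomputable section

namespace Cfsg.Agent.BlockTame

open Cfsg.Agent.BlockDih (col card_mul_diff)
open scoped ComplexConjugate Classical

namespace Ctx

variable {h : ℕ} [NeZero (2 * h)] {ι : Type*} [Fintype ι]

/-- The sum of three pairwise edges. -/
theorem all_zero_of_pairs {S : Finset ι} (hS : 3 ≤ S.card) {f : ι → ℤ}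
    (hf : ∀ B ∈ S.powersetCard 2, ∑ χ ∈ B, f χ = 0) {a : ι} (ha : a ∈ S) : f a = 0 := by
  have h2 : 1 < (S.erase a).card := by rw [Finset.card_erase_of_mem ha]; omega
  obtain ⟨b, hb, c, hc, hbc⟩ := Finset.one_lt_card.1 h2
  rw [Finset.mem_erase] at hb hc
  have key : ∀ {x y}, x ∈ S → y ∈ S → x ≠ y → f x + f y = 0 := fun {x y} hx hy hxy => by
    have := hf {x, y} (Finset.mem_powersetCard.2
      ⟨Finset.insert_subset hx (Finset.singleton_subset_iff.2 hy), Finset.card_pair hxy⟩)
    rwa [Finset.sum_pair hxy] at this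
  have := key ha hb.2 (Ne.symm hb.1)
  have := key ha hc.2 (Ne.symm hc.1)
  have := key hb.2 hc.2 hbc
  omega

namespace Cols

variable {σ : ZMod (2 * h)} {N : ι → ZMod (2 * h) → ℤ} {Ht : ι → ℕ} {d : ι → ℝ} {Z : ι → ι → ℤ}
  {m : ℕ} (C : Cols σ N Ht d Z m)

include C

theorem Z_self_pos (χ : ι) : 0 < Z χ χ := by
  obtain ⟨ψ, hψ⟩ := C.exists_zero
  obtain ⟨q, hq, e⟩ := C.Z_odd χ ψ hψ
  have hne : Z χ ψ ≠ 0 := by
    rw [e]
    exact mul_ne_zero (pow_ne_zero _ two_ne_zero) fun e => by simp [e] at hq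
  have h1 : Z χ ψ * Z χ ψ ≤ 4 * h * Z χ χ := by
    rw [← C.Z_proj χ χ]
    exact Finset.single_le_sum (fun x _ => mul_self_nonneg (Z χ x)) (Finset.mem_univ ψ)
  have h2 : 0 < Z χ ψ * Z χ ψ := mul_self_pos.2 hne
  by_contra hn
  push Not at hn
  have : 4 * (h : ℤ) * Z χ χ ≤ 0 := mul_nonpos_of_nonneg_of_nonpos (by positivity) hn
  omega

theorem extra_props {e : ι} (he : Ht e ≠ 0) (hcol : ∀ i, Mid i → col N i e = 0) :
    (∀ ψ, Ht ψ = 0 → Z e ψ ≠ 0) ∧ (∀ ψ, Ht ψ ≠ 0 → ψ ≠ e → Z e ψ = 0) ∧ Ht e = m + 1 := by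
  set S := Finset.univ.filter fun χ => Ht χ = 0 with hS
  obtain ⟨hS4, -, -⟩ := C.top_props
  have hdvd := C.extra e he hcol
  have hne : ∀ ψ, Ht ψ = 0 → Z e ψ ≠ 0 := fun ψ hψ => by
    obtain ⟨q, hq, hz⟩ := C.Z_odd e ψ hψ
    rw [hz]
    exact mul_ne_zero (pow_ne_zero _ two_ne_zero) fun e => by simp [e] at hq
  have hsq : ∀ ψ ∈ S, (h : ℤ) ^ 2 ≤ Z e ψ ^ 2 := fun ψ hψ => by
    obtain ⟨c, hc⟩ := hdvd ψ
    rw [hc, mul_pow]
    refine le_mul_of_one_le_right (sq_nonneg _) (one_le_sq_of_ne_zero fun e0 => ?_)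
    exact hne ψ (Finset.mem_filter.1 hψ).2 (by rw [hc, e0, mul_zero])
  have heS : e ∉ S := by simp [hS, he]
  have htot : ∑ ψ, Z e ψ ^ 2 = 4 * h * Z e e := by
    simp only [sq]
    exact C.Z_proj e e
  have hsplit := Finset.sum_sdiff (Finset.subset_univ (insert e S)) (f := fun ψ => Z e ψ ^ 2)
  rw [htot, Finset.sum_insert heS] at hsplit
  have hlow : ∑ _ψ ∈ S, (h : ℤ) ^ 2 ≤ ∑ ψ ∈ S, Z e ψ ^ 2 := Finset.sum_le_sum hsq
  rw [Finset.sum_const, hS4, nsmul_eq_mul] at hlow
  push_cast at hlow
  have hrest : 0 ≤ ∑ ψ ∈ Finset.univ \ insert e S, Z e ψ ^ 2 :=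
    Finset.sum_nonneg fun _ _ => sq_nonneg _
  have hsqn := sq_nonneg (Z e e - 2 * (h : ℤ))
  have heq : ∑ ψ ∈ S, Z e ψ ^ 2 = 4 * (h : ℤ) ^ 2 := by nlinarith
  have hzero : ∑ ψ ∈ Finset.univ \ insert e S, Z e ψ ^ 2 = 0 := by nlinarith
  refine ⟨hne, fun ψ hψ hne' => ?_, ?_⟩
  · have := (Finset.sum_eq_zero_iff_of_nonneg fun x _ => sq_nonneg (Z e x)).1 hzero ψ
      (by simp [hS, hψ, hne'])
    exact pow_eq_zero_iff two_ne_zero |>.1 this
  · obtain ⟨ψ, hψ⟩ := C.exists_zero
    have h1 := (Finset.sum_eq_sum_iff_of_le hsq).1 (by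
      rw [heq, Finset.sum_const, hS4, nsmul_eq_mul]; push_cast; ring) ψ (by simp [hS, hψ])
    obtain ⟨q, hq, hz⟩ := C.Z_odd e ψ hψ
    have h2 : h = 2 ^ Ht e * q.natAbs := by
      have := congrArg Int.natAbs hz
      rw [Int.natAbs_mul, Int.natAbs_pow] at this
      rw [show (2 : ℕ) ^ Ht e * q.natAbs = (Z e ψ).natAbs from this.symm,
        ← Int.natAbs_eq_iff_sq_eq.2 h1, Int.natAbs_natCast]
    have hodd : Odd q.natAbs := Int.natAbs_odd.2 hq
    rw [C.h_eq] at h2
    have h3 : q.natAbs ∣ 2 ^ (m + 1) := Dvd.intro_left _ h2.symm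
    have h4 : q.natAbs = 1 :=
      Nat.Coprime.eq_one_of_dvd ((Nat.coprime_two_right.2 hodd).pow_right _) h3
    rw [h4, mul_one] at h2
    exact (Nat.pow_right_injective le_rfl h2).symm

theorem col_zero_of_const {χ : ι} (h1 : ∀ r, Ev r → N χ r = N χ 0)
    (h2 : ∀ r, ¬ Ev r → N χ r = N χ 1) {i : ZMod (2 * h)} (hi : Mid i) : col N i χ = 0 := by
  rw [C.col_eq_sub χ (fun r => if Ev r then N χ 0 else N χ 1) (fun r s hsp => ?_) hi]
  · refine Finset.sum_eq_zero fun r _ => ?_
    by_cases he : Ev r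
    · simp [he, h1 r he]
    · simp [he, h2 r he]
  · by_cases hr : Ev r <;> by_cases hs : Ev s <;> simp [hr, hs] <;> exfalso
    · rw [SP, half_mul_ev hr, half_mul_not_ev hs] at hsp
      exact half_ne_zero hsp.symm
    · rw [SP, half_mul_ev hs, half_mul_not_ev hr] at hsp
      exact half_ne_zero hsp

theorem exists_mul_eq_half {r : ZMod (2 * h)} (hr : r ≠ 0) :
    ∃ i : ZMod (2 * h), r * i = h := by
  obtain ⟨v, o, ho, hv⟩ := Nat.exists_eq_two_pow_mul_odd
    (n := r.val) fun e => hr ((ZMod.val_eq_zero r).1 e)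
  have hlt := ZMod.val_lt r
  have hh := C.h_eq
  have hvm : v ≤ m + 1 := by
    by_contra hn
    push Not at hn
    have h1 : 2 ^ (m + 2) ≤ 2 ^ v := Nat.pow_le_pow_right two_pos hn
    have h2 : 2 ^ v ≤ r.val := Nat.le_of_dvd (by
      rcases Nat.eq_zero_or_pos r.val with e | e
      · exact absurd ((ZMod.val_eq_zero r).1 e) hr
      · exact e) (Dvd.intro o hv.symm)
    rw [pow_succ] at h1
    omega
  refine ⟨((2 ^ (m + 1 - v) : ℕ) : ZMod (2 * h)), ?_⟩
  rw [← ZMod.natCast_zmod_val r, ← Nat.cast_mul, hv]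
  have e1 : 2 ^ v * o * 2 ^ (m + 1 - v) = h * o := by
    rw [mul_right_comm, ← pow_add, Nat.add_sub_cancel' hvm, hh]
  rw [e1]
  obtain ⟨l, hl⟩ := ho
  rw [hl, Nat.cast_mul, Nat.cast_add, Nat.cast_mul, mul_add, Nat.cast_one, mul_one, ← mul_assoc,
    Nat.cast_ofNat, mul_two, half_add, zero_mul, zero_add]

theorem height_w {r : ZMod (2 * h)} (hr : r ∈ evs h) {χ : ι} (h0 : Ht χ ≠ 0)
    (hx : (N χ r - N χ 0) ^ 2 = 1)
    (hev : ∀ s, Ev s → s ≠ r → s ≠ σ * r → N χ s = N χ 0)
    (hodd : ∀ s, ¬ Ev s → N χ s = N χ 1) : Ht χ = 1 := by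
  by_contra hne
  obtain ⟨hrev, hrm⟩ := mem_evs.1 hr
  obtain ⟨i, hi⟩ := C.exists_mul_eq_half hrm.1
  have hm : Mid i := ⟨fun e => half_ne_zero (by rw [← hi, e, mul_zero]),
    fun e => half_ne_zero (by rw [← hi, e, mul_comm r]; exact half_mul_ev hrev)⟩
  have e := C.col_eq_pair χ (fun s => if Ev s then N χ 0 else N χ 1) (fun a b hsp => ?_) hrm
    (fun s a b => ?_) hm
  · refine (C.small χ (by omega) i hm).2.2 ?_
    rw [e]
    simp only [hrev, if_true]
    rw [C.σ_ev r hrev, neg_mul, hi, neg_half, stdAddChar_half]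
    have : ((N χ r - N χ 0 : ℤ) : ℂ) ^ 2 = 1 := by rw [← Int.cast_pow, hx, Int.cast_one]
    linear_combination (4 : ℂ) * this
  · by_cases ha : Ev a <;> by_cases hb : Ev b <;> simp [ha, hb] <;> exfalso
    · rw [SP, half_mul_ev ha, half_mul_not_ev hb] at hsp
      exact half_ne_zero hsp.symm
    · rw [SP, half_mul_ev hb, half_mul_not_ev ha] at hsp
      exact half_ne_zero hsp
  · by_cases he : Ev s
    · simp [he, hev s he a b]
    · simp [he, hodd s he]

theorem height_u (h4 : 4 ≤ h) {r : ZMod (2 * h)} (hr : ¬ Ev r) {χ : ι} (h0 : Ht χ ≠ 0) {c : ℤ}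
    (hy : (N χ r - c) ^ 2 = 1) (hev : ∀ s, Ev s → N χ s = N χ 0)
    (hodd : ∀ s, ¬ Ev s → s ≠ r → s ≠ σ * r → N χ s = c) : Ht χ = 1 := by
  by_contra hne
  obtain ⟨q, hq⟩ : ∃ q, h = 4 * q := by
    have hh := C.h_eq
    rcases m with - | m'
    · simp at hh; omega
    · exact ⟨2 ^ m', by rw [hh, pow_succ, pow_succ]; ring⟩
  set i : ZMod (2 * h) := (q : ZMod (2 * h)) with hidef
  have h4i : 4 * i = (h : ZMod (2 * h)) := by
    have := congrArg (Nat.cast : ℕ → ZMod (2 * h)) hq
    rw [this]; push_cast; rfl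
  have hm : Mid i := by
    constructor <;> intro e <;> rw [e] at h4i
    · rw [mul_zero] at h4i; exact half_ne_zero h4i.symm
    · exact half_ne_zero (by linear_combination (half_add (h := h)) * 2 - h4i)
  have e := C.col_eq_pair χ (fun s => if Ev s then N χ 0 else c) (fun a b hsp => ?_)
    (C.mid_of_not_ev hr) (fun s a b => ?_) hm
  · set A : ℂ := ZMod.stdAddChar (r * i) with hA
    set B : ℂ := ZMod.stdAddChar (σ * r * i) with hB
    have hA4 : A ^ 4 = -1 := by
      rw [hA, ← AddChar.map_nsmul_eq_pow, nsmul_eq_mul,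
        show ((4 : ℕ) : ZMod (2 * h)) * (r * i) = h * r by push_cast; linear_combination r * h4i,
        half_mul_not_ev hr, stdAddChar_half]
    have hAB : A ^ 2 * B ^ 2 = 1 := by
      rw [hA, hB, ← AddChar.map_nsmul_eq_pow, ← AddChar.map_nsmul_eq_pow, ← AddChar.map_add_eq_mul,
        nsmul_eq_mul, nsmul_eq_mul,
        show ((2 : ℕ) : ZMod (2 * h)) * (r * i) + ((2 : ℕ) : ZMod (2 * h)) * (σ * r * i) = 0 by
          push_cast; linear_combination (r * i) * C.σ_two,
        AddChar.map_zero_eq_one]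
    have hsum : A ^ 2 + B ^ 2 = 0 := by
      have hA0 : A ^ 2 ≠ 0 := fun e => by
        rw [show A ^ 4 = A ^ 2 * A ^ 2 by ring, e] at hA4; norm_num at hA4
      apply mul_left_cancel₀ hA0
      linear_combination hA4 + hAB
    have hprod : A * B = 1 ∨ A * B = -1 := sq_eq_one_iff.1 (by rw [mul_pow, hAB])
    have hy' : ((N χ r - c : ℤ) : ℂ) ^ 2 = 1 := by rw [← Int.cast_pow, hy, Int.cast_one]
    have hcol : col N i χ ^ 2 = 2 * (A * B) := by
      rw [e]
      simp only [hr, if_false]
      linear_combination (A + B) ^ 2 * hy' + hsum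
    rcases hprod with hp | hp <;> rw [hp] at hcol
    · exact (C.small χ (by omega) i hm).1 (by rw [hcol]; ring)
    · exact (C.small χ (by omega) i hm).2.1 (by rw [hcol]; ring)
  · by_cases ha : Ev a <;> by_cases hb : Ev b <;> simp [ha, hb] <;> exfalso
    · rw [SP, half_mul_ev ha, half_mul_not_ev hb] at hsp
      exact half_ne_zero hsp.symm
    · rw [SP, half_mul_ev hb, half_mul_not_ev ha] at hsp
      exact half_ne_zero hsp
  · by_cases he : Ev s
    · simp [he, hev s he]
    · simp [he, hodd s he a b]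

theorem sign_diff {ε : ι → ℤ} (hε : Signs N ε) (χ : ι) {r s : ZMod (2 * h)} (hsp : SP r s)
    (hne : (Ev r ∧ ε χ = -1) ∨ (¬ Ev r ∧ ε χ = 1)) : N χ r = N χ s := by
  have hm : ((2 * h : ℕ) : ℂ) ≠ 0 := Nat.cast_ne_zero.2 (NeZero.ne _)
  have hsign : ∀ i : ZMod (2 * h), col N (i + (h : ZMod (2 * h))) χ *
      dcoef r s (i + (h : ZMod (2 * h))) = -(col N i χ * dcoef r s i) := by
    intro i
    by_cases hi : Mid i
    · rw [(hε χ).2 i hi, dcoef, dcoef]
      have e1 : ∀ t : ZMod (2 * h), (h : ZMod (2 * h)) * t = h * r →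
          ZMod.stdAddChar (-(t * (i + (h : ZMod (2 * h))))) =
          ZMod.stdAddChar (-(t * i)) * ZMod.stdAddChar ((h : ZMod (2 * h)) * r) := fun t ht => by
        rw [← AddChar.map_add_eq_mul]
        congr 1
        rw [mul_add, neg_add, mul_comm t (h : ZMod (2 * h)), ht]
        have : -((h : ZMod (2 * h)) * r) = (h : ZMod (2 * h)) * r := by
          rw [← neg_mul, neg_half]
        rw [this]
      rw [e1 r rfl, e1 s hsp.symm]
      rcases hne with ⟨he, e⟩ | ⟨he, e⟩ <;> rw [e]
      · rw [half_mul_ev he, AddChar.map_zero_eq_one]; push_cast; ring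
      · rw [half_mul_not_ev he, stdAddChar_half]; push_cast; ring
    · rw [dcoef_eq_zero hsp hi, dcoef_eq_zero hsp (fun e => hi (mid_add_half.1 e))]; ring
  have hsum : ∑ i, col N i χ * dcoef r s i = 0 := by
    have := Fintype.sum_equiv (Equiv.addRight (h : ZMod (2 * h)))
      (fun i => col N (i + (h : ZMod (2 * h))) χ * dcoef r s (i + (h : ZMod (2 * h))))
      (fun i => col N i χ * dcoef r s i) fun i => rfl
    simp only [hsign, Finset.sum_neg_distrib] at this
    linear_combination -(1 / 2 : ℂ) * this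
  have h1 := card_mul_diff N χ r s
  rw [show ∑ i, col N i χ * (ZMod.stdAddChar (-(r * i)) - ZMod.stdAddChar (-(s * i))) =
    ∑ i, col N i χ * dcoef r s i from rfl, hsum, mul_eq_zero] at h1
  exact sub_eq_zero.1 (Int.cast_eq_zero.1 (h1.resolve_left hm))

theorem sign_even {ε : ι → ℤ} (hε : Signs N ε) {χ : ι} {r : ZMod (2 * h)} (hr : Ev r)
    (hne : N χ r - N χ 0 ≠ 0) : ε χ = 1 :=
  (hε χ).1.resolve_right fun e =>
    hne (sub_eq_zero.2 (C.sign_diff hε χ (sp_ev hr ⟨0, by rw [mul_zero]⟩) (Or.inl ⟨hr, e⟩)))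

theorem sign_odd {ε : ι → ℤ} (hε : Signs N ε) {χ : ι} {r s : ZMod (2 * h)} (hr : ¬ Ev r)
    (hs : ¬ Ev s) (hne : N χ r ≠ N χ s) : ε χ = -1 :=
  (hε χ).1.resolve_left fun e => hne (C.sign_diff hε χ (sp_odd hr hs) (Or.inr ⟨hr, e⟩))

theorem sign_zero {ε : ι → ℤ} (hε : Signs N ε) {χ : ι} (h0 : Ht χ = 0) : ε χ = 1 :=
  C.sign_even hε C.ev_h fun e => by
    have := C.top_props.2.1 χ h0
    rw [e] at this
    norm_num at this

/-- A generic shape from the set of the members of height one. -/
theorem generic_of (T1 : Finset ι) (h1 : ∀ χ ∈ T1, Ht χ = 1)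
    (hout : ∀ χ, Ht χ ≠ 0 → χ ∉ T1 → ∀ i, Mid i → col N i χ = 0)
    (hcard : 4 ≤ h → T1.card = h - 1) (hnil : h = 2 → T1 = ∅)
    (hplus : ∀ ε, Signs N ε → h / 2 - 1 ≤ (T1.filter fun χ => ε χ = 1).card) :
    Generic h N Ht Z m := by
  obtain ⟨hS4, -, -⟩ := C.top_props
  set S := Finset.univ.filter fun χ => Ht χ = 0 with hS
  have hext : ∀ χ, Ht χ ≠ 0 → χ ∉ T1 → Ht χ = m + 1 := fun χ a b =>
    (C.extra_props a (hout χ a b)).2.2
  have hdisj : Disjoint S T1 := Finset.disjoint_left.2 fun χ a b => by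
    rw [hS, Finset.mem_filter] at a
    rw [h1 χ b] at a
    exact one_ne_zero a.2
  set E := Finset.univ \ (S ∪ T1) with hE
  have hk : Fintype.card ι = E.card + (4 + T1.card) := by
    rw [← Finset.card_univ, ← hS4, ← Finset.card_union_of_disjoint hdisj, hE,
      Finset.card_sdiff_add_card_eq_card (Finset.subset_univ _)]
  have hEm : ∀ χ ∈ E, Ht χ ≠ 0 ∧ χ ∉ T1 := fun χ hχ => by
    simp only [hE, hS, Finset.mem_sdiff, Finset.mem_union, Finset.mem_filter, Finset.mem_univ,
      true_and, not_or] at hχ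
    exact hχ
  have hh := C.h_eq
  refine ⟨hS4, fun χ => ?_, fun h4 => ?_, by omega, fun h4 => ?_, fun lz hlz => ?_, fun ε hε => ?_⟩
  · by_cases a : Ht χ = 0
    · exact Or.inl a
    by_cases b : χ ∈ T1
    · exact Or.inr (Or.inl (h1 χ b))
    · exact Or.inr (Or.inr (hext χ a b))
  · rw [hk, hcard h4]; omega
  · rw [← hcard h4]
    congr 1
    ext χ
    simp only [Finset.mem_filter, Finset.mem_univ, true_and]
    refine ⟨fun e => ?_, h1 χ⟩
    by_contra hn
    have := hext χ (by omega) hn
    rcases m with - | m'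
    · simp at hh; omega
    · omega
  · have hZ : ZOrth Z E := by
      refine ⟨fun χ _ => (C.Z_self_pos χ).ne', fun χ hχ ψ hψ hne => ?_⟩
      obtain ⟨a, b⟩ := hEm χ hχ
      exact (C.extra_props a (hout χ a b)).2.1 ψ (hEm ψ hψ).1 (Ne.symm hne)
    refine ⟨fun h4 => ?_, fun h2 => ?_⟩
    · obtain ⟨w, hw⟩ : T1.Nonempty := Finset.card_pos.1 (by rw [hcard h4]; omega)
      have hwE : w ∉ E := fun e => (hEm w e).2 hw
      have hZ' : ZOrth Z (insert w E) := by
        have key : ∀ χ ∈ E, Z χ w = 0 := fun χ hχ => by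
          obtain ⟨a, b⟩ := hEm χ hχ
          exact (C.extra_props a (hout χ a b)).2.1 w (by rw [h1 w hw]; exact one_ne_zero)
            fun e => hwE (e ▸ hχ)
        refine ⟨fun χ _ => (C.Z_self_pos χ).ne', fun χ hχ ψ hψ hne => ?_⟩
        rcases Finset.mem_insert.1 hχ with rfl | hχ' <;>
          rcases Finset.mem_insert.1 hψ with rfl | hψ'
        · exact absurd rfl hne
        · rw [C.Z_symm]; exact key ψ hψ'
        · exact key χ hχ'
        · exact hZ.2 χ hχ' ψ hψ' hne
      have := hlz _ hZ'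
      rw [Finset.card_insert_of_notMem hwE] at this
      rw [hk, hcard h4]
      omega
    · have := hlz _ hZ
      rw [hk, hnil h2, Finset.card_empty]
      omega
  · have hsub : S ∪ T1.filter (fun χ => ε χ = 1) ⊆ Finset.univ.filter fun χ => ε χ = 1 := by
      intro χ hχ
      refine Finset.mem_filter.2 ⟨Finset.mem_univ _, ?_⟩
      rcases Finset.mem_union.1 hχ with a | a
      · exact C.sign_zero hε (Finset.mem_filter.1 a).2
      · exact (Finset.mem_filter.1 a).2
    have := Finset.card_le_card hsub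
    rw [Finset.card_union_of_disjoint (hdisj.mono_right (Finset.filter_subset _ _)), hS4] at this
    have := hplus ε hε
    rcases m with - | m'
    · simp at hh; omega
    · rw [pow_succ, pow_succ] at hh
      have := Nat.one_le_two_pow (n := m')
      omega

theorem odds_two (h2 : h = 2) {r : ZMod (2 * h)} (hr : ¬ Ev r) : r = 1 ∨ r = σ * 1 := by
  have e : ({1, σ * 1} : Finset (ZMod (2 * h))) = odds h := by
    refine Finset.eq_of_subset_of_card_le (fun s hs => ?_) ?_
    · simp only [Finset.mem_insert, Finset.mem_singleton] at hs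
      rcases hs with rfl | rfl
      · exact mem_odds.2 C.not_ev_one
      · exact C.σ_mem_odds (mem_odds.2 C.not_ev_one)
    · rw [card_odds, Finset.card_pair ((C.σ_fix 1).1 (C.mid_of_not_ev C.not_ev_one)).symm, h2]
  have : r ∈ ({1, σ * 1} : Finset (ZMod (2 * h))) := e ▸ mem_odds.2 hr
  simpa using this

/-- The possible shapes. -/
theorem shape : Generic h N Ht Z m ∨ Exceptional h N := by
  obtain ⟨hS4, ht1, ht0⟩ := C.top_props
  set S := Finset.univ.filter fun χ => Ht χ = 0 with hS
  have hE0 : Ev (0 : ZMod (2 * h)) := ⟨0, by rw [mul_zero]⟩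
  have hh := C.h_eq
  by_cases h4 : 4 ≤ h
  swap
  · have h2 : h = 2 := by
      rcases m with - | m'
      · simpa using hh
      · rw [pow_succ, pow_succ] at hh
        have := Nat.one_le_two_pow (n := m')
        omega
    refine Or.inl (C.generic_of ∅ (by simp) (fun χ h0 _ i hi => ?_) (fun e => absurd e h4)
      (fun _ => rfl) fun ε _ => by subst h2; simp)
    refine C.col_zero_of_const (fun r hr => ?_) (fun r hr => ?_) hi
    · by_cases hm : Mid r
      · exfalso
        have hc := C.card_evs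
        have := Finset.card_pos.2 ⟨r, mem_evs.2 ⟨hr, hm⟩⟩
        omega
      · rcases not_mid_iff.1 hm with rfl | rfl
        · rfl
        · exact sub_eq_zero.1 (ht0 χ h0)
    · rcases C.odds_two h2 hr with rfl | rfl
      · rfl
      · rw [C.symm]
  obtain ⟨w, hw⟩ := C.exists_w
  obtain ⟨b, η, u, hη, hu, hinj⟩ := C.exists_u h4
  have hη0 : η ≠ 0 := by rcases hη with e | e <;> rw [e] <;> norm_num
  have hydiff : ∀ r ∈ odds h, ∀ s ∈ odds h, ∀ χ, N χ r - N χ s =
      (if χ = u r then η else 0) - if χ = u s then η else 0 := fun r hr s hs χ => by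
    rw [hu r hr χ, hu s hs χ]; ring
  have hother : ∀ r ∈ odds h, ∃ s ∈ odds h, u r ≠ u s := fun r hr => by
    by_contra hn
    push Not at hn
    have : odds h ⊆ {r, σ * r} := fun s hs => by
      simpa using (hinj r hr s hs).1 (hn s hs)
    have := (Finset.card_le_card this).trans Finset.card_le_two
    rw [card_odds] at this
    omega
  have hconst : ∀ r ∈ odds h, ∀ s ∈ odds h, u r ≠ u s → ∀ x : ZMod (2 * h), Ev x →
      N (u r) x - N (u r) 0 = N (u s) x - N (u s) 0 := by
    intro r hr s hs hne x hx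
    have e := C.diff_inner (sp_odd (mem_odds.1 hr) (mem_odds.1 hs)) (sp_ev hx hE0)
    have z : ∀ a ∈ odds h, ∀ y, Ev y → dl σ a y = 0 := fun a ha y hy =>
      C.dl_eq_zero (fun e => mem_odds.1 ha (e ▸ hy))
        fun e => mem_odds.1 ha (e ▸ C.ev_σ'.2 hy)
    rw [z r hr x hx, z r hr 0 hE0, z s hs x hx, z s hs 0 hE0] at e
    simp only [hydiff r hr s hs, sub_mul, ite_mul, zero_mul, Finset.sum_sub_distrib,
      Finset.sum_ite_eq', Finset.mem_univ, if_true, sub_self, add_zero] at e
    exact mul_left_cancel₀ hη0 (by linarith)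
  set U := (odds h).image u with hUdef
  have hU : 2 * U.card = h := (C.two_mul_card_image (odds h) u (fun r => C.σ_mem_odds)
    (fun r hr => C.mid_of_not_ev (mem_odds.1 hr)) hinj).trans card_odds
  set W := (evs h).image w with hWdef
  have hedge : ∀ r, edge N Ht r ⊆ S := fun r χ hχ =>
    Finset.mem_filter.2 ⟨Finset.mem_univ _, (Finset.mem_filter.1 hχ).2.1⟩
  -- the location of the members at the odd exponents
  have hloc : (∀ r ∈ odds h, Ht (u r) ≠ 0) ∨ (h = 4 ∧ ∀ r ∈ odds h, Ht (u r) = 0) := by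
    by_cases hA : ∀ r ∈ odds h, Ht (u r) ≠ 0
    · exact Or.inl hA
    push Not at hA
    obtain ⟨r, hr, hr0⟩ := hA
    have hall : ∀ s ∈ odds h, Ht (u s) = 0 := fun s hs => by
      by_cases e : u r = u s
      · rw [← e]; exact hr0
      by_contra hne
      have := hconst r hr s hs e h C.ev_h
      rw [ht0 _ hne] at this
      have := ht1 _ hr0
      rw [‹N (u r) h - N (u r) 0 = 0›] at this
      norm_num at this
    have hsub : U ⊆ S := Finset.image_subset_iff.2 fun s hs =>
      Finset.mem_filter.2 ⟨Finset.mem_univ _, hall s hs⟩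
    have hUle : U.card ≤ 4 := hS4 ▸ Finset.card_le_card hsub
    refine Or.inr ⟨?_, hall⟩
    by_contra h4'
    have hm : m = 2 := by
      rcases m with - | - | - | m'
      · simp at hh; omega
      · simp at hh; omega
      · rfl
      · simp only [pow_succ] at hh
        have := Nat.one_le_two_pow (n := m')
        omega
    have hU4 : U = S := Finset.eq_of_subset_of_card_le hsub (by rw [hS4]; subst hm; simp at hh; omega)
    obtain ⟨x, hx⟩ : (evs h).Nonempty := Finset.card_pos.1 (by rw [C.card_evs]; omega)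
    obtain ⟨-, -, g3, -⟩ := hw x hx
    obtain ⟨a, ha⟩ : (edge N Ht x).Nonempty := Finset.card_pos.1 (by omega)
    obtain ⟨r1, hr1, rfl⟩ := Finset.mem_image.1 (hU4.symm ▸ hedge x ha : a ∈ U)
    have hfull : S ⊆ edge N Ht x := fun χ hχ => by
      obtain ⟨s, hs, rfl⟩ := Finset.mem_image.1 (hU4.symm ▸ hχ : χ ∈ U)
      refine Finset.mem_filter.2 ⟨Finset.mem_univ _, hall s hs, ?_⟩
      by_cases e : u r1 = u s
      · rw [← e]; exact (Finset.mem_filter.1 ha).2.2
      · rw [← hconst r1 hr1 s hs e x (mem_evs.1 hx).1]; exact (Finset.mem_filter.1 ha).2.2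
    have := Finset.card_le_card hfull
    omega
  -- the shapes of the pairs at the even exponents
  have hgen : (∀ r ∈ evs h, ∀ s ∈ evs h, (w r = w s ↔ s = r ∨ s = σ * r)) ∨
      (h = 8 ∧ W.card = 1 ∧ ∀ B ∈ S.powersetCard 2, ∀ f : ι → ℤ, ∑ χ ∈ S, f χ = 0 →
        (∀ r ∈ evs h, ∑ χ ∈ edge N Ht r, f χ = 0) → ∑ χ ∈ B, f χ = 0) := by
    by_cases hA : ∀ r ∈ evs h, ∀ s ∈ evs h, (w r = w s ↔ s = r ∨ s = σ * r)
    · exact Or.inl hA
    have hback : ∀ r ∈ evs h, ∀ s, s = r ∨ s = σ * r → w r = w s := by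
      rintro r hr s (rfl | rfl)
      · rfl
      · exact (hw r hr).2.2.2.2.2.symm
    push Not at hA
    obtain ⟨r, hr, s, hs, hA⟩ := hA
    obtain ⟨he, h1, h2⟩ : w r = w s ∧ s ≠ r ∧ s ≠ σ * r := by
      rcases hA with ⟨e, g⟩ | ⟨e, g⟩
      · exact ⟨e, g.1, g.2⟩
      · exact absurd (hback r hr s g) e
    have hAne : edge N Ht r ≠ edge N Ht s := by
      rcases C.edge_or hw hr hs h1 h2 with ⟨-, g⟩ | ⟨g, -⟩
      · exact absurd he g
      · exact g
    have hall : ∀ x ∈ evs h, w x = w r := fun x hx => by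
      by_cases a : x = r
      · rw [a]
      by_cases b : x = σ * r
      · exact (hback r hr x (Or.inr b)).symm
      by_cases c : x = s
      · rw [c, he]
      by_cases d' : x = σ * s
      · rw [← hback s hs x (Or.inr d'), he]
      rcases C.edge_or hw hr hx a b with ⟨g, k⟩ | ⟨-, k⟩
      · rcases C.edge_or hw hs hx c d' with ⟨g', -⟩ | ⟨-, k'⟩
        · exact absurd (g.trans g'.symm) hAne
        · exact absurd (he.trans k') k
      · exact k.symm
    have hinjA : ∀ x ∈ evs h, ∀ y ∈ evs h,
        (edge N Ht x = edge N Ht y ↔ y = x ∨ y = σ * x) := fun x hx y hy => by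
      constructor
      · intro e
        by_contra hne
        push Not at hne
        rcases C.edge_or hw hx hy hne.1 hne.2 with ⟨-, k⟩ | ⟨k, -⟩
        · exact k ((hall x hx).trans (hall y hy).symm)
        · exact k e
      · rintro (rfl | rfl)
        · rfl
        · rw [C.edge_σ]
    set F := (evs h).image (edge N Ht) with hF
    have hF2 : 2 * F.card = h - 2 := (C.two_mul_card_image (evs h) (edge N Ht)
      (fun x => C.σ_mem_evs) (fun x hx => (mem_evs.1 hx).2) hinjA).trans C.card_evs
    set F' := F.image fun A => S \ A with hF'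
    have hFsub : F ⊆ S.powersetCard 2 := Finset.image_subset_iff.2 fun x hx =>
      Finset.mem_powersetCard.2 ⟨hedge x, (hw x hx).2.2.1⟩
    have hF'sub : F' ⊆ S.powersetCard 2 := Finset.image_subset_iff.2 fun A hA => by
      obtain ⟨g1, g2⟩ := Finset.mem_powersetCard.1 (hFsub hA)
      exact Finset.mem_powersetCard.2 ⟨Finset.sdiff_subset, by
        rw [Finset.card_sdiff_of_subset g1, g2, hS4]⟩
    have hF'card : F'.card = F.card := Finset.card_image_of_injOn fun A hA B hB e => by
      have g1 := (Finset.mem_powersetCard.1 (hFsub hA)).1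
      have g2 := (Finset.mem_powersetCard.1 (hFsub hB)).1
      rw [← Finset.sdiff_sdiff_eq_self g1, ← Finset.sdiff_sdiff_eq_self g2]
      exact congrArg (fun X => S \ X) e
    have hdis : Disjoint F F' := Finset.disjoint_left.2 fun A hA hA' => by
      obtain ⟨x, hx, rfl⟩ := Finset.mem_image.1 hA
      obtain ⟨B, hB, e⟩ := Finset.mem_image.1 hA'
      obtain ⟨y, hy, rfl⟩ := Finset.mem_image.1 hB
      have hne : ¬ (y = x ∨ y = σ * x) := fun g => by
        have := (hinjA x hx y hy).2 g
        rw [← this] at e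
        obtain ⟨a, ha⟩ : (edge N Ht x).Nonempty :=
          Finset.card_pos.1 (by rw [(hw x hx).2.2.1]; norm_num)
        have ha' := ha
        rw [← e] at ha'
        exact (Finset.mem_sdiff.1 ha').2 ha
      push Not at hne
      -- two members would share their member of positive height
      have hsum : ∑ χ, (N χ x - N χ 0) * (N χ y - N χ 0) = 2 := by
        rw [C.diff_inner (sp_ev (mem_evs.1 hx).1 hE0) (sp_ev (mem_evs.1 hy).1 hE0),
          (C.dl_mid_fixed (mem_evs.1 hx).2 fun e => e.1 rfl).1,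
          (C.dl_mid_fixed (mem_evs.1 hy).2 fun e => e.1 rfl).2, C.dl_fixed fun e => e.1 rfl,
          C.dl_eq_zero (Ne.symm hne.1) fun g => hne.2 (by rw [g, C.σ_σ'])]
        norm_num
      rw [Finset.sum_eq_single (w x) (fun χ _ hne' => ?_) (fun g => absurd (Finset.mem_univ _) g)]
        at hsum
      · have a2 := (hw x hx).2.1
        have b2 := (hw y hy).2.1
        rw [(hall y hy).trans (hall x hx).symm] at b2
        rcases sq_eq_one_iff.1 a2 with g | g <;> rcases sq_eq_one_iff.1 b2 with g' | g' <;>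
          rw [g, g'] at hsum <;> norm_num at hsum
      · by_cases h0 : Ht χ = 0
        · by_cases hxm : χ ∈ edge N Ht x
          · have hym : χ ∉ edge N Ht y := by
              rw [← e, Finset.mem_sdiff] at hxm
              exact hxm.2
            rw [show N χ y - N χ 0 = 0 by simpa [edge, h0] using hym, mul_zero]
          · rw [show N χ x - N χ 0 = 0 by simpa [edge, h0] using hxm, zero_mul]
        · rw [(hw x hx).2.2.2.2.1 χ h0 hne', zero_mul]
    have hunion := Finset.card_le_card (Finset.union_subset hFsub hF'sub)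
    rw [Finset.card_union_of_disjoint hdis, hF'card, Finset.card_powersetCard, hS4,
      show Nat.choose 4 2 = 6 from rfl] at hunion
    have h8 : h = 8 := by
      have hne4 : h ≠ 4 := fun e => by
        have hc := C.card_evs
        have hsub : ({r, σ * r, s} : Finset (ZMod (2 * h))) ⊆ evs h := by
          intro a ha
          simp only [Finset.mem_insert, Finset.mem_singleton] at ha
          rcases ha with rfl | rfl | rfl
          · exact hr
          · exact C.σ_mem_evs hr
          · exact hs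
        have := Finset.card_le_card hsub
        rw [Finset.card_insert_of_notMem (by
            simp only [Finset.mem_insert, Finset.mem_singleton, not_or]
            exact ⟨((C.σ_fix r).1 (mem_evs.1 hr).2).symm, Ne.symm h1⟩),
          Finset.card_pair (Ne.symm h2), hc, e] at this
        norm_num at this
      rcases m with - | - | - | m'
      · simp at hh; omega
      · simp at hh; omega
      · simpa using hh
      · simp only [pow_succ] at hh
        have := Nat.one_le_two_pow (n := m')
        omega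
    have hWeq : W = {w r} := by
      refine Finset.Subset.antisymm (Finset.image_subset_iff.2 fun x hx =>
        Finset.mem_singleton.2 (hall x hx)) (Finset.singleton_subset_iff.2 ?_)
      exact Finset.mem_image_of_mem w hr
    have hfull : S.powersetCard 2 = F ∪ F' := (Finset.eq_of_subset_of_card_le
      (Finset.union_subset hFsub hF'sub) (by
        rw [Finset.card_union_of_disjoint hdis, hF'card, Finset.card_powersetCard, hS4,
          show Nat.choose 4 2 = 6 from rfl]
        omega)).symm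
    refine Or.inr ⟨h8, by rw [hWeq, Finset.card_singleton], fun B hB f hfS hfA => ?_⟩
    rw [hfull, Finset.mem_union] at hB
    rcases hB with hB | hB
    · obtain ⟨x, hx, rfl⟩ := Finset.mem_image.1 hB
      exact hfA x hx
    · obtain ⟨A, hA, rfl⟩ := Finset.mem_image.1 hB
      obtain ⟨x, hx, rfl⟩ := Finset.mem_image.1 hA
      have := Finset.sum_sdiff (hedge x) (f := f)
      rw [hfS, hfA x hx, add_zero] at this
      exact this
  -- the sums of a row of a member with zero columns
  have hrow : ∀ e, Ht e ≠ 0 → (∀ i, Mid i → col N i e = 0) →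
      (∀ r ∈ evs h, w r ≠ e) →
      ∑ χ ∈ S, Z e χ * (N χ h - N χ 0) = 0 ∧
        ∀ r ∈ evs h, ∑ χ ∈ edge N Ht r, Z e χ * (N χ h - N χ 0) = 0 := by
    intro e he hcol hne
    obtain ⟨-, hz, -⟩ := C.extra_props he hcol
    refine ⟨?_, fun r hr => ?_⟩
    · refine Eq.trans ?_ (C.Z_diff e (sp_ev C.ev_h hE0))
      exact Finset.sum_subset (Finset.subset_univ _) fun χ _ hχ => by
        rw [ht0 χ (by simpa [hS] using hχ), mul_zero]
    · obtain ⟨g1, -, -, g4, g5, -⟩ := hw r hr
      refine Eq.trans ?_ (C.Z_diff e (sp_ev (mem_evs.1 hr).1 hE0))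
      refine Eq.trans (Finset.sum_congr rfl fun χ hχ => ?_)
        (Finset.sum_subset (Finset.subset_univ (edge N Ht r)) fun χ _ hχ => ?_)
      · obtain ⟨-, a, b'⟩ := Finset.mem_filter.1 hχ
        rw [g4 χ a b']
      · by_cases h0 : Ht χ = 0
        · rw [show N χ r - N χ 0 = 0 by simpa [edge, h0] using hχ, mul_zero]
        · by_cases hwr : χ = w r
          · rw [hwr, hz (w r) g1 (hne r hr), zero_mul]
          · rw [g5 χ h0 hwr, mul_zero]
  have hout : ∀ χ, Ht χ ≠ 0 → χ ∉ W → χ ∉ U → ∀ i, Mid i → col N i χ = 0 := by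
    intro χ h0 hW' hU' i hi
    refine C.col_zero_of_const (fun r hr => ?_) (fun r hr => ?_) hi
    · by_cases hm : Mid r
      · exact sub_eq_zero.1 ((hw r (mem_evs.2 ⟨hr, hm⟩)).2.2.2.2.1 χ h0 fun e =>
          hW' (Finset.mem_image.2 ⟨r, mem_evs.2 ⟨hr, hm⟩, e.symm⟩))
      · rcases not_mid_iff.1 hm with rfl | rfl
        · rfl
        · exact sub_eq_zero.1 (ht0 χ h0)
    · have e := hydiff r (mem_odds.2 hr) 1 (mem_odds.2 C.not_ev_one) χ
      rw [if_neg fun g => hU' (Finset.mem_image.2 ⟨r, mem_odds.2 hr, g.symm⟩),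
        if_neg fun g => hU' (Finset.mem_image.2 ⟨1, mem_odds.2 C.not_ev_one, g.symm⟩)] at e
      omega
  have hWS : ∀ χ ∈ W, Ht χ ≠ 0 := fun χ hχ => by
    obtain ⟨r, hr, rfl⟩ := Finset.mem_image.1 hχ
    exact (hw r hr).1
  have hWsign : ∀ ε, Signs N ε → ∀ χ ∈ W, ε χ = 1 := fun ε hε χ hχ => by
    obtain ⟨r, hr, rfl⟩ := Finset.mem_image.1 hχ
    refine C.sign_even hε (mem_evs.1 hr).1 fun e => ?_
    have := (hw r hr).2.1
    rw [e] at this
    norm_num at this
  have hUsign : ∀ ε, Signs N ε → ∀ χ ∈ U, ε χ = -1 := fun ε hε χ hχ => by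
    obtain ⟨r, hr, rfl⟩ := Finset.mem_image.1 hχ
    obtain ⟨s, hs, hne⟩ := hother r hr
    refine C.sign_odd hε (mem_odds.1 hr) (mem_odds.1 hs) fun e => ?_
    have := hydiff r hr s hs (u r)
    rw [if_pos rfl, if_neg hne, e, sub_self, sub_zero] at this
    exact hη0 this.symm
  rcases hloc with hnot | ⟨h4', hin⟩
  · have hUW : ∀ r ∈ odds h, ∀ x ∈ evs h, N (u r) x - N (u r) 0 = 0 := by
      intro r hr x hx
      obtain ⟨s, hs, hne⟩ := hother r hr
      by_contra hxne
      have e1 : u r = w x := by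
        by_contra g
        exact hxne ((hw x hx).2.2.2.2.1 _ (hnot r hr) g)
      have e2 : u s = w x := by
        by_contra g
        have := (hw x hx).2.2.2.2.1 _ (hnot s hs) g
        rw [← hconst r hr s hs hne x (mem_evs.1 hx).1] at this
        exact hxne this
      exact hne (e1.trans e2.symm)
    have hdisWU : Disjoint W U := Finset.disjoint_left.2 fun χ hχ hχ' => by
      obtain ⟨x, hx, rfl⟩ := Finset.mem_image.1 hχ
      obtain ⟨r, hr, e⟩ := Finset.mem_image.1 hχ'
      have := hUW r hr x hx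
      rw [e] at this
      have h2 := (hw x hx).2.1
      rw [this] at h2
      norm_num at h2
    rcases hgen with hg | ⟨h8, hW1, hsix⟩
    · refine Or.inl (C.generic_of (W ∪ U) (fun χ hχ => ?_) (fun χ a b' => ?_) (fun _ => ?_)
        (fun e => by omega) fun ε hε => ?_)
      · rcases Finset.mem_union.1 hχ with g | g
        · obtain ⟨x, hx, rfl⟩ := Finset.mem_image.1 g
          refine C.height_w hx (hw x hx).1 (hw x hx).2.1 (fun s hs a b' => ?_) fun s hs => ?_
          · by_cases hm : Mid s
            · refine sub_eq_zero.1 ((hw s (mem_evs.2 ⟨hs, hm⟩)).2.2.2.2.1 _ (hw x hx).1 fun e => ?_)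
              exact ((hg x hx s (mem_evs.2 ⟨hs, hm⟩)).1 e).elim a b'
            · rcases not_mid_iff.1 hm with rfl | rfl
              · rfl
              · exact sub_eq_zero.1 (ht0 _ (hw x hx).1)
          · have e := hydiff s (mem_odds.2 hs) 1 (mem_odds.2 C.not_ev_one) (w x)
            have nU : ∀ r ∈ odds h, w x ≠ u r := fun r hr e =>
              Finset.disjoint_left.1 hdisWU g (Finset.mem_image.2 ⟨r, hr, e.symm⟩)
            rw [if_neg (nU s (mem_odds.2 hs)), if_neg (nU 1 (mem_odds.2 C.not_ev_one))] at e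
            omega
        · obtain ⟨r, hr, rfl⟩ := Finset.mem_image.1 g
          refine C.height_u h4 (mem_odds.1 hr) (hnot r hr) (c := b (u r)) ?_ (fun s hs => ?_)
            fun s hs a b' => ?_
          · rw [hu r hr, if_pos rfl, add_sub_cancel_left]
            rcases hη with e | e <;> rw [e] <;> norm_num
          · by_cases hm : Mid s
            · exact sub_eq_zero.1 (hUW r hr s (mem_evs.2 ⟨hs, hm⟩))
            · rcases not_mid_iff.1 hm with rfl | rfl
              · rfl
              · exact sub_eq_zero.1 (ht0 _ (hnot r hr))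
          · rw [hu s (mem_odds.2 hs), if_neg, add_zero]
            intro e
            exact ((hinj r hr s (mem_odds.2 hs)).1 e).elim a b'
      · exact hout χ a (fun g => b' (Finset.mem_union_left _ g))
          fun g => b' (Finset.mem_union_right _ g)
      · have hW2 : 2 * W.card = h - 2 := (C.two_mul_card_image (evs h) w (fun x => C.σ_mem_evs)
          (fun x hx => (mem_evs.1 hx).2) hg).trans C.card_evs
        rw [Finset.card_union_of_disjoint hdisWU]
        omega
      · have hW2 : 2 * W.card = h - 2 := (C.two_mul_card_image (evs h) w (fun x => C.σ_mem_evs)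
          (fun x hx => (mem_evs.1 hx).2) hg).trans C.card_evs
        calc h / 2 - 1 ≤ W.card := by omega
          _ ≤ _ := Finset.card_le_card fun χ hχ =>
            Finset.mem_filter.2 ⟨Finset.mem_union_left _ hχ, hWsign ε hε χ hχ⟩
    · have hall : ∀ χ, χ ∈ S ∨ χ ∈ W ∨ χ ∈ U := fun χ => by
        by_contra hn
        push Not at hn
        obtain ⟨n1, n2, n3⟩ := hn
        have h0 : Ht χ ≠ 0 := by simpa [hS] using n1
        obtain ⟨g1, -, -⟩ := C.extra_props h0 (hout χ h0 n2 n3)
        obtain ⟨r1, r2⟩ := hrow χ h0 (hout χ h0 n2 n3) fun r hr e =>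
          n2 (Finset.mem_image.2 ⟨r, hr, e⟩)
        obtain ⟨a, ha⟩ := C.exists_zero
        have := all_zero_of_pairs (S := S) (f := fun ψ => Z χ ψ * (N ψ h - N ψ 0)) (by omega)
          (fun B hB => hsix B hB _ r1 r2) (a := a) (by simp [hS, ha])
        rcases mul_eq_zero.1 this with g | g
        · exact g1 a ha g
        · have := ht1 a ha
          rw [g] at this
          norm_num at this
      have hSdis : Disjoint S (W ∪ U) := Finset.disjoint_left.2 fun χ a b' => by
        rw [hS, Finset.mem_filter] at a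
        rcases Finset.mem_union.1 b' with g | g
        · exact hWS χ g a.2
        · obtain ⟨r, hr, rfl⟩ := Finset.mem_image.1 g
          exact hnot r hr a.2
      have hk : Fintype.card ι = 9 := by
        rw [← Finset.card_univ, show (Finset.univ : Finset ι) = S ∪ (W ∪ U) from
          Finset.ext fun χ => by simpa using hall χ, Finset.card_union_of_disjoint hSdis,
          Finset.card_union_of_disjoint hdisWU, hS4, hW1]
        omega
      refine Or.inr (Or.inl ⟨h8, hk, fun ε hε => ⟨?_, ?_⟩⟩)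
      · calc _ ≤ (S ∪ W).card := Finset.card_le_card fun χ hχ => by
              rcases hall χ with g | g | g
              · exact Finset.mem_union_left _ g
              · exact Finset.mem_union_right _ g
              · have e := hUsign ε hε χ g
                rw [(Finset.mem_filter.1 hχ).2] at e
                norm_num at e
          _ ≤ 5 := (Finset.card_union_le _ _).trans (by omega)
      · calc _ ≤ U.card := Finset.card_le_card fun χ hχ => by
              have e := (Finset.mem_filter.1 hχ).2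
              rcases hall χ with g | g | g
              · rw [C.sign_zero hε (Finset.mem_filter.1 g).2] at e; norm_num at e
              · rw [hWsign ε hε χ g] at e; norm_num at e
              · exact g
          _ ≤ 5 := by omega
  · have hUsub : U ⊆ S := Finset.image_subset_iff.2 fun s hs =>
      Finset.mem_filter.2 ⟨Finset.mem_univ _, hin s hs⟩
    obtain ⟨x, hx⟩ : (evs h).Nonempty := Finset.card_pos.1 (by rw [C.card_evs]; omega)
    obtain ⟨r, hr⟩ : (odds h).Nonempty := Finset.card_pos.1 (by rw [card_odds]; omega)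
    obtain ⟨s, hs, hne⟩ := hother r hr
    have hUcard : U.card = 2 := by omega
    have hUeq : U = {u r, u s} := by
      refine (Finset.eq_of_subset_of_card_le (Finset.insert_subset
        (Finset.mem_image_of_mem u hr) (Finset.singleton_subset_iff.2
          (Finset.mem_image_of_mem u hs))) ?_).symm
      rw [Finset.card_pair hne]
      exact hUcard.le
    have hWone : W = {w x} := by
      rcases hgen with hg | ⟨h8, -, -⟩
      · have hW2 : 2 * W.card = h - 2 := (C.two_mul_card_image (evs h) w (fun x => C.σ_mem_evs)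
          (fun x hx => (mem_evs.1 hx).2) hg).trans C.card_evs
        have hWcard : W.card = 1 := by omega
        refine (Finset.eq_of_subset_of_card_le (Finset.singleton_subset_iff.2
          (Finset.mem_image_of_mem w hx)) ?_).symm
        rw [Finset.card_singleton]
        exact hWcard.le
      · omega
    have hall : ∀ χ, χ ∈ S ∨ χ ∈ W := fun χ => by
      by_contra hn
      push Not at hn
      obtain ⟨n1, n2⟩ := hn
      have h0 : Ht χ ≠ 0 := by simpa [hS] using n1
      have n3 : χ ∉ U := fun g => n1 (hUsub g)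
      have hc := hout χ h0 n2 n3
      obtain ⟨g1, -, -⟩ := C.extra_props h0 hc
      obtain ⟨r1, r2⟩ := hrow χ h0 hc fun y hy e => n2 (Finset.mem_image.2 ⟨y, hy, e⟩)
      set f : ι → ℤ := fun ψ => Z χ ψ * (N ψ h - N ψ 0) with hf
      have hteq : N (u r) h - N (u r) 0 = N (u s) h - N (u s) 0 := hconst r hr s hs hne h C.ev_h
      have hfeq : f (u r) = f (u s) := by
        have e := C.Z_diff χ (sp_odd (mem_odds.1 hr) (mem_odds.1 hs))
        simp only [hydiff r hr s hs, mul_sub, mul_ite, mul_zero, Finset.sum_sub_distrib,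
          Finset.sum_ite_eq', Finset.mem_univ, if_true, ← sub_mul, mul_eq_zero, sub_eq_zero] at e
        simp only [hf, hteq, e.resolve_right hη0]
      have hUzero : f (u r) + f (u s) = 0 := by
        have hxc := hconst r hr s hs hne x (mem_evs.1 hx).1
        have hsumU : ∑ ψ ∈ U, f ψ = f (u r) + f (u s) := by rw [hUeq, Finset.sum_pair hne]
        rw [← hsumU]
        by_cases hex : N (u r) x - N (u r) 0 = 0
        · have hdis : Disjoint (edge N Ht x) U := Finset.disjoint_left.2 fun ψ a b' => by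
            have := (Finset.mem_filter.1 a).2.2
            rw [hUeq, Finset.mem_insert, Finset.mem_singleton] at b'
            rcases b' with rfl | rfl
            · exact this hex
            · exact this (hxc ▸ hex)
          have hun : edge N Ht x ∪ U = S := Finset.eq_of_subset_of_card_le
            (Finset.union_subset (hedge x) hUsub) (by
              rw [Finset.card_union_of_disjoint hdis, (hw x hx).2.2.1, hS4]; omega)
          rw [← hun, Finset.sum_union hdis, r2 x hx, zero_add] at r1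
          exact r1
        · have e : U = edge N Ht x := Finset.eq_of_subset_of_card_le (fun ψ hψ => by
            have hψ' := hψ
            rw [hUeq, Finset.mem_insert, Finset.mem_singleton] at hψ'
            refine Finset.mem_filter.2 ⟨Finset.mem_univ _, (Finset.mem_filter.1 (hUsub hψ)).2, ?_⟩
            rcases hψ' with rfl | rfl
            · exact hex
            · exact hxc ▸ hex) (by rw [(hw x hx).2.2.1]; omega)
          rw [e]
          exact r2 x hx
      have hzero : f (u r) = 0 := by omega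
      rcases mul_eq_zero.1 hzero with g | g
      · exact g1 _ (hin r hr) g
      · have := ht1 _ (hin r hr)
        rw [g] at this
        norm_num at this
    refine Or.inr (Or.inr ⟨h4', ?_, fun ε hε => ?_⟩)
    · rw [← Finset.card_univ, show (Finset.univ : Finset ι) = S ∪ W from
        Finset.ext fun χ => by simpa using hall χ, Finset.card_union_of_disjoint
          (Finset.disjoint_left.2 fun χ a b' => hWS χ b' (Finset.mem_filter.1 a).2), hS4, hWone,
        Finset.card_singleton]
    · have e1 := hUsign ε hε (u r) (Finset.mem_image_of_mem u hr)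
      rw [C.sign_zero hε (hin r hr)] at e1
      norm_num at e1

end Cols

end Ctx

end Cfsg.Agent.BlockTame
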