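import Cfsg.Agent.BlockTame.Fusion
import Cfsg.Agent.BlockTame.Arith
import Cfsg.Agent.CharInd.Induced
import Cfsg.Agent.Char.Linear

/-!
# A fusion stable character of the defect group
-/

set_option autoImplicit false
set_option maxHeartbeats 800000
set_option linter.unusedSectionVars false

noncomputable section

namespace Cfsg.Agent.BlockTame

open Cfsg Cfsg.Agent.BrauerPairs Cfsg.Agent.BlkStar Cfsg.Agent.FusionCount
open scoped ComplexConjugate Classical

universe u

variable {M : Ideal AlgInt} [M.IsPrime] [CharP (Block.ResF M) 2] {G : Type u} [Group G]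
  [Fintype G]

namespace Ctx

variable {h : ℕ} [NeZero (2 * h)] (D : Ctx M G h)

/-- The coordinates of the defect group. -/
def coordEquiv : ZMod (2 * h) ⊕ ZMod (2 * h) ≃ D.S.P :=
  Equiv.ofBijective (Sum.elim D.rot D.ref) ⟨by
    rintro (i | i) (j | j) e <;> simp only [Sum.elim_inl, Sum.elim_inr] at e
    · rw [D.rot_injective e]
    · exact absurd e.symm (D.ref_ne_rot j i)
    · exact absurd e (D.ref_ne_rot i j)
    · rw [D.ref_injective e], fun x => by
    rcases D.coord x with ⟨i, rfl⟩ | ⟨i, rfl⟩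
    · exact ⟨Sum.inl i, rfl⟩
    · exact ⟨Sum.inr i, rfl⟩⟩

theorem sum_coord (F : D.S.P → ℂ) : ∑ x, F x = ∑ i, F (D.rot i) + ∑ i, F (D.ref i) := by
  rw [← D.coordEquiv.sum_comp, Fintype.sum_sum_type]
  rfl

/-- The rotations as a homomorphism. -/
def rotHom : Multiplicative (ZMod (2 * h)) →* D.S.P where
  toFun i := D.rot i.toAdd
  map_one' := D.rot_zero
  map_mul' i j := D.rot_add i.toAdd j.toAdd

theorem rotHom_injective : Function.Injective D.rotHom := fun i j e =>
  Multiplicative.toAdd.injective (D.rot_injective e)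

/-- The faithful linear character of the rotations. -/
def lam : D.rotHom.range →* ℂ :=
  (ZMod.stdAddChar (N := 2 * h)).toMonoidHom.comp
    (MonoidHom.ofInjective D.rotHom_injective).symm.toMonoidHom

theorem rot_mem_range (i : ZMod (2 * h)) : D.rot i ∈ D.rotHom.range :=
  ⟨Multiplicative.ofAdd i, rfl⟩

theorem ref_not_mem_range (i : ZMod (2 * h)) : D.ref i ∉ D.rotHom.range := by
  rintro ⟨j, hj⟩
  exact D.ref_ne_rot i j.toAdd hj.symm

theorem extend_lam_rot (i : ZMod (2 * h)) :
    extendByZero D.rotHom.range (fun x => D.lam x) (D.rot i) = ZMod.stdAddChar i := by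
  rw [CharInd.extendByZero_mem _ _ (D.rot_mem_range i)]
  have : (MonoidHom.ofInjective D.rotHom_injective).symm ⟨D.rot i, D.rot_mem_range i⟩ =
      Multiplicative.ofAdd i := by
    rw [MulEquiv.symm_apply_eq]
    exact Subtype.ext rfl
  show (ZMod.stdAddChar (N := 2 * h)).toMonoidHom
    ((MonoidHom.ofInjective D.rotHom_injective).symm ⟨D.rot i, D.rot_mem_range i⟩) = _
  rw [this]
  rfl

theorem isCharacter_lam : IsCharacter D.rotHom.range fun x => D.lam x := by
  have e : (fun x => D.lam x) = fun x => ((D.lam.toHomUnits x : ℂˣ) : ℂ) := funext fun x =>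
    (MonoidHom.coe_toHomUnits D.lam x).symm
  rw [e]
  exact Char.isCharacter_of_irr (Char.isIrrCharacter_monoidHom _)

theorem card_range : Nat.card D.rotHom.range = 2 * h := by
  rw [Nat.card_congr (MonoidHom.ofInjective D.rotHom_injective).symm.toEquiv]
  exact Nat.card_zmod _

theorem ref_inv_rot_ref (i j : ZMod (2 * h)) :
    (D.ref j)⁻¹ * D.rot i * D.ref j = D.rot (D.σ * i) := by
  rw [mul_assoc, rot_mul_ref, inv_mul_eq_iff_eq_mul, ref_mul_rot, add_comm]

theorem ind_rot (i : ZMod (2 * h)) :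
    indFun D.rotHom.range (fun x => D.lam x) (D.rot i) =
      ZMod.stdAddChar i + ZMod.stdAddChar (D.σ * i) := by
  rw [CharInd.indFun_apply, D.card_range, D.sum_coord]
  simp only [D.ref_inv_rot_ref, show ∀ j, (D.rot j)⁻¹ * D.rot i * D.rot j = D.rot i from fun j => by
    rw [mul_assoc, D.commute_rot_rot, inv_mul_cancel_left], D.extend_lam_rot, Finset.sum_const,
    Finset.card_univ, ZMod.card, nsmul_eq_mul]
  rw [← mul_add, inv_mul_cancel_left₀ (Nat.cast_ne_zero.2 (NeZero.ne (2 * h)))]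

theorem ind_ref (i : ZMod (2 * h)) :
    indFun D.rotHom.range (fun x => D.lam x) (D.ref i) = 0 := by
  rw [CharInd.indFun_apply]
  refine mul_eq_zero_of_right _ (Finset.sum_eq_zero fun x _ => ?_)
  refine CharInd.extendByZero_notMem _ _ fun hm => D.ref_not_mem_range i ?_
  obtain ⟨k, hk⟩ := hm
  have e : D.ref i = x * D.rot k.toAdd * x⁻¹ := by
    rw [show D.rot k.toAdd = x⁻¹ * D.ref i * x from hk]
    group
  rcases D.coord x with ⟨j, rfl⟩ | ⟨j, rfl⟩
  · rw [e, D.commute_rot_rot, mul_inv_cancel_right]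
    exact D.rot_mem_range _
  · rw [e, show D.ref j * D.rot k.toAdd = D.rot (D.σ * k.toAdd) * D.ref j by
      rw [rot_mul_ref, ref_mul_rot, D.σ_σ, add_comm], mul_inv_cancel_right]
    exact D.rot_mem_range _

/-- The values of the linear character of the semidihedral case. -/
def epsFun (v : D.S.P) : ℂ :=
  Sum.elim (fun i => ZMod.stdAddChar ((h : ZMod (2 * h)) * i))
    (fun i => -ZMod.stdAddChar ((h : ZMod (2 * h)) * i)) (D.coordEquiv.symm v)

theorem epsFun_rot (i : ZMod (2 * h)) :
    D.epsFun (D.rot i) = ZMod.stdAddChar ((h : ZMod (2 * h)) * i) := by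
  rw [epsFun, show D.rot i = D.coordEquiv (Sum.inl i) from rfl, Equiv.symm_apply_apply]
  rfl

theorem epsFun_ref (i : ZMod (2 * h)) :
    D.epsFun (D.ref i) = -ZMod.stdAddChar ((h : ZMod (2 * h)) * i) := by
  rw [epsFun, show D.ref i = D.coordEquiv (Sum.inr i) from rfl, Equiv.symm_apply_apply]
  rfl

theorem half_mul_σ (i : ZMod (2 * h)) :
    (h : ZMod (2 * h)) * (D.σ * i) = (h : ZMod (2 * h)) * i := by
  by_cases hi : Ev i
  · rw [half_mul_ev hi, half_mul_ev (D.ev_σ.2 hi)]
  · rw [half_mul_not_ev hi, half_mul_not_ev fun e => hi (D.ev_σ.1 e)]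

theorem half_mul_ee : (h : ZMod (2 * h)) * D.ee = 0 := by
  rw [ee]
  split_ifs
  · rw [mul_zero]
  · exact half_mul_ev D.ev_half

/-- The linear character of the semidihedral case. -/
def eps : D.S.P →* ℂ where
  toFun := D.epsFun
  map_one' := by rw [← D.rot_zero, D.epsFun_rot, mul_zero, AddChar.map_zero_eq_one]
  map_mul' x y := by
    rcases D.coord x with ⟨i, rfl⟩ | ⟨i, rfl⟩ <;> rcases D.coord y with ⟨j, rfl⟩ | ⟨j, rfl⟩ <;>
      simp only [← D.rot_add, D.rot_mul_ref, D.ref_mul_rot, D.ref_mul_ref, D.epsFun_rot,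
        D.epsFun_ref, mul_add, D.half_mul_σ, D.half_mul_ee, zero_add, AddChar.map_add_eq_mul] <;>
      ring

/-- The stable character. -/
def theta (v : D.S.P) : ℂ :=
  indFun D.rotHom.range (fun x => D.lam x) v + 1 + if D.IsSemi then D.eps v else 1

theorem isCharacter_theta : IsCharacter D.S.P D.theta := by
  have h1 : IsCharacter D.S.P fun _ => (1 : ℂ) := by
    have := Char.isCharacter_of_irr (Char.isIrrCharacter_monoidHom (1 : D.S.P →* ℂˣ))
    simpa using this
  have h0 := Char.isCharacter_add (CharInd.isCharacter_indFun D.rotHom.range D.isCharacter_lam) h1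
  by_cases hs : D.IsSemi
  · have e : (fun x => D.eps x) = fun x => ((D.eps.toHomUnits x : ℂˣ) : ℂ) := funext fun x =>
      (MonoidHom.coe_toHomUnits D.eps x).symm
    have := Char.isCharacter_add h0 (e ▸ Char.isCharacter_of_irr
      (Char.isIrrCharacter_monoidHom D.eps.toHomUnits) : IsCharacter D.S.P fun x => D.eps x)
    convert this using 1
    funext v
    simp [theta, hs]
  · have := Char.isCharacter_add h0 h1
    convert this using 1
    funext v
    simp [theta, hs]

theorem theta_rot (i : ZMod (2 * h)) : D.theta (D.rot i) =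
    ZMod.stdAddChar i + ZMod.stdAddChar (D.σ * i) + 1 +
      if D.IsSemi then ZMod.stdAddChar ((h : ZMod (2 * h)) * i) else 1 := by
  rw [theta, D.ind_rot]
  split_ifs
  · rw [← D.epsFun_rot]; rfl
  · rfl

theorem theta_ref (i : ZMod (2 * h)) : D.theta (D.ref i) =
    1 + if D.IsSemi then -ZMod.stdAddChar ((h : ZMod (2 * h)) * i) else 1 := by
  rw [theta, D.ind_ref, zero_add]
  split_ifs
  · rw [← D.epsFun_ref]; rfl
  · rfl

theorem theta_σ (i : ZMod (2 * h)) : D.theta (D.rot (D.σ * i)) = D.theta (D.rot i) := by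
  rw [D.theta_rot, D.theta_rot, D.σ_σ, D.half_mul_σ]
  ring

theorem theta_one : D.theta 1 = 4 := by
  rw [← D.rot_zero, D.theta_rot]
  simp [AddChar.map_zero_eq_one]
  norm_num

theorem theta_zP : D.theta D.zP = 0 := by
  rw [zP, D.theta_rot, D.σ_half, stdAddChar_half]
  simp [half_mul_ev D.ev_half, AddChar.map_zero_eq_one]

theorem theta_invol {v : D.S.P} (h2 : v * v = 1) (h1 : v ≠ 1) : D.theta v = 0 := by
  rcases D.coord v with ⟨i, rfl⟩ | ⟨i, rfl⟩
  · rcases D.rot_sq_eq_one.1 h2 with rfl | rfl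
    · exact absurd D.rot_zero h1
    · exact D.theta_zP
  · rw [D.ref_sq] at h2
    by_cases hs : D.IsSemi ∧ Ev i
    · rw [D.theta_ref, if_pos hs.1, half_mul_ev hs.2, AddChar.map_zero_eq_one]
      ring
    · rw [if_neg hs, ← D.rot_zero, D.rot_injective.eq_iff] at h2
      exact absurd h2 half_ne_zero

theorem theta_four {v : D.S.P} (h4 : v * v * (v * v) = 1) (h2 : v * v ≠ 1) : D.theta v = 2 := by
  rcases D.coord v with ⟨i, rfl⟩ | ⟨i, rfl⟩
  · rw [← D.rot_add] at h4 h2
    have hh : i + i = h := (D.rot_sq_eq_one.1 h4).resolve_left fun e => h2 (by rw [e, D.rot_zero])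
    have h0 : 2 * (i - wIdx h) = 0 := by
      rw [mul_sub, D.two_mul_wIdx]; linear_combination hh
    have hσ : D.σ * i = i + h := by
      rcases two_mul_eq_zero h0 with e | e
      · rw [sub_eq_zero.1 e, D.σ_wIdx]
      · rw [sub_eq_iff_eq_add.1 e, mul_add, D.σ_half, D.σ_wIdx]
        ring
    rw [D.theta_rot, hσ, stdAddChar_add_half]
    by_cases hs : D.IsSemi
    · have hev : Ev i := by
        obtain ⟨q, hq⟩ := D.four_dvd_of_semi hs
        have hw : Ev (wIdx h) := ⟨q, by rw [wIdx, show h / 2 = 2 * q by omega]; push_cast; rfl⟩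
        rcases two_mul_eq_zero h0 with e | e
        · rw [sub_eq_zero.1 e]; exact hw
        · obtain ⟨a, ha⟩ := hw
          obtain ⟨b, hb⟩ := D.ev_half
          exact ⟨a + b, by rw [sub_eq_iff_eq_add.1 e, hb, ha]; ring⟩
      rw [if_pos hs, half_mul_ev hev, AddChar.map_zero_eq_one]
      ring
    · rw [if_neg hs]; ring
  · rw [D.ref_sq] at h2
    rw [D.theta_ref]
    by_cases hs : D.IsSemi
    · have hev : ¬ Ev i := fun e => h2 (by rw [if_pos ⟨hs, e⟩])
      rw [if_pos hs, half_mul_not_ev hev, stdAddChar_half]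
      ring
    · rw [if_neg hs]; norm_num

theorem theta_eq_of_mem_cls {v v' : D.S.P} (hv : v' ∈ cls D.S v) : D.theta v' = D.theta v := by
  have ho : orderOf v' = orderOf v := by
    rw [← Subgroup.orderOf_coe, ← Subgroup.orderOf_coe]
    exact orderOf_eq_of_mem_cls D.S hv
  have key : ∀ n, (v' ^ n = 1 ↔ v ^ n = 1) := fun n => by
    rw [← orderOf_dvd_iff_pow_eq_one, ← orderOf_dvd_iff_pow_eq_one, ho]
  have e1 : v' = 1 ↔ v = 1 := by simpa using key 1
  have e2 : v' * v' = 1 ↔ v * v = 1 := by simpa [pow_two] using key 2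
  have e4 : v' * v' * (v' * v') = 1 ↔ v * v * (v * v) = 1 := by
    have := key 4
    rwa [show 4 = 2 + 2 from rfl, pow_add, pow_add, pow_two, pow_two] at this
  by_cases h1 : v = 1
  · rw [h1, e1.2 h1]
  by_cases h2 : v * v = 1
  · rw [D.theta_invol h2 h1, D.theta_invol (e2.2 h2) fun e => h1 (e1.1 e)]
  by_cases h4 : v * v * (v * v) = 1
  · rw [D.theta_four h4 h2, D.theta_four (e4.2 h4) fun e => h2 (e2.1 e)]
  have hrot : ∀ x : D.S.P, x * x * (x * x) ≠ 1 → ∃ i, x = D.rot i := fun x hx => by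
    rcases D.coord x with hh | ⟨i, rfl⟩
    · exact hh
    · exfalso
      apply hx
      rw [D.ref_sq]
      split_ifs
      · rw [mul_one]
      · exact (D.rot_sq_eq_one).2 (Or.inr rfl)
  obtain ⟨i, rfl⟩ := hrot v h4
  obtain ⟨j, rfl⟩ := hrot v' fun e => h4 (e4.1 e)
  have hi : Mid i := ⟨fun e => h1 (by rw [e, D.rot_zero]),
    fun e => h2 ((D.rot_sq_eq_one).2 (Or.inr e))⟩
  rcases D.cls_rot hi hv with rfl | rfl
  · rfl
  · exact D.theta_σ i

theorem stable_theta : D.S.Stable D.theta := fun w a x y hx hy =>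
  (D.theta_eq_of_mem_cls (mem_cls_of_link D.S (g₀ := x.1) (v₀ := x.2) hx hy)).symm

end Ctx

end Cfsg.Agent.BlockTame
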