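import Cfsg.Agent.BlockTame.Rot
import Cfsg.Agent.BlockTame.Theta
import Cfsg.Agent.BlockTame.ShapeMain
import Cfsg.Agent.BlockDih.Block

/-!
# The relations between the subsections of a semidihedral or quaternion block
-/

set_option autoImplicit false
set_option maxHeartbeats 800000
set_option linter.unusedSectionVars false
set_option linter.style.haveILetI false

noncomputable section

namespace Cfsg.Agent.BlockTame

open Cfsg Cfsg.Agent.BrauerPairs Cfsg.Agent.BrauerPairs.Nil Cfsg.Agent.BlkStar Cfsg.Agent.BlkWat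
open Cfsg.Agent.BlkChar.Contrib Cfsg.Agent.BlkChar.Cyclo Cfsg.Agent.FusionCount
open Cfsg.Agent.BlockDih (col)
open scoped ComplexConjugate Classical

universe u

variable {M : Ideal AlgInt} [M.IsPrime] [CharP (Block.ResF M) 2] {G : Type u} [Group G]
  [Fintype G]

/-- A real value at a fourth root of unity is an integer. -/
theorem int_of_real_cev (a : ZMod (2 ^ 2) → ℤ) (hr : conj (cev a 1) = cev a 1) :
    ∃ z : ℤ, cev a 1 = z := by
  have hu : (Finset.univ : Finset (ZMod (2 ^ 2))) = {0, 1, 2, 3} := by decide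
  set s : ℂ := ZMod.stdAddChar (1 : ZMod (2 ^ 2)) with hs
  have h2 : ZMod.stdAddChar (2 : ZMod (2 ^ 2)) = -1 := by
    have h1 : ZMod.stdAddChar (2 : ZMod (2 ^ 2)) * ZMod.stdAddChar (2 : ZMod (2 ^ 2)) = 1 := by
      rw [← AddChar.map_add_eq_mul, show (2 : ZMod (2 ^ 2)) + 2 = 0 by decide,
        AddChar.map_zero_eq_one]
    refine (mul_self_eq_one_iff.1 h1).resolve_left fun e => ?_
    rw [← (ZMod.stdAddChar (N := 2 ^ 2)).map_zero_eq_one] at e
    exact absurd (ZMod.injective_stdAddChar e) (by decide)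
  have hss : s * s = -1 := by
    rw [hs, ← AddChar.map_add_eq_mul, show (1 : ZMod (2 ^ 2)) + 1 = 2 by decide, h2]
  have h3 : ZMod.stdAddChar (3 : ZMod (2 ^ 2)) = -s := by
    rw [show (3 : ZMod (2 ^ 2)) = 2 + 1 by decide, AddChar.map_add_eq_mul, h2, neg_one_mul]
  have he : cev a 1 = ((a 0 - a 2 : ℤ) : ℂ) + ((a 1 - a 3 : ℤ) : ℂ) * s := by
    rw [cev, hu, Finset.sum_insert (by decide), Finset.sum_insert (by decide),
      Finset.sum_insert (by decide), Finset.sum_singleton]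
    simp only [one_mul, AddChar.map_zero_eq_one, h2, h3, ← hs]
    push_cast
    ring
  refine ⟨a 0 - a 2, ?_⟩
  have hc : conj s = -s := by
    rw [hs, BlockDih.conj_stdAddChar, show -(1 : ZMod (2 ^ 2)) = 3 by decide, h3]
  rw [he, map_add, map_mul (starRingEnd ℂ), map_intCast, map_intCast, hc] at hr
  rw [he]
  linear_combination (-(1 : ℂ) / 2) * hr

/-- The central contributions are integers. -/
theorem int_cev_two (a : ZMod (2 ^ 1) → ℤ) : ∃ z : ℤ, cev a 1 = z := by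
  have hu : (Finset.univ : Finset (ZMod (2 ^ 1))) = {0, 1} := by decide
  have h1 : ZMod.stdAddChar (1 : ZMod (2 ^ 1)) = -1 := by
    have h1 : ZMod.stdAddChar (1 : ZMod (2 ^ 1)) * ZMod.stdAddChar (1 : ZMod (2 ^ 1)) = 1 := by
      rw [← AddChar.map_add_eq_mul, show (1 : ZMod (2 ^ 1)) + 1 = 0 by decide,
        AddChar.map_zero_eq_one]
    refine (mul_self_eq_one_iff.1 h1).resolve_left fun e => ?_
    rw [← (ZMod.stdAddChar (N := 2 ^ 1)).map_zero_eq_one] at e
    exact absurd (ZMod.injective_stdAddChar e) (by decide)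
  refine ⟨a 0 - a 1, ?_⟩
  rw [cev, hu, Finset.sum_insert (by decide), Finset.sum_singleton, mul_one, mul_zero,
    AddChar.map_zero_eq_one, h1]
  push_cast
  ring

namespace Ctx

variable {h : ℕ} [NeZero (2 * h)] (D : Ctx M G h)

/-- The height in the block. -/
def Ht (χ : D.S.B.1) : ℕ := blockHeight 2 D.S.B.1 ((χ : IrrCharacter G) : G → ℂ)

theorem sum_B {F : IrrCharacter G → ℂ} (hF : ∀ χ, χ ∉ D.S.B.1 → F χ = 0) :
    ∑ χ : D.S.B.1, F χ = ∑ χ : IrrCharacter G, F χ := by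
  rw [← Finset.sum_subset (Finset.subset_univ (Finset.univ.filter (· ∈ D.S.B.1)))
    fun χ _ hχ => hF χ (by simpa using hχ),
    Finset.sum_subtype (p := fun χ => χ ∈ D.S.B.1) (Finset.univ.filter (· ∈ D.S.B.1)) (by simp) F]

theorem two_pow_defect : 2 ^ blockDefect 2 D.S.B.1 = 4 * h := by
  rw [← BlockTame.card_P_eq D.S, D.card_P]

theorem defect_z : 2 ^ blockDefect 2 (pr D.S D.zP).2.1 = 4 * h := by
  rw [← card_defect_pr D.S D.cMax_zP, inf_eq_left.2 D.P_le_cen_zP, D.card_P]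

theorem blockDefect_z : blockDefect 2 (pr D.S D.zP).2.1 = blockDefect 2 D.S.B.1 :=
  Nat.pow_right_injective le_rfl (D.defect_z.trans D.two_pow_defect.symm)

theorem exists_ht_zero : ∃ χ : D.S.B.1, D.Ht χ = 0 := by
  obtain ⟨χ, hχ, h0⟩ := BlockVal.exists_height_zero (p := 2) (Block.pBlock_nonempty D.S.B.2)
  exact ⟨⟨χ, hχ⟩, h0⟩

theorem four_dvd_ht_zero : 4 ∣ (Finset.univ.filter fun χ : D.S.B.1 => D.Ht χ = 0).card := by
  refine BlockDih.four_dvd_height_zero D.S.isPModular D.S.B.2 ?_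
  by_contra hn
  have h1 : 2 ^ blockDefect 2 D.S.B.1 ≤ 2 ^ 1 := Nat.pow_le_pow_right two_pos (by omega)
  rw [D.two_pow_defect] at h1
  have := D.two_le
  omega

theorem zP_sq : ((D.zP : D.S.P) : G) ^ 2 ^ 1 = 1 := by
  rw [pow_one, pow_two, ← Subgroup.coe_mul, zP, (D.rot_sq_eq_one).2 (Or.inr rfl),
    OneMemClass.coe_one]

theorem exists_Zm (χ ψ : IrrCharacter G) : ∃ z : ℤ,
    (z : ℂ) = ((4 * h : ℕ) : ℂ) * K D.S D.zP (χ : G → ℂ) (ψ : G → ℂ) := by
  rw [← D.defect_z, ← cM_eq_mul_K D.S D.zP one_ne_zero D.zP_sq]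
  erw [cM_eq_cev]
  obtain ⟨z, hz⟩ := int_cev_two (coefA (exists_section D.S D.zP D.zP_sq)
    (pr D.S D.zP).2.1 χ ψ)
  exact ⟨z, hz.symm⟩

/-- The contributions at the central involution. -/
def Zm (χ ψ : D.S.B.1) : ℤ := (D.exists_Zm χ ψ).choose

theorem Zm_spec (χ ψ : D.S.B.1) : (D.Zm χ ψ : ℂ) = ((4 * h : ℕ) : ℂ) *
    K D.S D.zP ((χ : IrrCharacter G) : G → ℂ) ((ψ : IrrCharacter G) : G → ℂ) :=
  (D.exists_Zm χ ψ).choose_spec

include D in
theorem four_h_ne : ((4 * h : ℕ) : ℂ) ≠ 0 :=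
  Nat.cast_ne_zero.2 (by have := D.two_le; omega)

theorem Zm_odd (χ ψ : D.S.B.1) (hψ : D.Ht ψ = 0) :
    ∃ q : ℤ, Odd q ∧ D.Zm χ ψ = 2 ^ D.Ht χ * q := by
  haveI : Fact (1 < 2 ^ 1) := ⟨by norm_num⟩
  have hM := D.S.isPModular
  have e : cM (exists_section D.S D.zP D.zP_sq) (pr D.S D.zP).2.1 χ.1 ψ.1 1 = (D.Zm χ ψ : ℂ) := by
    rw [cM_eq_mul_K D.S D.zP one_ne_zero D.zP_sq, D.defect_z, D.Zm_spec]
  have h1 := cM_div_mem (exists_section D.S D.zP D.zP_sq) hM (pr D.S D.zP).2.2 D.blockDefect_z χ.2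
    ψ.1 (j := (1 : ZMod (2 ^ 1))) isUnit_one
  have h2 := cM_div_not_mem (exists_section D.S D.zP D.zP_sq) hM (isInducedBlock_pr D.S D.zP)
    D.blockDefect_z χ.2 ψ.2 hψ (j := (1 : ZMod (2 ^ 1))) isUnit_one
  rw [e] at h1 h2
  obtain ⟨q, hq⟩ := exists_int_mul_of_memLocalRing hM (n := D.Ht χ) (by exact_mod_cast h1)
  push_cast at hq
  refine ⟨q, Int.not_even_iff_odd.1 fun he => h2 ?_, hq⟩
  rw [hq]
  push_cast
  rw [show blockHeight 2 D.S.B.1 ((χ : IrrCharacter G) : G → ℂ) = D.Ht χ from rfl,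
    mul_div_cancel_left₀ _ (pow_ne_zero _ two_ne_zero)]
  exact (Block.memLocalIdeal_intCast_iff hM q).2 he.two_dvd

theorem self_nonneg (v : D.S.P) (χ : IrrCharacter G) :
    ∃ r : ℝ, 0 ≤ r ∧ K D.S v (χ : G → ℂ) (χ : G → ℂ) = r :=
  ⟨_, Finset.sum_nonneg fun _ _ => Complex.normSq_nonneg _, (normSq_K_sum D.S v χ).symm⟩

/-- The contributions at an element outside. -/
theorem K_X_diag {v : D.S.P} (hv : v ∈ D.X) (χ : D.S.B.1) :
    K D.S v ((χ : IrrCharacter G) : G → ℂ) ((χ : IrrCharacter G) : G → ℂ) =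
      if D.Ht χ = 0 then 1 / 4 else 0 := by
  haveI : Fact (1 < 2 ^ 2) := ⟨by norm_num⟩
  have hk : (v : G) ^ 2 ^ 2 = 1 := by
    obtain ⟨i, rfl⟩ := D.exists_ref_of_X hv
    have h2 := D.ref_sq i
    have h4 : D.ref i * D.ref i * (D.ref i * D.ref i) = 1 := by
      rw [h2]
      split_ifs
      · rw [mul_one]
      · exact (D.rot_sq_eq_one).2 (Or.inr rfl)
    rw [show 2 ^ 2 = 2 + 2 from rfl, pow_add, pow_two, ← Subgroup.coe_mul, ← Subgroup.coe_mul, h4,
      OneMemClass.coe_one]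
  have hM := D.S.isPModular
  have hcM : ∀ ψ : D.S.B.1, cM (exists_section D.S v hk) (pr D.S v).2.1 ψ.1 ψ.1 1 =
      4 * K D.S v ((ψ : IrrCharacter G) : G → ℂ) ((ψ : IrrCharacter G) : G → ℂ) := fun ψ => by
    rw [cM_eq_mul_K D.S v two_ne_zero hk, D.defect_X hv]
    norm_num
  choose r hr0 hr using fun ψ : D.S.B.1 => D.self_nonneg v ψ.1
  have hint : ∀ ψ : D.S.B.1, ∃ z : ℤ, 4 * r ψ = z := fun ψ => by
    obtain ⟨z, hz⟩ := int_of_real_cev (coefA (exists_section D.S v hk) (pr D.S v).2.1 ψ.1 ψ.1) (by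
      erw [← cM_eq_cev]
      rw [hcM, hr, map_mul (starRingEnd ℂ), Complex.conj_ofReal, map_ofNat])
    erw [← cM_eq_cev] at hz
    rw [hcM, hr] at hz
    exact ⟨z, by exact_mod_cast hz⟩
  choose z hz using hint
  set S := Finset.univ.filter fun ψ : D.S.B.1 => D.Ht ψ = 0 with hS
  have hz0 : ∀ ψ, 0 ≤ z ψ := fun ψ => by
    have : (0 : ℝ) ≤ z ψ := hz ψ ▸ mul_nonneg (by norm_num) (hr0 ψ)
    exact_mod_cast this
  have hz1 : ∀ ψ ∈ S, 1 ≤ z ψ := fun ψ hψ => by
    rcases (hz0 ψ).lt_or_eq with e | e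
    · omega
    exfalso
    refine cM_ne_zero (exists_section D.S v hk) hM (isInducedBlock_pr D.S v) ψ.2
      (Finset.mem_filter.1 hψ).2 ψ.2 (Finset.mem_filter.1 hψ).2 1 ?_
    have h0 : r ψ = 0 := by
      have := hz ψ
      rw [← e, Int.cast_zero] at this
      linarith
    rw [hcM, hr, h0, Complex.ofReal_zero, mul_zero]
  have hsum : ∑ ψ, z ψ = 4 := by
    have h1 := sum_K_self D.S v
    rw [D.rank_X hv, Nat.cast_one] at h1
    simp only [hr, ← Complex.ofReal_sum, ← Complex.ofReal_one, Complex.ofReal_inj] at h1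
    have : ((∑ ψ, z ψ : ℤ) : ℝ) = 4 := by
      push_cast
      simp only [← hz, ← Finset.mul_sum, h1, mul_one]
    exact_mod_cast this
  have hcard : 4 ≤ S.card := by
    obtain ⟨ψ, hψ⟩ := D.exists_ht_zero
    exact Nat.le_of_dvd (Finset.card_pos.2 ⟨ψ, by simp [hS, hψ]⟩) D.four_dvd_ht_zero
  have hle : ((S.card : ℕ) : ℤ) ≤ ∑ ψ ∈ S, z ψ := by
    rw [Finset.cast_card]; exact Finset.sum_le_sum hz1
  have hsplit := Finset.sum_filter_add_sum_filter_not Finset.univ (fun ψ => D.Ht ψ = 0) z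
  rw [← hS, hsum] at hsplit
  have hn : 0 ≤ ∑ ψ ∈ Finset.univ.filter (fun ψ => ¬ D.Ht ψ = 0), z ψ :=
    Finset.sum_nonneg fun ψ _ => hz0 ψ
  have key : z χ = if D.Ht χ = 0 then 1 else 0 := by
    by_cases hχ : D.Ht χ = 0
    · rw [if_pos hχ]
      have he : ∑ _ψ ∈ S, (1 : ℤ) = ∑ ψ ∈ S, z ψ := by rw [← Finset.cast_card]; omega
      exact ((Finset.sum_eq_sum_iff_of_le hz1).1 he χ (by simp [hS, hχ])).symm
    · rw [if_neg hχ]
      have h0 : ∑ ψ ∈ Finset.univ.filter (fun ψ => ¬ D.Ht ψ = 0), z ψ = 0 := by omega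
      exact (Finset.sum_eq_zero_iff_of_nonneg fun ψ _ => hz0 ψ).1 h0 χ (by simp [hχ])
  have hfin : r χ = if D.Ht χ = 0 then 1 / 4 else 0 := by
    have := hz χ
    rw [key] at this
    by_cases hh : D.Ht χ = 0
    · rw [if_pos hh] at this ⊢
      norm_num at this
      linarith
    · rw [if_neg hh] at this ⊢
      norm_num at this
      linarith
  rw [hr, hfin]
  split_ifs <;> norm_num

theorem K_X_zero {v : D.S.P} (hv : v ∈ D.X) {χ : D.S.B.1} (hχ : D.Ht χ ≠ 0) (ψ : IrrCharacter G) :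
    K D.S v ((χ : IrrCharacter G) : G → ℂ) (ψ : G → ℂ) = 0 :=
  (K_eq_zero_of_self D.S v (by rw [D.K_X_diag hv, if_neg hχ]) ψ).1

theorem rot_not_mem_cls_zP {i : ZMod (2 * h)} (hi : Mid i) : D.rot i ∉ cls D.S D.zP :=
  fun e => hi.2 (D.zP_cls e)

theorem rot_not_mem_cls_one {i : ZMod (2 * h)} (hi : Mid i) : D.rot i ∉ cls D.S 1 := by
  rw [cls_one, Finset.mem_singleton, ← D.rot_zero]
  exact fun e => hi.1 (D.rot_injective e)

theorem K_one_eq {χ φ : IrrCharacter G} (hχ : χ ∈ D.S.B.1) (hφ : φ ∈ D.S.B.1) :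
    K D.S 1 (χ : G → ℂ) (φ : G → ℂ) = (Nat.card G : ℂ)⁻¹ *
      ∑ y ∈ Finset.univ.filter (fun y : G => ¬ 2 ∣ orderOf y),
        (χ : G → ℂ) y * conj ((φ : G → ℂ) y) := by
  have hC : Subgroup.centralizer (Subgroup.zpowers (((1 : D.S.P)) : G) : Set G) = ⊤ := by
    refine eq_top_iff.2 fun g _ => ?_
    rw [BlockHeight.mem_centralizer_zpowers]
    simp
  have hC' : Subgroup.centralizer ((pr D.S 1).1 : Set G) = ⊤ := hC
  rw [K, secReg, hC, Subgroup.card_top]
  congr 1
  refine Finset.sum_congr (Finset.ext fun y => by simp [hC']) fun y hy => ?_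
  have hreg := (Finset.mem_filter.1 hy).2
  rw [phi_central D.S (by rw [OneMemClass.coe_one]; exact one_mem _) hχ hreg,
    phi_central D.S (by rw [OneMemClass.coe_one]; exact one_mem _) hφ hreg,
    OneMemClass.coe_one, one_mul]

/-- The degrees lie in the range of the regular projection. -/
theorem deg_K_one {φ : IrrCharacter G} (hφ : φ ∈ D.S.B.1) :
    ∑ χ : D.S.B.1, ((χ : IrrCharacter G) : G → ℂ) 1 *
      K D.S 1 ((χ : IrrCharacter G) : G → ℂ) (φ : G → ℂ) = (φ : G → ℂ) 1 := by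
  set F : IrrCharacter G → ℂ := fun χ => (χ : G → ℂ) 1 * ((Nat.card G : ℂ)⁻¹ *
    ∑ y ∈ Finset.univ.filter (fun y : G => ¬ 2 ∣ orderOf y),
      (χ : G → ℂ) y * conj ((φ : G → ℂ) y)) with hF
  have h1 : ∑ χ : D.S.B.1, ((χ : IrrCharacter G) : G → ℂ) 1 *
      K D.S 1 ((χ : IrrCharacter G) : G → ℂ) (φ : G → ℂ) = ∑ χ : D.S.B.1, F χ :=
    Finset.sum_congr rfl fun χ _ => by rw [D.K_one_eq χ.2 hφ]
  have h2 : ∑ χ : IrrCharacter G, F χ = (φ : G → ℂ) 1 := by
    simp only [hF, Finset.mul_sum]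
    rw [Finset.sum_comm]
    have e : ∀ y : G, ∑ χ : IrrCharacter G, (χ : G → ℂ) 1 * ((Nat.card G : ℂ)⁻¹ *
        ((χ : G → ℂ) y * conj ((φ : G → ℂ) y))) =
        if y = 1 then conj ((φ : G → ℂ) 1) else 0 := by
      intro y
      have h3 := Char.sum_irr_mul_conj y (1 : G)
      simp only [show ∀ χ : IrrCharacter G, conj ((χ : G → ℂ) 1) = (χ : G → ℂ) 1 from fun χ => by
        rw [(BlockVal.irr_one_eq_charDegree χ).1, map_natCast]] at h3
      calc _ = (Nat.card G : ℂ)⁻¹ * conj ((φ : G → ℂ) y) *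
          ∑ χ : IrrCharacter G, (χ : G → ℂ) y * (χ : G → ℂ) 1 := by
            rw [Finset.mul_sum]; exact Finset.sum_congr rfl fun χ _ => by ring
        _ = _ := by
            rw [h3]
            by_cases hy : y = 1
            · subst hy
              rw [if_pos (IsConj.refl 1), if_pos rfl, show Subgroup.centralizer ({1} : Set G) = ⊤ by
                simp [eq_top_iff, SetLike.le_def, Subgroup.mem_centralizer_singleton_iff],
                Subgroup.card_top]
              have : (Nat.card G : ℂ) ≠ 0 := Nat.cast_ne_zero.2 Nat.card_pos.ne'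
              field_simp
            · rw [if_neg fun e => hy (isConj_one_left.1 e), if_neg hy, mul_zero]
    simp only [e, Finset.sum_ite_eq', Finset.mem_filter, Finset.mem_univ, true_and, orderOf_one,
      Nat.dvd_one, OfNat.ofNat_ne_one, not_false_eq_true, if_true]
    rw [(BlockVal.irr_one_eq_charDegree φ).1, map_natCast]
  rw [h1, D.sum_B fun χ hχ => ?_, h2]
  -- outside the block the regular inner product vanishes
  have hr := Brauer.regSum_eq_zero_of_integral D.S.isPModular D.S.B.1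
    (Block.blockCoeff_memLocalRing D.S.B.2) hφ hχ
  refine mul_eq_zero_of_right _ (mul_eq_zero_of_right _ ?_)
  have := congrArg conj hr
  rw [Brauer.regSum, map_sum, map_zero] at this
  rw [← this]
  exact Finset.sum_congr rfl fun y _ => by
    rw [map_mul (starRingEnd ℂ), Complex.conj_conj, mul_comm]

theorem sum_classes {f : D.S.P → ℂ} (hf : ∀ v, ∀ v' ∈ cls D.S v, f v' = f v)
    (hX : ∀ v ∈ D.X, f v = 0) (hrot : ∀ i, Mid i → f (D.rot i) = 0) :
    ∑ v : D.S.P, f v / ((cls D.S v).card : ℂ) = f 1 + f D.zP := by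
  rw [D.sum_cls_eq f hf, Finset.sum_eq_zero (fun i _ => by
      split_ifs with hi
      · rw [hrot i hi, zero_div]
      · rfl),
    Finset.sum_eq_zero fun C hC => hX _ (D.rep_X hC).1]
  simp

theorem extra_dvd {N : IrrCharacter G → ZMod (2 * h) → ℤ}
    (hK : ∀ i, Mid i → ∀ χ ψ : IrrCharacter G, K D.S (D.rot i) (χ : G → ℂ) (ψ : G → ℂ) =
      col N i χ * conj (col N i ψ) / ((2 * h : ℕ) : ℂ))
    {χ : D.S.B.1} (h0 : D.Ht χ ≠ 0) (hcol : ∀ i, Mid i → col N i χ.1 = 0) (ψ : D.S.B.1) :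
    (h : ℤ) ∣ D.Zm χ ψ := by
  set f : D.S.P → ℂ := fun v =>
    K D.S v ((χ : IrrCharacter G) : G → ℂ) ((ψ : IrrCharacter G) : G → ℂ) with hf
  have hfc : ∀ v, ∀ v' ∈ cls D.S v, f v' = f v := fun v v' hv => K_eq_of_mem_cls D.S hv _ _
  have hX : ∀ v ∈ D.X, f v = 0 := fun v hv => D.K_X_zero hv h0 _
  have hrot : ∀ i, Mid i → f (D.rot i) = 0 := fun i hi => by
    rw [hf]
    dsimp only
    rw [hK i hi, hcol i hi, zero_mul, zero_div]
  have h1 := delta_eq D.S χ.2 ψ.1
  rw [D.sum_classes hfc hX hrot] at h1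
  obtain ⟨k, hk⟩ := exists_int_K D.S D.isCharacter_theta D.stable_theta χ.1 ψ.1
  have h2 := D.sum_classes (f := fun v => D.theta v * f v)
    (fun v v' hv => by rw [D.theta_eq_of_mem_cls hv, hfc v v' hv])
    (fun v hv => by rw [hX v hv, mul_zero]) fun i hi => by rw [hrot i hi, mul_zero]
  rw [D.theta_one, D.theta_zP, zero_mul, add_zero] at h2
  have h3 : 4 * f 1 = (k : ℂ) := by
    rw [← h2, ← hk]
    exact Finset.sum_congr rfl fun v _ => by simp only [hf]; ring
  refine ⟨4 * (if (χ : IrrCharacter G) = ψ then 1 else 0) - k, Int.cast_injective (α := ℂ) ?_⟩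
  rw [D.Zm_spec, show K D.S D.zP ((χ : IrrCharacter G) : G → ℂ) ((ψ : IrrCharacter G) : G → ℂ) =
    f D.zP from rfl]
  push_cast
  split_ifs at h1 ⊢ <;> linear_combination 4 * (h : ℂ) * h1 - (h : ℂ) * h3

/-- The abstract relations hold. -/
theorem exists_cols {N : IrrCharacter G → ZMod (2 * h) → ℤ}
    (hN : ∀ χ r, N χ (D.σ * r) = N χ r)
    (hK : ∀ i, Mid i → ∀ χ ψ : IrrCharacter G, K D.S (D.rot i) (χ : G → ℂ) (ψ : G → ℂ) =
      col N i χ * conj (col N i ψ) / ((2 * h : ℕ) : ℂ)) :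
    ∃ m, Cols D.σ (fun χ : D.S.B.1 => N χ.1) D.Ht
      (fun χ : D.S.B.1 => (charDegree ((χ : IrrCharacter G) : G → ℂ) : ℝ)) D.Zm m := by
  obtain ⟨m, hm⟩ := D.exists_pow
  have hM := D.S.isPModular
  have h2h : ((2 * h : ℕ) : ℂ) ≠ 0 := Nat.cast_ne_zero.2 (NeZero.ne _)
  have hcolN : ∀ (i : ZMod (2 * h)) (χ : D.S.B.1),
      col (fun χ : D.S.B.1 => N χ.1) i χ = col N i χ.1 := fun _ _ => rfl
  have hout : ∀ i, Mid i → ∀ χ, χ ∉ D.S.B.1 → col N i χ = 0 := fun i hi χ hχ => by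
    have := K_eq_zero_left D.S (D.rot i) hχ χ
    rw [hK i hi, div_eq_zero_iff, mul_eq_zero] at this
    rw [or_iff_left h2h, map_eq_zero, or_self] at this
    exact this
  have hnorm : ∀ i, Mid i → ∑ χ : D.S.B.1, col N i χ.1 * conj (col N i χ.1) = ((2 * h : ℕ) : ℂ) := by
    intro i hi
    have := sum_K_self D.S (D.rot i)
    rw [D.rank_rot hi, Nat.cast_one] at this
    simp only [hK i hi, ← Finset.sum_div] at this
    rwa [div_eq_one_iff_eq h2h] at this
  have hne : ∀ i, Mid i → ∃ χ : IrrCharacter G, col N i χ ≠ 0 := fun i hi => by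
    by_contra hn
    push Not at hn
    have := hnorm i hi
    simp only [hn, zero_mul, Finset.sum_const_zero] at this
    exact h2h this.symm
  have hperp : ∀ v i, Mid i → D.rot i ∉ cls D.S v → ∀ χ : IrrCharacter G,
      ∑ ψ : D.S.B.1, K D.S v (χ : G → ℂ) ((ψ : IrrCharacter G) : G → ℂ) * col N i ψ.1 = 0 := by
    intro v i hi hv χ
    obtain ⟨φ, hφ⟩ := hne i hi
    have h1 := K_orth D.S hv χ φ
    simp only [hK i hi, mul_div_assoc', ← Finset.sum_div, div_eq_zero_iff, h2h, or_false,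
      ← mul_assoc, ← Finset.sum_mul, mul_eq_zero, map_eq_zero, hφ] at h1
    rw [D.sum_B (F := fun ψ => K D.S v (χ : G → ℂ) (ψ : G → ℂ) * col N i ψ) fun ψ hψ => by
      rw [hout i hi ψ hψ, mul_zero]]
    exact h1
  have hprod : ∀ i j, Mid i → Mid j → j ≠ i → j ≠ D.σ * i →
      ∑ χ : D.S.B.1, conj (col N i χ.1) * col N j χ.1 = 0 := by
    intro i j hi hj h1 h2
    obtain ⟨φ, hφ⟩ := hne i hi
    have h3 := hperp (D.rot i) j hj (fun e => (D.cls_rot hi e).elim h1 h2) φ
    simp only [hK i hi, div_mul_eq_mul_div, ← Finset.sum_div, div_eq_zero_iff, h2h, or_false,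
      mul_assoc, ← Finset.mul_sum, mul_eq_zero, hφ, false_or] at h3
    exact h3
  have hσcol : ∀ i χ, col N (D.σ * i) χ = col N i χ := fun i χ => by
    let τ' : ZMod (2 * h) ≃ ZMod (2 * h) :=
      ⟨fun i => D.σ * i, fun i => D.σ * i, D.σ_σ, D.σ_σ⟩
    refine Fintype.sum_equiv τ' _ _ fun r => ?_
    simp only [τ', Equiv.coe_fn_mk, hN]
    congr 2
    ring
  have hroot : ∀ x : ZMod (2 * h), MemLocalIdeal M (ZMod.stdAddChar x - 1) := fun x => by
    refine sub_one_mem_of_pow_prime_pow (k := m + 2) hM ?_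
    rw [← AddChar.map_nsmul_eq_pow, nsmul_eq_mul,
      show 2 ^ (m + 2) = 2 * h by rw [hm]; ring, ZMod.natCast_self, zero_mul,
      AddChar.map_zero_eq_one]
  have hring : ∀ i χ, MemLocalRing M (col N i χ) := fun i χ =>
    (Block.localRing M).sum_mem fun r _ => (Block.localRing M).mul_mem (intCast_mem _ _)
      (by
        have := (Block.localRing M).add_mem (Block.memLocalRing_of_pow_eq_one
          (pow_ne_zero (m + 2) two_ne_zero) (by
            rw [← AddChar.map_nsmul_eq_pow, nsmul_eq_mul,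
              show 2 ^ (m + 2) = 2 * h by rw [hm]; ring, ZMod.natCast_self, zero_mul,
              AddChar.map_zero_eq_one]) : MemLocalRing M (ZMod.stdAddChar (r * i)))
          (Block.localRing M).zero_mem
        simpa using this)
  have hringc : ∀ i χ, MemLocalRing M (conj (col N i χ)) := fun i χ => by
    have e : conj (col N i χ) = col N (-i) χ := by
      rw [col, map_sum]
      refine Finset.sum_congr rfl fun r _ => ?_
      rw [map_mul (starRingEnd ℂ), map_intCast, BlockDih.conj_stdAddChar, mul_neg]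
    rw [e]
    exact hring _ _
  have hcM : ∀ i, Mid i → ∀ {k : ℕ} (hk0 : k ≠ 0)
      (hk : ((D.rot i : D.S.P) : G) ^ 2 ^ k = 1) (χ ψ : IrrCharacter G),
      cM (exists_section D.S (D.rot i) hk) (pr D.S (D.rot i)).2.1 χ ψ 1 =
        col N i χ * conj (col N i ψ) := fun i hi k hk0 hk χ ψ => by
    rw [cM_eq_mul_K D.S (D.rot i) hk0 hk, D.defect_rot hi, hK i hi, mul_div_cancel₀ _ h2h]
  have hzero : ∀ i, Mid i → ∀ ψ : D.S.B.1, D.Ht ψ = 0 →
      ¬ MemLocalIdeal M (col N i ψ.1 * conj (col N i ψ.1)) := fun i hi ψ hψ => by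
    obtain ⟨k, hk0, hk⟩ := exists_exp D.S (D.rot i)
    rw [← hcM i hi hk0 hk]
    exact cM_not_mem (exists_section D.S (D.rot i) hk) hM (isInducedBlock_pr D.S _) ψ.2 hψ ψ.2 hψ 1
  refine ⟨m,
    { h_eq := hm
      σσ := D.σ_sq
      σ_ev := fun r hr => D.σ_mul_of_ev hr
      σ_fix := fun i => D.mid_iff
      σ_two := by
        have h1 := D.σ_add_one_mul 1
        rw [mul_one] at h1
        rw [h1]
        split_ifs
        · linear_combination half_add (h := h)
        · rw [mul_zero]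
      symm := fun χ r => hN χ.1 r
      orth := fun i j hi hj => ?_
      odd_sum := fun χ hχ => ?_
      exists_zero := D.exists_ht_zero
      four_dvd := D.four_dvd_ht_zero
      d_pos := fun χ => Nat.cast_pos.2
        (Nat.pos_of_ne_zero (BlockVal.irr_one_eq_charDegree (χ : IrrCharacter G)).2)
      d_orth := fun i hi => ?_
      Z_orth := fun χ i hi => ?_
      Z_symm := fun χ ψ => ?_
      Z_proj := fun χ φ => ?_
      Z_odd := D.Zm_odd
      extra := fun χ h0 hcol ψ => D.extra_dvd hK h0 (fun i hi => (hcolN i χ).symm.trans (hcol i hi)) ψ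
      small := fun χ h2 i hi => ?_ }⟩
  · simp only [hcolN]
    by_cases h1 : j = i
    · subst h1
      rw [hnorm j hi, if_pos rfl, if_neg fun e => (D.mid_iff.1 hi) e.symm, add_zero, mul_one]
    by_cases h2 : j = D.σ * i
    · subst h2
      simp only [hσcol]
      rw [hnorm i hi, if_neg fun e => h1 e.symm, if_pos (D.σ_σ i).symm, zero_add, mul_one]
    rw [if_neg (Ne.symm h1), if_neg fun e => h2 (by rw [e, D.σ_σ]), add_zero, mul_zero]
    have := congrArg conj (hprod i j hi hj h1 h2)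
    rw [map_sum, map_zero] at this
    rw [← this]
    exact Finset.sum_congr rfl fun χ _ => by rw [map_mul (starRingEnd ℂ), Complex.conj_conj]
  · by_contra hodd
    apply hzero (wIdx h) D.mid_wIdx χ hχ
    refine Block.memLocalIdeal_mul_right ?_ (hringc _ _)
    rw [← sub_add_cancel (col N (wIdx h) χ.1) ((∑ r, N χ.1 r : ℤ) : ℂ)]
    refine Block.memLocalIdeal_add ?_ ((Block.memLocalIdeal_intCast_iff hM _).2
      (Int.not_odd_iff_even.1 hodd).two_dvd)
    rw [col, Int.cast_sum, ← Finset.sum_sub_distrib]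
    refine Block.memLocalIdeal_sum _ _ fun r _ => ?_
    rw [← mul_sub_one]
    exact Block.memLocalIdeal_mul_left (intCast_mem (Block.localRing M) _) (hroot _)
  · simp only [hcolN, Complex.ofReal_natCast, ← (BlockVal.irr_one_eq_charDegree _).1]
    rw [Finset.sum_congr rfl fun ψ _ => by rw [← D.deg_K_one ψ.2, Finset.sum_mul],
      Finset.sum_comm]
    refine Finset.sum_eq_zero fun χ _ => ?_
    simp only [mul_assoc, ← Finset.mul_sum]
    rw [hperp 1 i hi (D.rot_not_mem_cls_one hi) χ.1, mul_zero]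
  · simp only [hcolN, D.Zm_spec, mul_assoc, ← Finset.mul_sum]
    rw [hperp D.zP i hi (D.rot_not_mem_cls_zP hi) χ.1, mul_zero]
  · apply Int.cast_injective (α := ℂ)
    rw [D.Zm_spec, D.Zm_spec, ← K_swap D.S D.zP ((χ : IrrCharacter G) : G → ℂ)
      ((ψ : IrrCharacter G) : G → ℂ)]
    have h1 := D.Zm_spec χ ψ
    have h2 := congrArg conj h1
    rw [map_intCast, map_mul (starRingEnd ℂ), map_natCast] at h2
    rw [← h2, h1]
  · apply Int.cast_injective (α := ℂ)
    push_cast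
    have hswap : ∀ ψ, (D.Zm φ ψ : ℂ) = ((4 * h : ℕ) : ℂ) *
        K D.S D.zP ((ψ : IrrCharacter G) : G → ℂ) ((φ : IrrCharacter G) : G → ℂ) := fun ψ => by
      rw [← K_swap D.S D.zP ((φ : IrrCharacter G) : G → ℂ), ← map_natCast (starRingEnd ℂ) (4 * h),
        ← map_mul (starRingEnd ℂ), ← D.Zm_spec, map_intCast]
    simp only [hswap, D.Zm_spec, mul_mul_mul_comm ((4 * h : ℕ) : ℂ), ← Finset.mul_sum]
    rw [D.sum_B (F := fun ψ => K D.S D.zP ((χ : IrrCharacter G) : G → ℂ) (ψ : G → ℂ) *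
      K D.S D.zP (ψ : G → ℂ) ((φ : IrrCharacter G) : G → ℂ)) fun ψ hψ => by
        rw [K_eq_zero_left D.S D.zP hψ, mul_zero], K_idem]
    push_cast
    ring
  · obtain ⟨k, hk0, hk⟩ := exists_exp D.S (D.rot i)
    obtain ⟨ψ, hψ⟩ := D.exists_ht_zero
    have hd : blockDefect 2 (pr D.S (D.rot i)).2.1 + 1 = blockDefect 2 D.S.B.1 :=
      Nat.pow_right_injective le_rfl (show 2 ^ _ = 2 ^ _ by
        rw [pow_succ, D.defect_rot hi, D.two_pow_defect]; ring)
    have h1 := cM_minor_mem D.S (D.rot i) hk0 hk (by omega) χ.2 ψ.2 hψ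
    rw [hcM i hi hk0 hk, show blockHeight 2 D.S.B.1 ((χ : IrrCharacter G) : G → ℂ) = D.Ht χ from rfl,
      show blockDefect 2 D.S.B.1 - blockDefect 2 (pr D.S (D.rot i)).2.1 = 1 by omega, pow_one] at h1
    obtain ⟨t, ht⟩ := Nat.exists_eq_add_of_le' h2
    set c := conj (col N i ψ.1) with hc
    have hcni : ¬ MemLocalIdeal M (c ^ 2) := fun e => by
      refine hzero i hi ψ hψ (Block.memLocalIdeal_mul_left (hring _ _) ?_)
      rw [sq] at e
      exact (memLocalIdeal_mul_imp (hringc _ _) (hringc _ _) e).elim id id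
    have h2' : MemLocalIdeal M (col N i χ.1 ^ 2 * c ^ 2 / 4) := by
      have h3 := Block.memLocalIdeal_mul_left (Block.memLocalRing_of_memLocalIdeal h1) h1
      have h4 := Block.memLocalIdeal_mul_left (natCast_mem (Block.localRing M) (4 ^ t)) h3
      convert h4 using 1
      rw [ht]
      push_cast
      rw [show (2 : ℂ) ^ (t + 2) = 2 ^ t * 4 by ring, show (4 : ℂ) ^ t = 2 ^ t * 2 ^ t by
        rw [← mul_pow]; norm_num]
      field_simp
      ring
    simp only [hcolN]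
    refine ⟨fun e => hcni ?_, fun e => hcni ?_, fun e => hcni ?_⟩ <;> rw [e] at h2'
    · have := Block.memLocalIdeal_mul_left (intCast_mem (Block.localRing M) 2) h2'
      convert this using 1
      push_cast; ring
    · have := Block.memLocalIdeal_mul_left (intCast_mem (Block.localRing M) (-2)) h2'
      convert this using 1
      push_cast; ring
    · convert h2' using 1
      ring

theorem blockRank_one : blockRank 2 (pr D.S 1).2.1 = blockRank 2 D.S.B.1 := by
  rw [← rkAt_one D.S]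
  exact (rkAt_eq (f := (pr D.S 1).2) D.S.isPGroup (pr_sle D.S 1)).symm

theorem card_mid : (Finset.univ.filter fun i : ZMod (2 * h) => Mid i).card = 2 * h - 2 := by
  have e : (Finset.univ.filter fun i : ZMod (2 * h) => Mid i) =
      Finset.univ \ {0, (h : ZMod (2 * h))} := by
    refine Finset.ext fun i => Finset.mem_filter.trans ?_
    simp [Mid]
  rw [e, Finset.card_sdiff_of_subset (Finset.subset_univ _),
    Finset.card_pair (half_ne_zero (h := h)).symm, Finset.card_univ, ZMod.card]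

/-- The number of characters of the block. -/
theorem card_block : Fintype.card D.S.B.1 + 1 =
    blockRank 2 D.S.B.1 + blockRank 2 (pr D.S D.zP).2.1 + h + D.XC.card := by
  have h1 : (Fintype.card D.S.B.1 : ℂ) =
      ∑ v : D.S.P, (blockRank 2 (pr D.S v).2.1 : ℂ) / ((cls D.S v).card : ℂ) := by
    calc (Fintype.card D.S.B.1 : ℂ) = ∑ χ : D.S.B.1,
        (if (χ : IrrCharacter G) = χ.1 then (1 : ℂ) else 0) := by simp
      _ = ∑ χ : D.S.B.1, ∑ v : D.S.P, K D.S v ((χ : IrrCharacter G) : G → ℂ)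
          ((χ : IrrCharacter G) : G → ℂ) / ((cls D.S v).card : ℂ) :=
          Finset.sum_congr rfl fun χ _ => (delta_eq D.S χ.2 χ.1).symm
      _ = _ := by
          rw [Finset.sum_comm]
          exact Finset.sum_congr rfl fun v _ => by rw [← Finset.sum_div, sum_K_self]
  rw [D.sum_cls_eq (fun v => (blockRank 2 (pr D.S v).2.1 : ℂ)) fun v v' hv => by
      rw [← sum_K_self D.S v', ← sum_K_self D.S v]
      exact Finset.sum_congr rfl fun χ _ => K_eq_of_mem_cls D.S hv _ _,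
    D.blockRank_one] at h1
  have h2 : (∑ i : ZMod (2 * h), if Mid i then
      (blockRank 2 (pr D.S (D.rot i)).2.1 : ℂ) / 2 else 0) = (h : ℂ) - 1 := by
    rw [← Finset.sum_filter, Finset.sum_congr rfl fun i hi => by
      rw [D.rank_rot (Finset.mem_filter.1 hi).2], Finset.sum_const, card_mid (h := h), nsmul_eq_mul,
      Nat.cast_sub (by have := D.two_le; omega)]
    push_cast
    ring
  have h3 : ∑ C ∈ D.XC, (blockRank 2 (pr D.S (D.rep C)).2.1 : ℂ) = (D.XC.card : ℂ) := by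
    rw [Finset.sum_congr rfl fun C hC => by rw [D.rank_X (D.rep_X hC).1], Finset.sum_const,
      nsmul_eq_mul, Nat.cast_one, mul_one]
  rw [h2, h3] at h1
  apply Nat.cast_injective (R := ℂ)
  push_cast
  linear_combination h1

/-- The orthogonal rows at the central involution. -/
theorem zOrth_le (T : Finset D.S.B.1) (hT : ZOrth D.Zm T) :
    T.card ≤ blockRank 2 (pr D.S D.zP).2.1 :=
  card_le_rank D.S D.zP T
    (fun χ hχ e => hT.1 χ hχ (Int.cast_eq_zero.1 (by rw [D.Zm_spec, e, mul_zero] :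
      ((D.Zm χ χ : ℤ) : ℂ) = 0)))
    fun χ hχ ψ hψ hne => (mul_eq_zero.1 (by
      rw [← D.Zm_spec, hT.2 χ hχ ψ hψ hne, Int.cast_zero])).resolve_left D.four_h_ne

end Ctx

end Cfsg.Agent.BlockTame
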