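import Cfsg.Agent.BlockTame.Arith

/-!
# The shape of the columns
-/

set_option autoImplicit false
set_option maxHeartbeats 800000
set_option linter.unusedSectionVars false

noncomputable section

namespace Cfsg.Agent.BlockTame

open Cfsg.Agent.BlockDih (col)
open scoped ComplexConjugate Classical

namespace Ctx

variable {h : ℕ} [NeZero (2 * h)] {ι : Type*} [Fintype ι]

theorem sq_le_one {v : ι → ℤ} {k : ℤ} (hv : ∑ χ, v χ ^ 2 = k) (hk : k ≤ 3) (χ : ι) :
    v χ ^ 2 = 0 ∨ v χ ^ 2 = 1 := by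
  have h1 : v χ ^ 2 ≤ 3 :=
    (Finset.single_le_sum (fun x _ => sq_nonneg (v x)) (Finset.mem_univ χ)).trans (hv.le.trans hk)
  have h2 : v χ ≤ 1 := by nlinarith
  have h3 : -1 ≤ v χ := by nlinarith
  interval_cases (v χ) <;> simp

theorem one_le_sq_of_ne_zero {z : ℤ} (hz : z ≠ 0) : 1 ≤ z ^ 2 := by
  have : 0 < z ^ 2 := by positivity
  omega

theorem card_filter_ev : (Finset.univ.filter fun r : ZMod (2 * h) => Ev r).card = h := by
  have he : (Finset.univ.filter fun r : ZMod (2 * h) => Ev r) =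
      (Finset.range h).image fun k : ℕ => ((2 * k : ℕ) : ZMod (2 * h)) := by
    ext r
    simp only [Finset.mem_filter, Finset.mem_univ, true_and, Finset.mem_image, Finset.mem_range]
    constructor
    · intro hr
      obtain ⟨l, hl⟩ := ev_iff.1 hr
      have := ZMod.val_lt r
      exact ⟨l, by omega, by rw [show 2 * l = r.val by omega, ZMod.natCast_zmod_val]⟩
    · rintro ⟨k, -, rfl⟩
      exact ⟨k, by push_cast; ring⟩
  rw [he, Finset.card_image_of_injOn, Finset.card_range]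
  intro a ha b hb e
  simp only [Finset.coe_range, Set.mem_Iio] at ha hb
  have := congrArg ZMod.val e
  rw [ZMod.val_natCast, ZMod.val_natCast, Nat.mod_eq_of_lt (by omega),
    Nat.mod_eq_of_lt (by omega)] at this
  omega

/-- The even exponents away from the centre. -/
def evs (h : ℕ) [NeZero (2 * h)] : Finset (ZMod (2 * h)) :=
  Finset.univ.filter fun r => Ev r ∧ Mid r

/-- The odd exponents. -/
def odds (h : ℕ) [NeZero (2 * h)] : Finset (ZMod (2 * h)) :=
  Finset.univ.filter fun r => ¬ Ev r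

theorem mem_evs {r : ZMod (2 * h)} : r ∈ evs h ↔ Ev r ∧ Mid r := by simp [evs]

theorem mem_odds {r : ZMod (2 * h)} : r ∈ odds h ↔ ¬ Ev r := by simp [odds]

theorem card_odds : (odds h).card = h := by
  have := Finset.card_filter_add_card_filter_not (s := (Finset.univ : Finset (ZMod (2 * h))))
    (fun r => Ev r)
  rw [card_filter_ev, Finset.card_univ, ZMod.card] at this
  simp only [odds]
  omega

/-- The consistency of signs with the translation by the central exponent. -/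
def Signs (N : ι → ZMod (2 * h) → ℤ) (ε : ι → ℤ) : Prop :=
  ∀ χ, (ε χ = 1 ∨ ε χ = -1) ∧ ∀ i : ZMod (2 * h), Mid i → col N (i + (h : ZMod (2 * h))) χ = (ε χ : ℂ) * col N i χ

/-- A set of members with orthogonal rows. -/
def ZOrth (Z : ι → ι → ℤ) (T : Finset ι) : Prop :=
  (∀ χ ∈ T, Z χ χ ≠ 0) ∧ ∀ χ ∈ T, ∀ ψ ∈ T, χ ≠ ψ → Z χ ψ = 0

variable (h) in
/-- The generic shape. -/
structure Generic (N : ι → ZMod (2 * h) → ℤ) (Ht : ι → ℕ) (Z : ι → ι → ℤ) (m : ℕ) : Prop where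
  card_zero : (Finset.univ.filter fun χ => Ht χ = 0).card = 4
  heights : ∀ χ, Ht χ = 0 ∨ Ht χ = 1 ∨ Ht χ = m + 1
  lower : 4 ≤ h → h + 3 ≤ Fintype.card ι
  lower_two : 4 ≤ Fintype.card ι
  card_one : 4 ≤ h → (Finset.univ.filter fun χ => Ht χ = 1).card = h - 1
  upper : ∀ lz, (∀ T, ZOrth Z T → T.card ≤ lz) →
    (4 ≤ h → Fintype.card ι ≤ h + 2 + lz) ∧ (h = 2 → Fintype.card ι ≤ 4 + lz)
  plus : ∀ ε, Signs N ε → h / 2 + 3 ≤ (Finset.univ.filter fun χ => ε χ = 1).card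

variable (h) in
/-- The exceptional shapes. -/
def Exceptional (N : ι → ZMod (2 * h) → ℤ) : Prop :=
  (h = 8 ∧ Fintype.card ι = 9 ∧ ∀ ε, Signs N ε →
    (Finset.univ.filter fun χ => ε χ = 1).card ≤ 5 ∧
      (Finset.univ.filter fun χ => ε χ = -1).card ≤ 5) ∨
  (h = 4 ∧ Fintype.card ι = 5 ∧ ∀ ε, ¬ Signs N ε)

namespace Cols

variable {σ : ZMod (2 * h)} {N : ι → ZMod (2 * h) → ℤ} {Ht : ι → ℕ} {d : ι → ℝ} {Z : ι → ι → ℤ}
  {m : ℕ} (C : Cols σ N Ht d Z m)

include C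

theorem card_evs : (evs h).card = h - 2 := by
  have e : evs h =
      (Finset.univ.filter fun r : ZMod (2 * h) => Ev r) \ {0, (h : ZMod (2 * h))} := by
    ext r; simp [mem_evs, Mid]
  have hsub : ({0, (h : ZMod (2 * h))} : Finset _) ⊆
      Finset.univ.filter fun r : ZMod (2 * h) => Ev r := by
    intro r hr
    simp only [Finset.mem_insert, Finset.mem_singleton] at hr
    refine Finset.mem_filter.2 ⟨Finset.mem_univ _, ?_⟩
    rcases hr with rfl | rfl
    · exact ⟨0, by rw [mul_zero]⟩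
    · exact C.ev_h
  rw [e, Finset.card_sdiff_of_subset hsub, card_filter_ev,
    Finset.card_pair (half_ne_zero (h := h)).symm]

theorem σ_mem_evs {r : ZMod (2 * h)} (hr : r ∈ evs h) : σ * r ∈ evs h := by
  rw [mem_evs] at hr ⊢
  exact ⟨C.ev_σ'.2 hr.1, C.mid_σ' hr.2⟩

theorem σ_mem_odds {r : ZMod (2 * h)} (hr : r ∈ odds h) : σ * r ∈ odds h := by
  rw [mem_odds] at hr ⊢
  exact fun e => hr (C.ev_σ'.1 e)

theorem two_mul_card_image {α : Type*} [DecidableEq α] (E : Finset (ZMod (2 * h)))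
    (f : ZMod (2 * h) → α) (hσ : ∀ r ∈ E, σ * r ∈ E) (hm : ∀ r ∈ E, Mid r)
    (hf : ∀ r ∈ E, ∀ s ∈ E, (f r = f s ↔ s = r ∨ s = σ * r)) :
    2 * (E.image f).card = E.card := by
  rw [Finset.card_eq_sum_card_image f E, Finset.sum_const_nat (m := 2), mul_comm]
  intro a ha
  obtain ⟨r, hr, rfl⟩ := Finset.mem_image.1 ha
  have e : E.filter (fun s => f s = f r) = {r, σ * r} := by
    ext s
    simp only [Finset.mem_filter, Finset.mem_insert, Finset.mem_singleton]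
    refine ⟨fun hh => (hf r hr s hh.1).1 hh.2.symm, fun hh => ?_⟩
    have hs : s ∈ E := by
      rcases hh with rfl | rfl
      · exact hr
      · exact hσ r hr
    exact ⟨hs, ((hf r hr s hs).2 hh).symm⟩
  rw [e, Finset.card_pair ((C.σ_fix r).1 (hm r hr)).symm]

theorem top_props : (Finset.univ.filter fun χ => Ht χ = 0).card = 4 ∧
    (∀ χ, Ht χ = 0 → (N χ h - N χ 0) ^ 2 = 1) ∧ ∀ χ, Ht χ ≠ 0 → N χ h - N χ 0 = 0 := by
  set t : ι → ℤ := fun χ => N χ h - N χ 0 with ht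
  have h4 : ∑ χ, t χ ^ 2 = 4 := by
    simp only [ht, sq]
    rw [C.diff_inner (sp_ev C.ev_h ⟨0, by rw [mul_zero]⟩) (sp_ev C.ev_h ⟨0, by rw [mul_zero]⟩),
      C.dl_fixed fun e => e.2 rfl, C.dl_fixed fun e => e.1 rfl, C.dl_zero_half.1,
      C.dl_zero_half.2]
    norm_num
  set S := Finset.univ.filter fun χ => Ht χ = 0 with hS
  have h1 : ∀ χ ∈ S, (1 : ℤ) ≤ t χ ^ 2 := fun χ hχ => one_le_sq_of_ne_zero fun e => by
    have := C.odd_top (Finset.mem_filter.1 hχ).2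
    rw [show N χ h - N χ 0 = 0 from e] at this
    exact absurd this (by decide)
  have hle : ∑ χ ∈ S, t χ ^ 2 ≤ 4 :=
    h4 ▸ Finset.sum_le_univ_sum_of_nonneg fun χ => sq_nonneg _
  have hcard : ((S.card : ℕ) : ℤ) ≤ 4 := by
    refine le_trans ?_ hle
    rw [Finset.cast_card]
    exact Finset.sum_le_sum h1
  have hpos : 0 < S.card := by
    obtain ⟨χ, hχ⟩ := C.exists_zero
    exact Finset.card_pos.2 ⟨χ, by simp [hS, hχ]⟩
  have hS4 : S.card = 4 := by
    obtain ⟨c, hc⟩ := C.four_dvd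
    rw [← hS] at hc
    omega
  have hge : ∑ _χ ∈ S, (1 : ℤ) ≤ ∑ χ ∈ S, t χ ^ 2 := Finset.sum_le_sum h1
  rw [Finset.sum_const, hS4] at hge
  have heq : ∑ χ ∈ S, t χ ^ 2 = 4 := le_antisymm hle (by simpa using hge)
  refine ⟨hS4, fun χ hχ => ?_, fun χ hχ => ?_⟩
  · have := (Finset.sum_eq_sum_iff_of_le h1).1 (by rw [heq, Finset.sum_const, hS4]; simp) χ
      (by simp [hS, hχ])
    exact this.symm
  · have := Finset.sum_filter_add_sum_filter_not Finset.univ (fun χ => Ht χ = 0) fun χ => t χ ^ 2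
    rw [← hS, heq, h4] at this
    have h0 := (Finset.sum_eq_zero_iff_of_nonneg fun χ _ => sq_nonneg (t χ)).1
      (by linarith : ∑ χ ∈ Finset.univ.filter (fun χ => ¬ Ht χ = 0), t χ ^ 2 = 0) χ (by simp [hχ])
    exact pow_eq_zero_iff two_ne_zero |>.1 h0

/-- The part of height zero of the difference at an even exponent. -/
theorem x_shape {r : ZMod (2 * h)} (hr : r ∈ evs h) :
    ∃ w, Ht w ≠ 0 ∧ (N w r - N w 0) ^ 2 = 1 ∧
      (Finset.univ.filter fun χ => Ht χ = 0 ∧ N χ r - N χ 0 ≠ 0).card = 2 ∧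
      (∀ χ, Ht χ = 0 → N χ r - N χ 0 ≠ 0 → N χ r - N χ 0 = N χ h - N χ 0) ∧
      ∀ χ, Ht χ ≠ 0 → χ ≠ w → N χ r - N χ 0 = 0 := by
  obtain ⟨hev, hmid⟩ := mem_evs.1 hr
  obtain ⟨-, ht1, ht0⟩ := C.top_props
  set t : ι → ℤ := fun χ => N χ h - N χ 0 with ht
  set x : ι → ℤ := fun χ => N χ r - N χ 0 with hx
  have hE0 : Ev (0 : ZMod (2 * h)) := ⟨0, by rw [mul_zero]⟩
  have hd := C.dl_mid_fixed hmid (y := (0 : ZMod (2 * h))) fun e => e.1 rfl
  have hd' := C.dl_mid_fixed hmid (y := (h : ZMod (2 * h))) fun e => e.2 rfl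
  have h3 : ∑ χ, x χ ^ 2 = 3 := by
    simp only [hx, sq]
    rw [C.diff_inner (sp_ev hev hE0) (sp_ev hev hE0), C.dl_self hmid,
      C.dl_fixed fun e => e.1 rfl, hd.1, hd.2]
    norm_num
  have h2 : ∑ χ, x χ * t χ = 2 := by
    simp only [hx, ht]
    rw [C.diff_inner (sp_ev hev hE0) (sp_ev C.ev_h hE0), C.dl_fixed fun e => e.1 rfl, hd.1, hd'.1,
      C.dl_zero_half.1]
    norm_num
  have hx1 : ∀ χ, x χ ≠ 0 → x χ ^ 2 = 1 := fun χ hχ =>
    (sq_le_one h3 le_rfl χ).resolve_left (pow_ne_zero 2 hχ)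
  set P := Finset.univ.filter fun χ => x χ ≠ 0 with hP
  have hP3 : P.card = 3 := by
    have e : ∀ χ, x χ ^ 2 = if x χ ≠ 0 then (1 : ℤ) else 0 := fun χ => by
      by_cases hχ : x χ = 0
      · simp [hχ]
      · simp [hχ, hx1 χ hχ]
    simp only [e, Finset.sum_boole, ← hP] at h3
    exact_mod_cast h3
  set A := Finset.univ.filter fun χ => Ht χ = 0 ∧ x χ ≠ 0 with hA
  have hAP : A ⊆ P := fun χ hχ => by
    simp only [hA, hP, Finset.mem_filter] at hχ ⊢
    exact ⟨hχ.1, hχ.2.2⟩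
  have hxt : ∀ χ ∈ A, x χ * t χ = 1 ∨ x χ * t χ = -1 := fun χ hχ => by
    obtain ⟨-, h0, hne⟩ := Finset.mem_filter.1 hχ
    apply sq_eq_one_iff.1
    rw [mul_pow, hx1 χ hne, show t χ ^ 2 = 1 from ht1 χ h0, mul_one]
  have h2' : ∑ χ ∈ A, x χ * t χ = 2 := by
    rw [← h2]
    refine Finset.sum_subset (Finset.subset_univ _) fun χ _ hχ => ?_
    by_cases h0 : Ht χ = 0
    · have : x χ = 0 := by
        by_contra hne
        exact hχ (by simp [hA, h0, hne])
      rw [this, zero_mul]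
    · rw [show t χ = 0 from ht0 χ h0, mul_zero]
  have hA2 : A.card = 2 := by
    have hle : A.card ≤ 3 := hP3 ▸ Finset.card_le_card hAP
    have hge : (2 : ℤ) ≤ A.card := by
      rw [← h2', Finset.cast_card]
      exact Finset.sum_le_sum fun χ hχ => by rcases hxt χ hχ with e | e <;> omega
    have hpar : (2 : ℤ) ∣ ∑ χ ∈ A, (1 - x χ * t χ) := Finset.dvd_sum fun χ hχ => by
      rcases hxt χ hχ with e | e <;> rw [e] <;> decide
    rw [Finset.sum_sub_distrib, h2', ← Finset.cast_card] at hpar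
    omega
  have hA1 : ∀ χ ∈ A, x χ = t χ := by
    intro χ hχ
    have h1 : x χ * t χ = 1 := by
      refine (Finset.sum_eq_sum_iff_of_le (f := fun χ => x χ * t χ) (g := fun _ => (1 : ℤ))
        fun ψ hψ => by rcases hxt ψ hψ with e | e <;> omega).1 ?_ χ hχ
      rw [h2', ← Finset.cast_card, hA2]
      rfl
    have h0 := (Finset.mem_filter.1 hχ).2.1
    calc x χ = x χ * t χ ^ 2 := by rw [show t χ ^ 2 = 1 from ht1 χ h0, mul_one]
      _ = x χ * t χ * t χ := by ring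
      _ = t χ := by rw [h1, one_mul]
  obtain ⟨w, hw⟩ : ∃ w, P \ A = {w} := Finset.card_eq_one.1 (by
    rw [Finset.card_sdiff_of_subset hAP, hP3, hA2])
  have hwm : w ∈ P \ A := hw ▸ Finset.mem_singleton_self w
  obtain ⟨hwP, hwA⟩ := Finset.mem_sdiff.1 hwm
  have hwne := (Finset.mem_filter.1 hwP).2
  refine ⟨w, fun h0 => hwA (by simp [hA, h0, hwne]), hx1 w hwne, hA2, fun χ h0 hne =>
    hA1 χ (by simp [hA, h0]; exact hne), fun χ h0 hne => ?_⟩
  by_contra hxne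
  have : χ ∈ P \ A := Finset.mem_sdiff.2 ⟨by simp [hP]; exact hxne, by simp [hA, h0]⟩
  rw [hw, Finset.mem_singleton] at this
  exact hne this

/-- The members of height zero met at an even exponent. -/
def _root_.Cfsg.Agent.BlockTame.Ctx.edge (N : ι → ZMod (2 * h) → ℤ) (Ht : ι → ℕ)
    (r : ZMod (2 * h)) : Finset ι :=
  Finset.univ.filter fun χ => Ht χ = 0 ∧ N χ r - N χ 0 ≠ 0

theorem x_σ (r : ZMod (2 * h)) (χ : ι) : N χ (σ * r) - N χ 0 = N χ r - N χ 0 := by rw [C.symm]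

/-- The members attached to the even exponents. -/
theorem exists_w : ∃ w : ZMod (2 * h) → ι, ∀ r ∈ evs h,
    Ht (w r) ≠ 0 ∧ (N (w r) r - N (w r) 0) ^ 2 = 1 ∧ (edge N Ht r).card = 2 ∧
      (∀ χ, Ht χ = 0 → N χ r - N χ 0 ≠ 0 → N χ r - N χ 0 = N χ h - N χ 0) ∧
      (∀ χ, Ht χ ≠ 0 → χ ≠ w r → N χ r - N χ 0 = 0) ∧ w (σ * r) = w r := by
  obtain ⟨χ0, -⟩ := C.exists_zero
  have key : ∀ r, ∃ w, r ∈ evs h → Ht w ≠ 0 ∧ (N w r - N w 0) ^ 2 = 1 ∧
      (edge N Ht r).card = 2 ∧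
      (∀ χ, Ht χ = 0 → N χ r - N χ 0 ≠ 0 → N χ r - N χ 0 = N χ h - N χ 0) ∧
      ∀ χ, Ht χ ≠ 0 → χ ≠ w → N χ r - N χ 0 = 0 := fun r => by
    by_cases hr : r ∈ evs h
    · obtain ⟨w, hw⟩ := C.x_shape hr
      exact ⟨w, fun _ => hw⟩
    · exact ⟨χ0, fun e => absurd e hr⟩
  choose w hw using key
  refine ⟨w, fun r hr => ?_⟩
  obtain ⟨h1, h2, h3, h4, h5⟩ := hw r hr
  refine ⟨h1, h2, h3, h4, h5, ?_⟩
  by_contra hne
  obtain ⟨g1, -, -, -, g5⟩ := hw _ (C.σ_mem_evs hr)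
  have e := g5 (w r) h1 (Ne.symm hne)
  rw [C.x_σ] at e
  rw [e] at h2
  norm_num at h2

theorem edge_σ (r : ZMod (2 * h)) : edge N Ht (σ * r) = edge N Ht r := by
  simp only [edge, C.x_σ]

theorem edge_or {w : ZMod (2 * h) → ι} (hw : ∀ r ∈ evs h,
      Ht (w r) ≠ 0 ∧ (N (w r) r - N (w r) 0) ^ 2 = 1 ∧ (edge N Ht r).card = 2 ∧
      (∀ χ, Ht χ = 0 → N χ r - N χ 0 ≠ 0 → N χ r - N χ 0 = N χ h - N χ 0) ∧
      (∀ χ, Ht χ ≠ 0 → χ ≠ w r → N χ r - N χ 0 = 0) ∧ w (σ * r) = w r)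
    {r s : ZMod (2 * h)} (hr : r ∈ evs h) (hs : s ∈ evs h) (h1 : s ≠ r) (h2 : s ≠ σ * r) :
    (edge N Ht r = edge N Ht s ∧ w r ≠ w s) ∨ (edge N Ht r ≠ edge N Ht s ∧ w r = w s) := by
  obtain ⟨a1, a2, a3, a4, a5, -⟩ := hw r hr
  obtain ⟨b1, b2, b3, b4, b5, -⟩ := hw s hs
  obtain ⟨-, ht1, -⟩ := C.top_props
  obtain ⟨hev, hmid⟩ := mem_evs.1 hr
  obtain ⟨hev', hmid'⟩ := mem_evs.1 hs
  have hE0 : Ev (0 : ZMod (2 * h)) := ⟨0, by rw [mul_zero]⟩
  have hsum : ∑ χ, (N χ r - N χ 0) * (N χ s - N χ 0) = 2 := by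
    rw [C.diff_inner (sp_ev hev hE0) (sp_ev hev' hE0),
      (C.dl_mid_fixed hmid fun e => e.1 rfl).1, (C.dl_mid_fixed hmid' fun e => e.1 rfl).2,
      C.dl_fixed fun e => e.1 rfl, C.dl_eq_zero (Ne.symm h1) fun e => h2 (by rw [e, C.σ_σ'])]
    norm_num
  have hS : ∑ χ ∈ Finset.univ.filter (fun χ => Ht χ = 0),
      (N χ r - N χ 0) * (N χ s - N χ 0) = ((edge N Ht r ∩ edge N Ht s).card : ℤ) := by
    rw [Finset.cast_card, eq_comm]
    refine Eq.trans (Finset.sum_congr rfl fun χ hχ => ?_)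
      (Finset.sum_subset (fun χ hχ => ?_) fun χ hχ hχ' => ?_)
    · obtain ⟨he, he'⟩ := Finset.mem_inter.1 hχ
      obtain ⟨-, h0, hne⟩ := Finset.mem_filter.1 he
      obtain ⟨-, -, hne'⟩ := Finset.mem_filter.1 he'
      rw [a4 χ h0 hne, b4 χ h0 hne', ← sq, ht1 χ h0]
    · exact Finset.mem_filter.2 ⟨Finset.mem_univ _, (Finset.mem_filter.1
        (Finset.mem_inter.1 hχ).1).2.1⟩
    · simp only [edge, Finset.mem_inter, Finset.mem_filter, Finset.mem_univ, true_and] at hχ hχ'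
      simp only [hχ, true_and] at hχ'
      rw [mul_eq_zero]
      tauto
  have htot := Finset.sum_filter_add_sum_filter_not Finset.univ (fun χ => Ht χ = 0)
    fun χ => (N χ r - N χ 0) * (N χ s - N χ 0)
  rw [hS, hsum] at htot
  have hsub := Finset.card_le_card (Finset.inter_subset_left :
    edge N Ht r ∩ edge N Ht s ⊆ edge N Ht r)
  by_cases he : w r = w s
  · refine Or.inr ⟨fun ee => ?_, he⟩
    rw [ee, Finset.inter_self, b3] at htot
    rw [Finset.sum_eq_single (w r) (fun χ hχ hne => by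
      rw [a5 χ (Finset.mem_filter.1 hχ).2 hne, zero_mul]) (fun hh => absurd (by simp [a1]) hh)] at htot
    rw [he] at a2 htot
    rcases sq_eq_one_iff.1 a2 with e | e <;> rcases sq_eq_one_iff.1 b2 with e' | e' <;>
      rw [e, e'] at htot <;> norm_num at htot
  · refine Or.inl ⟨?_, he⟩
    rw [Finset.sum_eq_zero (fun χ hχ => by
      by_cases hne : χ = w r
      · rw [b5 χ (Finset.mem_filter.1 hχ).2 (hne ▸ he), mul_zero]
      · rw [a5 χ (Finset.mem_filter.1 hχ).2 hne, zero_mul])] at htot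
    have hc : (edge N Ht r ∩ edge N Ht s).card = 2 := by omega
    have e1 := Finset.eq_of_subset_of_card_le
      (Finset.inter_subset_left : edge N Ht r ∩ edge N Ht s ⊆ edge N Ht r) (by omega)
    have e2 := Finset.eq_of_subset_of_card_le
      (Finset.inter_subset_right : edge N Ht r ∩ edge N Ht s ⊆ edge N Ht s) (by omega)
    exact e1.symm.trans e2

theorem y_pair {r s : ZMod (2 * h)} (hr : ¬ Ev r) (hs : ¬ Ev s) (h1 : s ≠ r) (h2 : s ≠ σ * r) :
    ∃ p q, p ≠ q ∧ N p r - N p s = 1 ∧ N q r - N q s = -1 ∧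
      ∀ χ, χ ≠ p → χ ≠ q → N χ r - N χ s = 0 := by
  have h2' : ∑ χ, (N χ r - N χ s) ^ 2 = 2 := by
    simp only [sq]
    rw [C.diff_inner (sp_odd hr hs) (sp_odd hr hs), C.dl_self (C.mid_of_not_ev hr),
      C.dl_self (C.mid_of_not_ev hs), C.dl_eq_zero (Ne.symm h1) fun e => h2 (by rw [e, C.σ_σ']),
      C.dl_eq_zero h1 h2]
    norm_num
  have hv := fun χ => sq_le_one h2' (by norm_num) χ
  set P := Finset.univ.filter fun χ => N χ r - N χ s ≠ 0 with hP
  have hP2 : P.card = 2 := by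
    have e : ∀ χ, (N χ r - N χ s) ^ 2 = if N χ r - N χ s ≠ 0 then (1 : ℤ) else 0 := fun χ => by
      by_cases hχ : N χ r - N χ s = 0
      · simp [hχ]
      · rw [if_pos hχ]
        exact (hv χ).resolve_left (pow_ne_zero 2 hχ)
    simp only [e, Finset.sum_boole, ← hP] at h2'
    exact_mod_cast h2'
  obtain ⟨p, q, hpq, he⟩ := Finset.card_eq_two.1 hP2
  have hz : ∀ χ, χ ≠ p → χ ≠ q → N χ r - N χ s = 0 := fun χ a b => by
    by_contra hne
    have : χ ∈ ({p, q} : Finset ι) := he ▸ (by simp [hP]; exact hne)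
    simp [a, b] at this
  have hd := C.d_diff (sp_odd hr hs)
  rw [← Finset.sum_subset (Finset.subset_univ ({p, q} : Finset ι)) (fun χ _ hχ => by
    simp only [Finset.mem_insert, Finset.mem_singleton, not_or] at hχ
    rw [hz χ hχ.1 hχ.2, Int.cast_zero, mul_zero]), Finset.sum_pair hpq] at hd
  have hp : N p r - N p s ≠ 0 :=
    (Finset.mem_filter.1 (he ▸ (by simp) : p ∈ P)).2
  have hq : N q r - N q s ≠ 0 :=
    (Finset.mem_filter.1 (he ▸ (by simp) : q ∈ P)).2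
  have hp' := sq_eq_one_iff.1 ((hv p).resolve_left (pow_ne_zero 2 hp))
  have hq' := sq_eq_one_iff.1 ((hv q).resolve_left (pow_ne_zero 2 hq))
  have := C.d_pos p
  have := C.d_pos q
  rcases hp' with a | a <;> rcases hq' with b | b <;> rw [a, b] at hd <;> push_cast at hd
  · linarith
  · exact ⟨p, q, hpq, a, b, hz⟩
  · exact ⟨q, p, hpq.symm, b, a, fun χ c d' => hz χ d' c⟩
  · linarith

theorem sum_pair_values {p q : ι} {v g : ι → ℤ} (hpq : p ≠ q) (hp : v p = 1) (hq : v q = -1)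
    (hz : ∀ χ, χ ≠ p → χ ≠ q → v χ = 0) : ∑ χ, v χ * g χ = g p - g q := by
  rw [← Finset.sum_subset (Finset.subset_univ ({p, q} : Finset ι)) (fun χ _ hχ => by
    simp only [Finset.mem_insert, Finset.mem_singleton, not_or] at hχ
    rw [hz χ hχ.1 hχ.2, zero_mul]), Finset.sum_pair hpq, hp, hq]
  ring

/-- The members attached to the odd exponents form a star. -/
theorem exists_u (h4 : 4 ≤ h) : ∃ (b : ι → ℤ) (η : ℤ) (u : ZMod (2 * h) → ι),
    (η = 1 ∨ η = -1) ∧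
      (∀ r ∈ odds h, ∀ χ, N χ r = b χ + if χ = u r then η else 0) ∧
      ∀ r ∈ odds h, ∀ s ∈ odds h, (u r = u s ↔ s = r ∨ s = σ * r) := by
  set r0 : ZMod (2 * h) := 1 with hr0
  have h0 : ¬ Ev r0 := C.not_ev_one
  obtain ⟨χ0, -⟩ := C.exists_zero
  have key : ∀ s, ∃ p q, s ∈ odds h → s ≠ r0 → s ≠ σ * r0 → p ≠ q ∧ N p r0 - N p s = 1 ∧
      N q r0 - N q s = -1 ∧ ∀ χ, χ ≠ p → χ ≠ q → N χ r0 - N χ s = 0 := fun s => by
    by_cases hs : s ∈ odds h ∧ s ≠ r0 ∧ s ≠ σ * r0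
    · obtain ⟨p, q, hh⟩ := C.y_pair h0 (mem_odds.1 hs.1) hs.2.1 hs.2.2
      exact ⟨p, q, fun _ _ _ => hh⟩
    · exact ⟨χ0, χ0, fun a b c => absurd ⟨a, b, c⟩ hs⟩
  choose p q hpq using key
  set O' := (odds h).filter fun s => s ≠ r0 ∧ s ≠ σ * r0 with hO'
  have hY : ∀ s ∈ O', p s ≠ q s ∧ N (p s) r0 - N (p s) s = 1 ∧
      N (q s) r0 - N (q s) s = -1 ∧ ∀ χ, χ ≠ p s → χ ≠ q s → N χ r0 - N χ s = 0 := fun s hs => by
    obtain ⟨a, b, c⟩ := Finset.mem_filter.1 hs
    exact hpq s a b c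
  have hsame : ∀ s ∈ O', p (σ * s) = p s ∧ q (σ * s) = q s := by
    intro s hs
    obtain ⟨a, b, c⟩ := Finset.mem_filter.1 hs
    have hs' : σ * s ∈ O' := Finset.mem_filter.2 ⟨C.σ_mem_odds a,
      fun e => c (by rw [← e, C.σ_σ']), fun e => b (by rw [← C.σ_σ' s, e, C.σ_σ'])⟩
    obtain ⟨-, g1, g2, -⟩ := hY _ hs'
    obtain ⟨-, -, -, g⟩ := hY s hs
    rw [C.symm] at g1 g2
    constructor
    · by_contra hne
      by_cases e : p (σ * s) = q s
      · have := (hY s hs).2.2.1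
        rw [← e] at this; omega
      · have := g _ hne e; omega
    · by_contra hne
      by_cases e : q (σ * s) = p s
      · have := (hY s hs).2.1
        rw [← e] at this; omega
      · have := g _ e hne; omega
  have hip : ∀ s ∈ O', ∀ s' ∈ O', s' ≠ s → s' ≠ σ * s →
      (p s = p s' ∨ q s = q s') ∧ ¬ (p s = p s' ∧ q s = q s') := by
    intro s hs s' hs' n1 n2
    obtain ⟨a, b, c⟩ := Finset.mem_filter.1 hs
    obtain ⟨a', b', c'⟩ := Finset.mem_filter.1 hs'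
    obtain ⟨p1, p2, p3, p4⟩ := hY s hs
    obtain ⟨q1, q2, q3, q4⟩ := hY s' hs'
    have e : ∑ χ, (N χ r0 - N χ s) * (N χ r0 - N χ s') = 1 := by
      rw [C.diff_inner (sp_odd h0 (mem_odds.1 a)) (sp_odd h0 (mem_odds.1 a')),
        C.dl_self (C.mid_of_not_ev h0), C.dl_eq_zero (Ne.symm b') fun e => c' (by rw [e, C.σ_σ']),
        C.dl_eq_zero b c, C.dl_eq_zero (Ne.symm n1) fun e => n2 (by rw [e, C.σ_σ'])]
      norm_num
    rw [C.sum_pair_values p1 p2 p3 p4] at e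
    constructor
    · by_contra hne
      push Not at hne
      obtain ⟨k1, k2⟩ := hne
      have u1 : N (p s) r0 - N (p s) s' ≤ 0 := by
        by_cases e1 : p s = q s'
        · rw [e1, q3]; omega
        · rw [q4 _ k1 e1]
      have u2 : 0 ≤ N (q s) r0 - N (q s) s' := by
        by_cases e1 : q s = p s'
        · rw [e1, q2]; omega
        · rw [q4 _ e1 k2]
      omega
    · rintro ⟨k1, k2⟩
      rw [k1, k2, q2, q3] at e
      omega
  obtain ⟨s1, hs1⟩ : O'.Nonempty := by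
    rw [Finset.nonempty_iff_ne_empty]
    intro e
    have : (odds h) ⊆ {r0, σ * r0} := fun s hs => by
      simp only [Finset.mem_insert, Finset.mem_singleton]
      by_contra hne
      push Not at hne
      have : s ∈ O' := Finset.mem_filter.2 ⟨hs, hne⟩
      rw [e] at this
      simp at this
    have := (Finset.card_le_card this).trans (Finset.card_le_two)
    rw [card_odds] at this
    omega
  have hdich : (∀ s ∈ O', p s = p s1) ∨ ∀ s ∈ O', q s = q s1 := by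
    by_cases hA : ∀ s ∈ O', p s = p s1
    · exact Or.inl hA
    push Not at hA
    obtain ⟨s2, hs2, hne2⟩ := hA
    have hc2 : s2 ≠ s1 ∧ s2 ≠ σ * s1 :=
      ⟨fun e => hne2 (by rw [e]), fun e => hne2 (by rw [e, (hsame s1 hs1).1])⟩
    have hq2 : q s2 = q s1 := by
      rcases (hip s1 hs1 s2 hs2 hc2.1 hc2.2).1 with e | e
      · exact absurd e.symm hne2
      · exact e.symm
    refine Or.inr fun s hs => ?_
    by_cases e1 : s = s1
    · rw [e1]
    by_cases e2 : s = σ * s1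
    · rw [e2, (hsame s1 hs1).2]
    rcases (hip s1 hs1 s hs e1 e2).1 with e | e
    · by_cases f1 : s = s2
      · rw [f1, hq2]
      by_cases f2 : s = σ * s2
      · rw [f2, (hsame s2 hs2).2, hq2]
      rcases (hip s2 hs2 s hs f1 f2).1 with g | g
      · exact absurd (g.trans e.symm) hne2
      · exact g.symm.trans hq2
    · exact e.symm
  have hin : ∀ {s}, s ∈ odds h → ¬ (s = r0 ∨ s = σ * r0) → s ∈ O' := fun {s} hs hh => by
    push Not at hh
    exact Finset.mem_filter.2 ⟨hs, hh⟩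
  have main : ∀ (η : ℤ) (c : ι) (g : ZMod (2 * h) → ι), (η = 1 ∨ η = -1) →
      (∀ s ∈ O', g s ≠ c ∧ ∀ χ, N χ r0 - N χ s =
        (if χ = c then η else 0) - if χ = g s then η else 0) →
      (∀ s ∈ O', g (σ * s) = g s) →
      (∀ s ∈ O', ∀ s' ∈ O', s' ≠ s → s' ≠ σ * s → g s ≠ g s') →
      ∃ (b : ι → ℤ) (η : ℤ) (u : ZMod (2 * h) → ι), (η = 1 ∨ η = -1) ∧
        (∀ r ∈ odds h, ∀ χ, N χ r = b χ + if χ = u r then η else 0) ∧
        ∀ r ∈ odds h, ∀ s ∈ odds h, (u r = u s ↔ s = r ∨ s = σ * r) := by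
    intro η c g hη hg hσ hinj
    refine ⟨fun χ => N χ r0 - if χ = c then η else 0, η,
      fun s => if s = r0 ∨ s = σ * r0 then c else g s, hη, fun r hr χ => ?_, fun r hr s hs => ?_⟩
    · dsimp only
      by_cases hc : r = r0 ∨ r = σ * r0
      · simp only [hc, ↓reduceIte]
        rcases hc with rfl | rfl
        · ring
        · rw [C.symm]; ring
      · simp only [hc, ↓reduceIte]
        have := (hg r (hin hr hc)).2 χ
        omega
    · dsimp only
      by_cases hc : r = r0 ∨ r = σ * r0 <;> by_cases hc' : s = r0 ∨ s = σ * r0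
      · rw [if_pos hc, if_pos hc']
        refine iff_of_true rfl ?_
        rcases hc with rfl | rfl <;> rcases hc' with rfl | rfl
        · exact Or.inl rfl
        · exact Or.inr rfl
        · exact Or.inr (C.σ_σ' _).symm
        · exact Or.inl rfl
      · rw [if_pos hc, if_neg hc']
        refine iff_of_false (Ne.symm (hg s (hin hs hc')).1) fun e => hc' ?_
        rcases hc with rfl | rfl
        · exact e
        · rw [C.σ_σ'] at e; exact e.symm
      · rw [if_neg hc, if_pos hc']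
        refine iff_of_false (hg r (hin hr hc)).1 fun e => hc ?_
        rcases e with rfl | rfl
        · exact hc'
        · rcases hc' with e | e
          · exact Or.inr (by rw [← e, C.σ_σ'])
          · exact Or.inl (by rw [← C.σ_σ' r, e, C.σ_σ'])
      · rw [if_neg hc, if_neg hc']
        refine ⟨fun e => ?_, ?_⟩
        · by_contra hne
          push Not at hne
          exact hinj r (hin hr hc) s (hin hs hc') hne.1 hne.2 e
        · rintro (rfl | rfl)
          · rfl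
          · rw [hσ r (hin hr hc)]
  rcases hdich with hp | hq
  · refine main 1 (p s1) q (Or.inl rfl) (fun s hs => ?_) (fun s hs => (hsame s hs).2)
      fun s hs s' hs' a b e => (hip s hs s' hs' a b).2 ⟨(hp s hs).trans (hp s' hs').symm, e⟩
    obtain ⟨g1, g2, g3, g4⟩ := hY s hs
    rw [hp s hs] at g1 g2 g4
    refine ⟨Ne.symm g1, fun χ => ?_⟩
    by_cases e1 : χ = p s1
    · subst e1; rw [if_pos rfl, if_neg g1, g2]; rfl
    by_cases e2 : χ = q s
    · subst e2; rw [if_neg e1, if_pos rfl, g3]; rfl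
    rw [g4 χ e1 e2, if_neg e1, if_neg e2]; rfl
  · refine main (-1) (q s1) p (Or.inr rfl) (fun s hs => ?_) (fun s hs => (hsame s hs).1)
      fun s hs s' hs' a b e => (hip s hs s' hs' a b).2 ⟨e, (hq s hs).trans (hq s' hs').symm⟩
    obtain ⟨g1, g2, g3, g4⟩ := hY s hs
    rw [hq s hs] at g1 g3 g4
    refine ⟨g1, fun χ => ?_⟩
    by_cases e2 : χ = p s
    · subst e2; rw [if_neg g1, if_pos rfl, g2]; rfl
    by_cases e1 : χ = q s1
    · subst e1; rw [if_pos rfl, if_neg e2, g3]; rfl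
    rw [g4 χ e2 e1, if_neg e1, if_neg e2]; rfl

end Cols

end Ctx

end Cfsg.Agent.BlockTame
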