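import Cfsg.Agent.DihSolv.FusionCount
import Cfsg.Agent.BrauerPairs.RelPairs
import Cfsg.Agent.BlkChar.Major
import Cfsg.Agent.BlkStar.GenStar

/-!
# The projections attached to the subsections below a maximal pair

`K D v` is the matrix of the subsection of `v` on the irreducible characters; these projections add
up to the identity of the block along the fusion classes.
-/

set_option autoImplicit false
set_option maxHeartbeats 800000
set_option linter.unusedSectionVars false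
set_option linter.style.haveILetI false

noncomputable section

namespace Cfsg.Agent.BlockTame

open Cfsg Cfsg.Agent.BrauerPairs Cfsg.Agent.BrauerPairs.Nil Cfsg.Agent.BlkStar Cfsg.Agent.BlkWat
open Cfsg.Agent.BlkChar.Contrib Cfsg.Agent.FusionCount
open scoped ComplexConjugate Classical

universe u

variable {p : ℕ} [Fact p.Prime] {M : Ideal AlgInt} [M.IsPrime] [CharP (Block.ResF M) p]
  {G : Type u} [Group G] [Fintype G] (D : SD p M G)

/-- The pair of an element of the defect group below the maximal pair. -/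
def pr (v : D.P) : PairIdx M G := ⟨Subgroup.zpowers (v : G), (D.exists_pair v).choose⟩

theorem pr_sle (v : D.P) : SLE (pairSys M G) p (pr D v) ⟨D.P, D.e⟩ := (D.exists_pair v).choose_spec

theorem pr_pairOf (v : D.P) : PairOf (blockSysTop M) (pairSys M G) p D.B (pr D v) :=
  (pr_sle D v).pairOf_iff.1 D.maxPair.1

theorem pr_congr {v v' : D.P}
    (h : Subgroup.zpowers (v : G) = Subgroup.zpowers (v' : G)) : pr D v = pr D v' :=
  D.eq_of_sle (pr_sle D v) (pr_sle D v') h

theorem link_pr (v : D.P) : D.Link (v : G) (pr D v) (1, v) :=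
  ⟨by simp, _, pr_sle D v, rfl, cjRel_self_of_mem_stab (one_mem _)⟩

theorem mem_cls_iff {v v' : D.P} : v' ∈ cls D v ↔
    ∃ g : G, g * (v : G) * g⁻¹ = v' ∧ CjRel (pairSys M G) g (pr D v) (pr D v') := by
  rw [mem_cls]
  constructor
  · rintro ⟨g, b, hl, hb⟩
    have hb1 := hl.fst_eq
    obtain ⟨h1, b₀, hb₀, hb₀1, hb₀c⟩ := hl
    obtain rfl : b₀ = pr D v := D.eq_of_sle hb₀ (pr_sle D v) hb₀1
    obtain rfl : b = pr D v' := D.eq_of_sle hb (pr_sle D v') hb1
    exact ⟨g, h1, hb₀c⟩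
  · rintro ⟨g, h1, h2⟩
    exact ⟨g, _, ⟨h1, _, pr_sle D v, rfl, h2⟩, pr_sle D v'⟩

theorem orderOf_eq_of_mem_cls {v v' : D.P} (h : v' ∈ cls D v) :
    orderOf (v' : G) = orderOf (v : G) := by
  obtain ⟨g, hg, -⟩ := (mem_cls_iff D).1 h
  rw [← hg]
  exact MulEquiv.orderOf_eq (MulAut.conj g) _

/-- The matrix of the subsection of `v`. -/
def K (v : D.P) (χ ψ : G → ℂ) : ℂ :=
  (Nat.card (Subgroup.centralizer (Subgroup.zpowers (v : G) : Set G)) : ℂ)⁻¹ *
    secReg p (pr D v) (v : G) χ ψ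

theorem K_eq_of_mem_cls {v v' : D.P} (h : v' ∈ cls D v) (χ φ : IrrCharacter G) :
    K D v' (χ : G → ℂ) (φ : G → ℂ) = K D v (χ : G → ℂ) (φ : G → ℂ) := by
  obtain ⟨g, hg, hc⟩ := (mem_cls_iff D).1 h
  have hC := congrArg (fun S : Subgroup G => Nat.card S) (centralizer_cjRel hc)
  have hC' := Subgroup.card_map_of_injective (K := Subgroup.centralizer ((pr D v).1 : Set G))
    (f := (MulAut.conj g).toMonoidHom) (MulAut.conj g).injective
  replace hC := hC'.symm.trans hC
  have hs := secReg_cjRel (p := p) hc (v : G) (Char.irr_isClassFunction χ.2)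
    (Char.irr_isClassFunction φ.2)
  rw [hg] at hs
  rw [K, K, hs, show Nat.card (Subgroup.centralizer (Subgroup.zpowers (v' : G) : Set G)) =
    Nat.card (Subgroup.centralizer (Subgroup.zpowers (v : G) : Set G)) from hC.symm]

/-- The star products decompose along the fusion classes. -/
theorem classInner_gstar_eq {θ : D.P → ℂ} (hs : D.Stable θ) (χ φ : IrrCharacter G) :
    classInner (D.gstar θ (χ : G → ℂ)) (φ : G → ℂ) =
      ∑ v : D.P, θ v / ((cls D v).card : ℂ) * K D v (χ : G → ℂ) (φ : G → ℂ) := by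
  have hG0 : (Nat.card G : ℂ) ≠ 0 := Nat.cast_ne_zero.2 Nat.card_pos.ne'
  rw [classInner, inv_mul_eq_iff_eq_mul₀ hG0, D.sum_gstar_mul_conj, Finset.sum_sigma']
  set J := (pElts p G).sigma (fun w => pairsAt (M := M) w) with hJ
  let F : G × D.P → ℂ := fun x =>
    θ x.2 / ((cls D x.2).card : ℂ) * K D x.2 (χ : G → ℂ) (φ : G → ℂ)
  have huniq : ∀ x : G × D.P, (J.filter fun τ => D.Link τ.1 τ.2 x).card = 1 := by
    intro x
    obtain ⟨b, hb⟩ := exists_cjRel (S := pairSys M G) x.1 (pr D x.2)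
    have hl' : D.Link (x.1 * (x.2 : G) * x.1⁻¹) b x := ⟨rfl, _, pr_sle D x.2, rfl, hb⟩
    refine Finset.card_eq_one.2 ⟨⟨_, b⟩, Finset.eq_singleton_iff_unique_mem.2
      ⟨Finset.mem_filter.2 ⟨Finset.mem_sigma.2 ⟨mem_pElts.2 hl'.exists_orderOf,
        mem_pairsAt.2 hl'.fst_eq⟩, hl'⟩, ?_⟩⟩
    rintro ⟨w, c⟩ hc
    obtain ⟨hw, c₀, hc₀, hc₀1, hc₀c⟩ := (Finset.mem_filter.1 hc).2
    obtain rfl : x.1 * (x.2 : G) * x.1⁻¹ = w := hw
    obtain rfl : c₀ = pr D x.2 := D.eq_of_sle hc₀ (pr_sle D x.2) hc₀1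
    obtain rfl : c = b := hc₀c.unique hb
    rfl
  have hswap : ∑ τ ∈ J, ∑ x ∈ FusionCount.fibre D τ.1 τ.2, F x =
      (Nat.card G : ℂ) * ∑ v : D.P, F (1, v) := by
    have h1 : ∑ τ ∈ J, ∑ x ∈ FusionCount.fibre D τ.1 τ.2, F x =
        ∑ x : G × D.P, ∑ τ ∈ J.filter (fun τ => D.Link τ.1 τ.2 x), F x :=
      Finset.sum_comm' (fun τ x => by simp [FusionCount.fibre])
    rw [h1]
    simp only [Finset.sum_const, huniq, one_smul]
    rw [Fintype.sum_prod_type]
    simp only [F, Finset.sum_const, Finset.card_univ, nsmul_eq_mul, Nat.card_eq_fintype_card]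
  rw [← hswap]
  refine Finset.sum_congr rfl fun τ _ => ?_
  obtain ⟨w, a⟩ := τ
  by_cases hne : ∃ x, D.Link w a x
  · obtain ⟨⟨g₀, v₀⟩, h₀⟩ := hne
    show D.gv θ w a * _ = ∑ x ∈ FusionCount.fibre D w a, F x
    have hFx : ∀ x ∈ FusionCount.fibre D w a, F x = F (g₀, v₀) := by
      intro x hx
      have hLx := (Finset.mem_filter.1 hx).2
      have hm := mem_cls_of_link D h₀ hLx
      simp only [F]
      rw [K_eq_of_mem_cls D hm, cls_eq_of_mem D hm, hs w a x (g₀, v₀) hLx h₀]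
    rw [Finset.sum_congr rfl hFx, Finset.sum_const, FusionCount.card_fibre D h₀, nsmul_eq_mul,
      Nat.cast_mul, SD.gv_eq hs h₀]
    obtain ⟨e1, a₀, ha₀, ha₀1, ha₀c⟩ := h₀
    obtain rfl : a₀ = pr D v₀ := D.eq_of_sle ha₀ (pr_sle D v₀) ha₀1
    have hsr := secReg_cjRel (p := p) ha₀c (v₀ : G) (Char.irr_isClassFunction χ.2)
      (Char.irr_isClassFunction φ.2)
    rw [show g₀ * (v₀ : G) * g₀⁻¹ = w from e1] at hsr
    have hC := congrArg (fun S : Subgroup G => Nat.card S) (centralizer_cjRel ha₀c)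
    replace hC := (Subgroup.card_map_of_injective
      (K := Subgroup.centralizer ((pr D v₀).1 : Set G))
      (f := (MulAut.conj g₀).toMonoidHom) (MulAut.conj g₀).injective).symm.trans hC
    have ho : ((cls D v₀).card : ℂ) ≠ 0 :=
      Nat.cast_ne_zero.2 (Finset.card_pos.2 ⟨v₀, self_mem_cls D v₀⟩).ne'
    have hC0 : (Nat.card (Subgroup.centralizer (Subgroup.zpowers (v₀ : G) : Set G)) : ℂ) ≠ 0 :=
      Nat.cast_ne_zero.2 Nat.card_pos.ne'
    simp only [F, K, hsr]
    rw [show Nat.card (Subgroup.centralizer (a.1 : Set G)) =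
      Nat.card (Subgroup.centralizer (Subgroup.zpowers (v₀ : G) : Set G)) from hC.symm]
    field_simp
  · have he : FusionCount.fibre D w a = ∅ :=
      Finset.eq_empty_of_forall_notMem fun x hx => hne ⟨x, (Finset.mem_filter.1 hx).2⟩
    show D.gv θ w a * _ = ∑ x ∈ FusionCount.fibre D w a, F x
    rw [he, Finset.sum_empty, SD.gv_eq_zero fun x hx => hne ⟨x, hx⟩, zero_mul]

theorem gstar_one {χ : IrrCharacter G} (hχ : χ ∈ D.B.1) :
    D.gstar (fun _ => 1) (χ : G → ℂ) = (χ : G → ℂ) := by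
  have h : D.gv (fun _ => 1) = D.lt 1 := by
    funext w a
    unfold SD.gv SD.lt
    split <;> simp
  rw [SD.gstar, h]
  exact D.star_one_char hχ

/-- The identity of the block is the sum of the projections. -/
theorem delta_eq {χ : IrrCharacter G} (hχ : χ ∈ D.B.1) (φ : IrrCharacter G) :
    ∑ v : D.P, K D v (χ : G → ℂ) (φ : G → ℂ) / ((cls D v).card : ℂ) =
      if χ = φ then 1 else 0 := by
  have h := classInner_gstar_eq D (θ := fun _ => 1) (fun _ _ _ _ _ _ => rfl) χ φ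
  rw [gstar_one D hχ] at h
  rw [Finset.sum_congr rfl fun v _ => show K D v (χ : G → ℂ) (φ : G → ℂ) / ((cls D v).card : ℂ) =
    1 / ((cls D v).card : ℂ) * K D v (χ : G → ℂ) (φ : G → ℂ) by ring, ← h]
  split_ifs with e
  · rw [e, Char.classInner_irr_self φ.2]
  · exact Char.classInner_irr_ne χ.2 φ.2 fun h' => e (Subtype.ext h')

/-- The integrality given by a fusion stable character of the defect group. -/
theorem exists_int_K {θ : D.P → ℂ} (hθ : IsCharacter D.P θ) (hs : D.Stable θ)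
    (χ φ : IrrCharacter G) :
    ∃ k : ℤ, ∑ v : D.P, θ v / ((cls D v).card : ℂ) * K D v (χ : G → ℂ) (φ : G → ℂ) = k := by
  obtain ⟨k, hk⟩ := D.exists_int_gstar hθ hs χ φ
  exact ⟨k, by rw [← classInner_gstar_eq D hs, hk]⟩

/-- The exponent used for all the subsections. -/
theorem exists_section (v : D.P) {k : ℕ} (hk : (v : G) ^ p ^ k = 1) :
    IsSection p k (v : G) (Subgroup.centralizer (Subgroup.zpowers (v : G) : Set G)) :=
  isSection_of_zpowers rfl hk

theorem isInducedBlock_pr (v : D.P) :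
    IsInducedBlock M (Subgroup.centralizer (Subgroup.zpowers (v : G) : Set G)) (pr D v).2.1
      D.B.1 :=
  (BlockCover.isInducedBlock_iff_pairOf (D.isPGroup.to_le (Subgroup.zpowers_le.2 v.2)) (pr D v).2
    D.B).2 (pr_pairOf D v)

theorem K_swap (v : D.P) (χ φ : G → ℂ) : conj (K D v χ φ) = K D v φ χ := by
  rw [K, K, map_mul (starRingEnd ℂ), map_inv₀, map_natCast]
  congr 1
  rw [secReg, secReg, map_sum]
  exact Finset.sum_congr rfl fun y _ => by rw [map_mul (starRingEnd ℂ), Complex.conj_conj, mul_comm]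

theorem exists_exp (v : D.P) : ∃ k : ℕ, k ≠ 0 ∧ (v : G) ^ p ^ k = 1 := by
  obtain ⟨i, hi⟩ := D.exists_orderOf v
  exact ⟨i + 1, Nat.succ_ne_zero i,
    orderOf_dvd_iff_pow_eq_one.1 (hi ▸ pow_dvd_pow p i.le_succ)⟩

/-- The projection in terms of the parts. -/
theorem K_eq_regSum (v : D.P) {k : ℕ} (hk0 : k ≠ 0) (hk : (v : G) ^ p ^ k = 1)
    (χ φ : IrrCharacter G) :
    K D v (χ : G → ℂ) (φ : G → ℂ) =
      (Nat.card (Subgroup.centralizer (Subgroup.zpowers (v : G) : Set G)) : ℂ)⁻¹ *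
        Brauer.regSum p (part (exists_section D v hk) (pr D v).2.1 χ 1)
          (part (exists_section D v hk) (pr D v).2.1 φ 1) := by
  haveI : Fact (1 < p ^ k) := ⟨Nat.one_lt_pow hk0 (Fact.out : p.Prime).one_lt⟩
  have h := secReg_eq_cM (exists_section D v hk) (pr D v).2 χ φ (1 : ZMod (p ^ k))
  rw [cM, ZMod.val_one, pow_one] at h
  have hp0 : ((p ^ blockDefect p (pr D v).2.1 : ℕ) : ℂ) ≠ 0 :=
    Nat.cast_ne_zero.2 (pow_ne_zero _ (Fact.out : p.Prime).ne_zero)
  have hC0 : (Nat.card (Subgroup.centralizer (Subgroup.zpowers (v : G) : Set G)) : ℂ) ≠ 0 :=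
    Nat.cast_ne_zero.2 Nat.card_pos.ne'
  rw [mul_eq_mul_left_iff] at h
  rw [K]
  congr 1
  exact h.resolve_right (div_ne_zero hp0 hC0)

/-- The projection in terms of the contributions. -/
theorem cM_eq_mul_K (v : D.P) {k : ℕ} (hk0 : k ≠ 0) (hk : (v : G) ^ p ^ k = 1)
    (χ φ : IrrCharacter G) :
    cM (exists_section D v hk) (pr D v).2.1 χ φ 1 =
      ((p ^ blockDefect p (pr D v).2.1 : ℕ) : ℂ) * K D v (χ : G → ℂ) (φ : G → ℂ) := by
  rw [K_eq_regSum D v hk0 hk]
  unfold cM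
  rw [div_eq_mul_inv]
  exact mul_assoc _ _ _

theorem K_eq_zero_left (v : D.P) {χ : IrrCharacter G} (hχ : χ ∉ D.B.1) (φ : IrrCharacter G) :
    K D v (χ : G → ℂ) (φ : G → ℂ) = 0 := by
  obtain ⟨k, hk0, hk⟩ := exists_exp D v
  rw [K_eq_regSum D v hk0 hk, part_eq_zero_of_notMem (exists_section D v hk) D.isPModular
    (isInducedBlock_pr D v) hχ isUnit_one]
  simp [Brauer.regSum]

theorem K_eq_zero_right (v : D.P) (χ : IrrCharacter G) {φ : IrrCharacter G} (hφ : φ ∉ D.B.1) :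
    K D v (χ : G → ℂ) (φ : G → ℂ) = 0 := by
  rw [← K_swap, K_eq_zero_left D v hφ, map_zero]

theorem K_idem (v : D.P) (χ φ : IrrCharacter G) :
    ∑ ψ : IrrCharacter G, K D v (χ : G → ℂ) (ψ : G → ℂ) * K D v (ψ : G → ℂ) (φ : G → ℂ) =
      K D v (χ : G → ℂ) (φ : G → ℂ) := by
  obtain ⟨k, hk0, hk⟩ := exists_exp D v
  set hS := exists_section D v hk
  obtain ⟨hw, hwp⟩ := pow_section hS (j := (1 : ZMod (p ^ k))) isUnit_one
  have hb := (isInducedBlock_pr D v).1
  have h := section_orth (p := p) (f := part hS (pr D v).2.1 χ 1)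
    (g := part hS (pr D v).2.1 φ 1) hw hwp
    (span_isClassFunction (part_mem_span hS (pr D v).2.1 φ 1))
  have hterm : ∀ ψ : IrrCharacter G,
      Brauer.regSum p (fun y : Subgroup.centralizer (Subgroup.zpowers (v : G) : Set G) =>
        (ψ : G → ℂ) ((v : G) ^ (1 : ZMod (p ^ k)).val * y))
        (part hS (pr D v).2.1 χ 1) =
      Brauer.regSum p (part hS (pr D v).2.1 ψ 1) (part hS (pr D v).2.1 χ 1) := fun ψ => by
    rw [← Brauer.regSum_conj, regSum_section_right hS D.isPModular hb ψ 1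
      (part_mem_span hS (pr D v).2.1 χ 1), Brauer.regSum_conj]
  have hterm' : ∀ ψ : IrrCharacter G,
      conj (Brauer.regSum p (fun y : Subgroup.centralizer (Subgroup.zpowers (v : G) : Set G) =>
        (ψ : G → ℂ) ((v : G) ^ (1 : ZMod (p ^ k)).val * y))
        (part hS (pr D v).2.1 φ 1)) =
      Brauer.regSum p (part hS (pr D v).2.1 φ 1) (part hS (pr D v).2.1 ψ 1) := fun ψ => by
    rw [Brauer.regSum_conj, regSum_section_right hS D.isPModular hb ψ 1
      (part_mem_span hS (pr D v).2.1 φ 1)]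
  simp only [hterm, hterm'] at h
  have h' := congrArg conj h
  simp only [map_sum, map_mul (starRingEnd ℂ), map_natCast, Brauer.regSum_conj] at h'
  have hC0 : (Nat.card (Subgroup.centralizer (Subgroup.zpowers (v : G) : Set G)) : ℂ) ≠ 0 :=
    Nat.cast_ne_zero.2 Nat.card_pos.ne'
  simp only [K_eq_regSum D v hk0 hk]
  rw [Finset.sum_congr rfl fun ψ _ => mul_mul_mul_comm _ _ _ _, ← Finset.mul_sum, h']
  field_simp

theorem normSq_K_sum (v : D.P) (χ : IrrCharacter G) :
    ((∑ ψ : IrrCharacter G, Complex.normSq (K D v (χ : G → ℂ) (ψ : G → ℂ)) : ℝ) : ℂ) =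
      K D v (χ : G → ℂ) (χ : G → ℂ) := by
  rw [← K_idem D v χ χ, Complex.ofReal_sum]
  exact Finset.sum_congr rfl fun ψ _ => by rw [← Complex.mul_conj, K_swap]

theorem K_eq_zero_of_self (v : D.P) {χ : IrrCharacter G} (h : K D v (χ : G → ℂ) (χ : G → ℂ) = 0)
    (ψ : IrrCharacter G) :
    K D v (χ : G → ℂ) (ψ : G → ℂ) = 0 ∧ K D v (ψ : G → ℂ) (χ : G → ℂ) = 0 := by
  have h1 := normSq_K_sum D v χ
  rw [h, Complex.ofReal_eq_zero] at h1
  have h2 := Complex.normSq_eq_zero.1 ((Finset.sum_eq_zero_iff_of_nonneg fun ψ _ =>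
    Complex.normSq_nonneg _).1 h1 ψ (Finset.mem_univ _))
  exact ⟨h2, by rw [← K_swap, h2, map_zero]⟩

theorem sum_K_self (v : D.P) :
    ∑ χ : D.B.1, K D v ((χ : IrrCharacter G) : G → ℂ) ((χ : IrrCharacter G) : G → ℂ) =
      (blockRank p (pr D v).2.1 : ℂ) := by
  obtain ⟨k, hk⟩ := D.exists_orderOf v
  have h := sum_secReg_self D hk (a := pr D v) rfl (pr_pairOf D v)
  rw [Finset.sum_subtype (p := fun φ => φ ∈ D.B.1) (Finset.univ.filter (· ∈ D.B.1)) (by simp)
    (fun φ => secReg p (pr D v) (v : G) (φ : G → ℂ) (φ : G → ℂ))] at h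
  simp only [K, ← Finset.mul_sum]
  rw [h]
  exact inv_mul_cancel_left₀ (Nat.cast_ne_zero.2 Nat.card_pos.ne') _

/-- The image of the projection has at most the dimension of the rank. -/
theorem exists_constraints (v : D.P) :
    ∃ L : (D.B.1 → ℂ) →ₗ[ℂ] (Fin (blockRank p (pr D v).2.1) → ℂ), ∀ c, L c = 0 →
      ∀ φ : IrrCharacter G,
        ∑ χ : D.B.1, c χ * K D v ((χ : IrrCharacter G) : G → ℂ) (φ : G → ℂ) = 0 := by
  obtain ⟨k, hk0, hk⟩ := exists_exp D v
  set hS := exists_section D v hk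
  set V := Submodule.span ℂ
    ((fun η : IrrCharacter (Subgroup.centralizer (Subgroup.zpowers (v : G) : Set G)) =>
      pRegularPart p (η : Subgroup.centralizer (Subgroup.zpowers (v : G) : Set G) → ℂ)) ''
      (pr D v).2.1) with hV
  haveI : Module.Finite ℂ V := inferInstance
  let b : Module.Basis (Fin (blockRank p (pr D v).2.1)) ℂ V := Module.finBasisOfFinrankEq ℂ V rfl
  let T : (D.B.1 → ℂ) →ₗ[ℂ] V := Fintype.linearCombination ℂ fun χ : D.B.1 =>
    (⟨part hS (pr D v).2.1 χ 1, part_mem_span hS (pr D v).2.1 χ 1⟩ : V)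
  refine ⟨b.equivFun.toLinearMap.comp T, fun c hc φ => ?_⟩
  have h1 : T c = 0 := b.equivFun.injective (by simpa using hc)
  have h2 := congrArg (fun x : V =>
    (x : Subgroup.centralizer (Subgroup.zpowers (v : G) : Set G) → ℂ)) h1
  simp only [T, Fintype.linearCombination_apply, Submodule.coe_sum, Submodule.coe_smul,
    Submodule.coe_zero] at h2
  have h3 := congrArg (fun f => Brauer.regSum p f (part hS (pr D v).2.1 φ 1)) h2
  simp only [regSum_sum_left, regSum_smul_left] at h3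
  simp only [K_eq_regSum D v hk0 hk, mul_left_comm (c _), ← Finset.mul_sum]
  rw [h3]
  simp [Brauer.regSum]

/-- Members with orthogonal rows are no more than the rank. -/
theorem card_le_rank (v : D.P) (T : Finset D.B.1)
    (h0 : ∀ χ ∈ T, K D v ((χ : IrrCharacter G) : G → ℂ) ((χ : IrrCharacter G) : G → ℂ) ≠ 0)
    (h1 : ∀ χ ∈ T, ∀ ψ ∈ T, χ ≠ ψ →
      K D v ((χ : IrrCharacter G) : G → ℂ) ((ψ : IrrCharacter G) : G → ℂ) = 0) :
    T.card ≤ blockRank p (pr D v).2.1 := by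
  obtain ⟨L, hL⟩ := exists_constraints D v
  have hli : LinearIndependent ℂ fun χ : T => L (Pi.single χ.1 1) := by
    rw [Fintype.linearIndependent_iff]
    intro g hg χ0
    have hc : L (∑ χ : T, g χ • Pi.single χ.1 (1 : ℂ)) = 0 := by
      rw [map_sum, ← hg]
      simp only [map_smul]
    have h2 := hL _ hc χ0.1.1
    simp only [Finset.sum_apply, Pi.smul_apply, smul_eq_mul, Finset.sum_mul, mul_assoc] at h2
    rw [Finset.sum_comm] at h2
    simp only [← Finset.mul_sum] at h2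
    rw [Finset.sum_eq_single χ0 (fun χ _ hne => ?_) (by simp)] at h2
    · rw [Finset.sum_eq_single χ0.1 (fun ψ _ hne => by simp [Pi.single_apply, hne]) (by simp),
        Pi.single_eq_same, one_mul] at h2
      exact (mul_eq_zero.1 h2).resolve_right (h0 _ χ0.2)
    · rw [Finset.sum_eq_single χ.1 (fun ψ _ hne' => by simp [Pi.single_apply, hne']) (by simp),
        Pi.single_eq_same, one_mul, h1 _ χ.2 _ χ0.2 fun e => hne (Subtype.ext e), mul_zero]
  have := hli.fintype_card_le_finrank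
  simpa using this

/-- The projections of different classes are orthogonal. -/
theorem K_orth {v d : D.P} (h : v ∉ cls D d) (χ φ : IrrCharacter G) :
    ∑ ψ : IrrCharacter G, K D d (χ : G → ℂ) (ψ : G → ℂ) * K D v (ψ : G → ℂ) (φ : G → ℂ) = 0 := by
  set n : D.P → ℝ := fun w => ∑ φ : IrrCharacter G, Complex.normSq
    (∑ ψ : IrrCharacter G, K D d (χ : G → ℂ) (ψ : G → ℂ) * K D w (ψ : G → ℂ) (φ : G → ℂ)) with hn
  -- the norm of the image under a projection
  have hn' : ∀ w : D.P, (n w : ℂ) = ∑ ψ : IrrCharacter G, ∑ ψ' : IrrCharacter G,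
      K D d (χ : G → ℂ) (ψ : G → ℂ) * K D w (ψ : G → ℂ) (ψ' : G → ℂ) *
        K D d (ψ' : G → ℂ) (χ : G → ℂ) := by
    intro w
    rw [hn, Complex.ofReal_sum]
    simp only [← Complex.mul_conj, map_sum, map_mul (starRingEnd ℂ), K_swap, Finset.sum_mul,
      Finset.mul_sum]
    rw [Finset.sum_comm]
    conv_rhs => rw [Finset.sum_comm]
    refine Finset.sum_congr rfl fun ψ _ => ?_
    rw [Finset.sum_comm]
    refine Finset.sum_congr rfl fun ψ' _ => ?_
    rw [← K_idem D w ψ' ψ, Finset.mul_sum, Finset.sum_mul]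
    exact Finset.sum_congr rfl fun φ _ => by ring
  have htot : ∑ w : D.P, (n w : ℂ) / ((cls D w).card : ℂ) =
      K D d (χ : G → ℂ) (χ : G → ℂ) := by
    simp only [hn', Finset.sum_div]
    rw [← K_idem D d χ χ, Finset.sum_comm]
    refine Finset.sum_congr rfl fun ψ _ => ?_
    rw [Finset.sum_comm]
    by_cases hψ : ψ ∈ D.B.1
    · rw [Finset.sum_eq_single ψ (fun ψ' _ hne => ?_) (by simp)]
      · rw [Finset.sum_congr rfl fun w _ => show
            K D d (χ : G → ℂ) (ψ : G → ℂ) * K D w (ψ : G → ℂ) (ψ : G → ℂ) *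
              K D d (ψ : G → ℂ) (χ : G → ℂ) / ((cls D w).card : ℂ) =
            K D d (χ : G → ℂ) (ψ : G → ℂ) * K D d (ψ : G → ℂ) (χ : G → ℂ) *
              (K D w (ψ : G → ℂ) (ψ : G → ℂ) / ((cls D w).card : ℂ)) by ring, ← Finset.mul_sum,
          delta_eq D hψ, if_pos rfl, mul_one]
      · rw [Finset.sum_congr rfl fun w _ => show
            K D d (χ : G → ℂ) (ψ : G → ℂ) * K D w (ψ : G → ℂ) (ψ' : G → ℂ) *
              K D d (ψ' : G → ℂ) (χ : G → ℂ) / ((cls D w).card : ℂ) =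
            K D d (χ : G → ℂ) (ψ : G → ℂ) * K D d (ψ' : G → ℂ) (χ : G → ℂ) *
              (K D w (ψ : G → ℂ) (ψ' : G → ℂ) / ((cls D w).card : ℂ)) by ring, ← Finset.mul_sum,
          delta_eq D hψ, if_neg (Ne.symm hne), mul_zero]
    · simp [K_eq_zero_right D d χ hψ]
  have hd : ∀ w ∈ cls D d, (n w : ℂ) = K D d (χ : G → ℂ) (χ : G → ℂ) := by
    intro w hw
    rw [hn']
    simp only [fun ψ ψ' : IrrCharacter G => K_eq_of_mem_cls D hw ψ ψ', ← Finset.sum_mul]
    rw [Finset.sum_comm]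
    simp only [← Finset.sum_mul, K_idem]
  have hcls : ∑ w ∈ cls D d, (n w : ℂ) / ((cls D w).card : ℂ) =
      K D d (χ : G → ℂ) (χ : G → ℂ) := by
    rw [Finset.sum_congr rfl fun w hw => by rw [hd w hw, cls_eq_of_mem D hw], Finset.sum_const,
      nsmul_eq_mul]
    exact mul_div_cancel₀ _ (Nat.cast_ne_zero.2 (Finset.card_pos.2 ⟨d, self_mem_cls D d⟩).ne')
  have hrest : ∑ w ∈ Finset.univ \ cls D d, n w / ((cls D w).card : ℝ) = 0 := by
    apply Complex.ofReal_injective
    push_cast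
    rw [Finset.sum_sdiff_eq_sub (Finset.subset_univ _), htot, hcls, sub_self]
  have h2 := (Finset.sum_eq_zero_iff_of_nonneg fun w _ => div_nonneg
    (Finset.sum_nonneg fun φ _ => Complex.normSq_nonneg _) (Nat.cast_nonneg _)).1 hrest v
      (by simp [h])
  rw [div_eq_zero_iff, or_iff_left (Nat.cast_ne_zero.2
    (Finset.card_pos.2 ⟨v, self_mem_cls D v⟩).ne')] at h2
  exact Complex.normSq_eq_zero.1 ((Finset.sum_eq_zero_iff_of_nonneg fun φ _ =>
    Complex.normSq_nonneg _).1 h2 φ (Finset.mem_univ _))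

end Cfsg.Agent.BlockTame
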